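import Mathlib

/-!
Definitions for the ladder "BLK" (odd `p`-groups of rank at most two).
`N` is a normal elementary abelian subgroup of order `p ^ 2`, `x` an element of order `p`
outside `C = C_G(N)`, and every element of order `p` of `C` lies in `N`.
-/

set_option autoImplicit false

namespace Cfsg.Agent.Lib.Helper42.Blk

/-- the frame hypotheses -/
structure Frame {G : Type*} [Group G] (p : ℕ) (N : Subgroup G) (x : G) : Prop where
  pgroup : IsPGroup p G
  odd : p ≠ 2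
  normal : N.Normal
  card : Nat.card N = p ^ 2
  exp : ∀ a ∈ N, a ^ p = 1
  comm : ∀ a ∈ N, ∀ b ∈ N, a * b = b * a
  xp : x ^ p = 1
  xC : x ∉ Subgroup.centralizer (N : Set G)
  omega : ∀ c ∈ Subgroup.centralizer (N : Set G), c ^ p = 1 → c ∈ N
  decomp : ∀ g : G, ∃ i : ℕ, ∃ c ∈ Subgroup.centralizer (N : Set G), g = x ^ i * c

/-- `ps x c = [c, x]`, so that `x⁻¹ * c * x = c * ps x c` -/
def ps {G : Type*} [Group G] (x c : G) : G := c⁻¹ * x⁻¹ * c * x

/-- `c` lies in `C` and normalizes `N ⟨x⟩` -/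
def InC1 {G : Type*} [Group G] (N : Subgroup G) (x c : G) : Prop :=
  c ∈ Subgroup.centralizer (N : Set G) ∧ ps x c ∈ N

/-- `z₀` generates `[N, x] = C_N(x)` -/
structure ZData {G : Type*} [Group G] (N : Subgroup G) (x z₀ : G) : Prop where
  memN : z₀ ∈ N
  ne : z₀ ≠ 1
  central : z₀ ∈ Subgroup.center G
  comm_mem : ∀ v ∈ N, ps x v ∈ Subgroup.zpowers z₀
  fix : ∀ v ∈ N, ps x v = 1 → v ∈ Subgroup.zpowers z₀
  surj : ∃ v ∈ N, ps x v = z₀

end Cfsg.Agent.Lib.Helper42.Blk
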