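import Mathlib
import Cfsg.Agent.S0112
import Cfsg.Agent.Lib.Helper3.Metacyclic
import Cfsg.Agent.Lib.Helper3.RankThree
import Cfsg.Agent.Lib.Helper59.UniqueOdd

set_option autoImplicit false

namespace Cfsg.Agent.Lib.Helper42.Blk

open Cfsg.Agent.Lib.Helper3

/-- `p`-th powers lie in the centralizer of a normal subgroup of order `p ^ 2` -/
theorem pow_mem_centralizer {G : Type*} [Group G] [Finite G] {p : ℕ} [Fact p.Prime]
    (hG : IsPGroup p G) (N : Subgroup G) [N.Normal] (hNc : Nat.card N = p ^ 2) (g : G) :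
    g ^ p ∈ Subgroup.centralizer (N : Set G) := by
  have hpp : p.Prime := Fact.out
  set C := Subgroup.centralizer (N : Set G) with hC
  have hCn : C.Normal := inferInstance
  have hidx : C.index ≤ p := index_centralizer_le hG N hNc.le
  have hdvd : Nat.card (G ⧸ C) ∣ p := by
    have h1 : Nat.card (G ⧸ C) = C.index := rfl
    obtain ⟨k, hk⟩ := (hG.to_quotient C).exists_card_eq
    rw [hk]
    rw [h1] at hk
    have hk1 : k ≤ 1 := by
      by_contra h
      push Not at h
      have h2 : p ^ 2 ≤ p ^ k := Nat.pow_le_pow_right hpp.pos h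
      have h3 : p < p ^ 2 := by
        have := hpp.two_le
        nlinarith
      omega
    calc p ^ k ∣ p ^ 1 := pow_dvd_pow p hk1
      _ = p := pow_one p
  apply (QuotientGroup.eq_one_iff _).mp
  have h2 : (QuotientGroup.mk' C g) ^ p = 1 := by
    obtain ⟨m, hm⟩ := hdvd
    rw [hm, pow_mul, pow_card_eq_one', one_pow]
  exact h2

/-- RUNG A1 -/
theorem maxClass_of_outer {G : Type*} [Group G] [Finite G] {p : ℕ} [Fact p.Prime] (hp : p ≠ 2)
    (n : ℕ) (hG : Nat.card G = p ^ n) (N : Subgroup G) [N.Normal] (hNc : Nat.card N = p ^ 2)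
    (hΩ : ∀ g : G, g ^ p = 1 → g ∈ N) (x : G) (hx : x ^ p ^ 2 = 1)
    (hxC : x ∉ Subgroup.centralizer (N : Set G)) : Group.nilpotencyClass G = n - 1 := by
  have hpp : p.Prime := Fact.out
  have hPG : IsPGroup p G := IsPGroup.of_card hG
  have hNcm : IsMulCommutative N := IsPGroup.isMulCommutative_of_card_eq_prime_sq hNc
  have hxN : x ∉ N := by
    intro h
    apply hxC
    rw [Subgroup.mem_centralizer_iff]
    intro v hv
    have := hNcm.is_comm.comm ⟨v, hv⟩ ⟨x, h⟩
    simpa using congrArg Subtype.val this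
  have hxp : x ^ p ≠ 1 := fun h => hxN (hΩ x h)
  have hxo : orderOf x = p ^ 2 := by
    have := orderOf_eq_prime_pow (p := p) (n := 1) (x := x) (by rwa [pow_one]) hx
    exact this
  set D := Subgroup.centralizer ({x} : Set G) with hD
  have hmemD : ∀ g : G, g ∈ D ↔ x * g = g * x := by
    intro g
    rw [hD, Subgroup.mem_centralizer_iff]
    simp
  -- `N ⊓ D` has order at most `p`
  have hM : Nat.card (N ⊓ D : Subgroup G) ≤ p := by
    have hlt : N ⊓ D < N := by
      refine lt_of_le_of_ne inf_le_left (fun h => hxC ?_)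
      rw [Subgroup.mem_centralizer_iff]
      intro v hv
      have hv' : v ∈ N ⊓ D := by rw [h]; exact hv
      exact ((hmemD v).mp hv'.2).symm
    have h2 := card_mul_le_of_lt hPG hlt
    rw [hNc, pow_two] at h2
    exact Nat.le_of_mul_le_mul_left h2 hpp.pos
  have hzp : ∀ a : G, a ∈ D → orderOf a = p → Subgroup.zpowers a = N ⊓ D := by
    intro a haD hao
    apply Subgroup.eq_of_le_of_card_ge
    · rw [Subgroup.zpowers_le]
      exact ⟨hΩ a (by rw [← hao]; exact pow_orderOf_eq_one a), haD⟩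
    · rw [Nat.card_zpowers, hao]
      exact hM
  have hcyc : IsCyclic D := by
    apply Cfsg.Agent.Lib.Helper59.isCyclic_of_unique_odd hp (hPG.to_subgroup D)
    intro a b ha hb
    have ha' : orderOf (a : G) = p := by rw [Subgroup.orderOf_coe]; exact ha
    have hb' : orderOf (b : G) = p := by rw [Subgroup.orderOf_coe]; exact hb
    have h1 : (b : G) ∈ Subgroup.zpowers (a : G) := by
      rw [hzp a a.2 ha', ← hzp b b.2 hb']
      exact Subgroup.mem_zpowers _
    obtain ⟨k, hk⟩ := Subgroup.mem_zpowers_iff.mp h1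
    exact Subgroup.mem_zpowers_iff.mpr ⟨k, Subtype.ext (by simpa using hk)⟩
  obtain ⟨w, hw⟩ := hcyc.exists_generator
  have hxD : x ∈ D := (hmemD x).mpr rfl
  obtain ⟨k, hk⟩ := Subgroup.mem_zpowers_iff.mp (hw ⟨x, hxD⟩)
  have hk' : (w : G) ^ k = x := by simpa using congrArg Subtype.val hk
  have hkp : ¬ (p : ℤ) ∣ k := by
    rintro ⟨m, rfl⟩
    apply hxC
    rw [← hk', mul_comm, zpow_mul, zpow_natCast]
    exact pow_mem_centralizer hPG N hNc _
  have hwx : (w : G) ∈ Subgroup.zpowers x := by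
    obtain ⟨r, hr⟩ := (IsPGroup.iff_orderOf.mp hPG) (w : G)
    have hcop : IsCoprime k ((p : ℤ) ^ r) :=
      (((Nat.prime_iff_prime_int.mp hpp).coprime_iff_not_dvd.mpr hkp).symm).pow_right
    obtain ⟨u, v, huv⟩ := hcop
    have h1 : (w : G) ^ (v * (p : ℤ) ^ r) = 1 := by
      rw [mul_comm, zpow_mul]
      have : (w : G) ^ ((p : ℤ) ^ r) = 1 := by
        have h2 := pow_orderOf_eq_one (w : G)
        rw [hr] at h2
        exact_mod_cast h2
      rw [this, one_zpow]
    have h2 : (w : G) = x ^ u := by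
      calc (w : G) = (w : G) ^ (u * k + v * (p : ℤ) ^ r) := by rw [huv, zpow_one]
        _ = (w : G) ^ (u * k) := by rw [zpow_add, h1, mul_one]
        _ = x ^ u := by rw [mul_comm, zpow_mul, hk']
    rw [h2]
    exact Subgroup.zpow_mem _ (Subgroup.mem_zpowers x) u
  have hDle : D ≤ Subgroup.zpowers x := by
    intro g hg
    obtain ⟨j, hj⟩ := Subgroup.mem_zpowers_iff.mp (hw ⟨g, hg⟩)
    have hj' : (w : G) ^ j = g := by simpa using congrArg Subtype.val hj
    rw [← hj']
    exact Subgroup.zpow_mem _ hwx j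
  apply Cfsg.Agent.S0112.result n hG (Subgroup.zpowers x) (by rw [Nat.card_zpowers, hxo])
  apply le_antisymm
  · intro g hg
    apply hDle
    rw [hmemD]
    exact Subgroup.mem_centralizer_iff.mp hg x (Subgroup.mem_zpowers x)
  · intro g hg
    obtain ⟨j, rfl⟩ := Subgroup.mem_zpowers_iff.mp hg
    rw [Subgroup.mem_centralizer_iff]
    intro h hh
    obtain ⟨i, rfl⟩ := Subgroup.mem_zpowers_iff.mp hh
    exact ((Commute.refl x).zpow_zpow i j).eq

end Cfsg.Agent.Lib.Helper42.Blk
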