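import Mathlib
import Cfsg.Prelude.Def_PLocal
import Cfsg.Agent.S0126
import Cfsg.Agent.Lib.Helper3.Metacyclic
import Cfsg.Agent.Lib.Helper3.OmegaQuotient
import Cfsg.Agent.Lib.Helper59.UniqueOdd
import Cfsg.Agent.Lib.Helper70.Kulakoff

set_option autoImplicit false

namespace Cfsg.Agent.Lib.Helper42.Blk

open Cfsg.Agent.Lib.Helper3
open scoped commutatorElement

/-- a subgroup of exponent `p` and order `> p ^ 2` when `Ω₁` is large (`p` odd) -/
theorem exists_exponent_of_omega_large {Q : Type*} [Group Q] [Finite Q] {p : ℕ} [Fact p.Prime]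
    (hp : p ≠ 2) (hQ : IsPGroup p Q)
    (hlt : p ^ 2 < Nat.card (Cfsg.omegaOne p (⊤ : Subgroup Q))) :
    ∃ X : Subgroup Q, (∀ x ∈ X, x ^ p = 1) ∧ p ^ 2 < Nat.card X := by
  have hpp : p.Prime := Fact.out
  by_cases hcyc : IsCyclic Q
  · refine ⟨Cfsg.omegaOne p (⊤ : Subgroup Q), ?_, hlt⟩
    have hcomm : ∀ a b : Q, Commute a b := by
      intro a b
      obtain ⟨w, hw⟩ := hcyc.exists_generator
      obtain ⟨i, rfl⟩ := Subgroup.mem_zpowers_iff.mp (hw a)
      obtain ⟨j, rfl⟩ := Subgroup.mem_zpowers_iff.mp (hw b)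
      exact (Commute.refl w).zpow_zpow i j
    intro x hx
    change x ∈ Subgroup.closure {x : Q | x ∈ (⊤ : Subgroup Q) ∧ x ^ p = 1} at hx
    induction hx using Subgroup.closure_induction with
    | mem x hx => exact hx.2
    | one => exact one_pow _
    | mul x y _ _ hx hy => rw [(hcomm x y).mul_pow, hx, hy, one_mul]
    | inv x _ hx => rw [inv_pow, hx, inv_one]
  obtain ⟨NQ, hNn, ⟨_, hNe⟩, hNc⟩ := Cfsg.Agent.S0126.result hp hQ hcyc
  have hex : ∃ y : Q, y ^ p = 1 ∧ y ∉ NQ := by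
    by_contra hcon
    push Not at hcon
    have hle : Cfsg.omegaOne p (⊤ : Subgroup Q) ≤ NQ := by
      show Subgroup.closure {x : Q | x ∈ (⊤ : Subgroup Q) ∧ x ^ p = 1} ≤ NQ
      rw [Subgroup.closure_le]
      intro g hg
      exact hcon g hg.2
    have := Subgroup.card_le_of_le hle
    omega
  obtain ⟨y, hy, hyN⟩ := hex
  refine ⟨Subgroup.zpowers y ⊔ NQ, ?_, ?_⟩
  · intro g hg
    rw [← SetLike.mem_coe, Subgroup.mul_normal] at hg
    obtain ⟨a, ha, v, hv, rfl⟩ := hg
    obtain ⟨i, rfl⟩ := Subgroup.mem_zpowers_iff.mp ha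
    rw [Cfsg.Agent.Lib.Helper70.mul_pow_prime_of_normal_card_sq hp hQ NQ hNc hNe v hv,
      ← zpow_natCast, ← zpow_mul, mul_comm, zpow_mul, zpow_natCast, hy, one_zpow]
  · have hlt2 : NQ < Subgroup.zpowers y ⊔ NQ := by
      refine lt_of_le_of_ne le_sup_right (fun h => hyN ?_)
      rw [h]
      exact (le_sup_left : Subgroup.zpowers y ≤ _) (Subgroup.mem_zpowers y)
    have h2 := card_mul_le_of_lt hQ hlt2
    rw [hNc] at h2
    have h3 : p ^ 2 < p * p ^ 2 := by
      have := hpp.two_le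
      have h4 : 0 < p ^ 2 := pow_pos hpp.pos 2
      nlinarith
    omega

/-- RUNG A2 -/
theorem omega_quotient_three {R : Type*} [Group R] [Finite R] (hR : IsPGroup 3 R)
    (N : Subgroup R) [N.Normal] (hNc : Nat.card N = 3 ^ 2) (hNe : ∀ a ∈ N, a ^ 3 = 1)
    (hΩ : ∀ g : R, g ^ 3 = 1 → g ∈ N)
    (hC : ∀ x : R, x ^ 3 ^ 2 = 1 → x ∈ Subgroup.centralizer (N : Set R))
    (z : R) (hz : z ∈ Subgroup.center R) (hzo : orderOf z = 3) [(Subgroup.zpowers z).Normal] :
    Nat.card (Cfsg.omegaOne 3 (⊤ : Subgroup (R ⧸ Subgroup.zpowers z))) ≤ 3 ^ 2 := by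
  have : Fact (Nat.Prime 3) := ⟨Nat.prime_three⟩
  set T := Subgroup.zpowers z with hT
  have hTcard : Nat.card T = 3 := by rw [hT, Nat.card_zpowers, hzo]
  have hz3 : z ^ 3 = 1 := by rw [← hzo]; exact pow_orderOf_eq_one z
  have hQ : IsPGroup 3 (R ⧸ T) := hR.to_quotient T
  by_contra hlt
  push Not at hlt
  obtain ⟨X, hXe, hXcard⟩ := exists_exponent_of_omega_large (p := 3) (by norm_num) hQ hlt
  obtain ⟨Ub, hUX, hUbcard⟩ := exists_le_card_cube hQ X hXcard
  set U := Ub.comap (QuotientGroup.mk' T) with hU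
  have hUcard : Nat.card U = 81 := by
    rw [hU, card_comap_mk', hUbcard, hTcard]
    norm_num
  have hUp : ∀ u ∈ U, u ^ 3 ∈ T := by
    intro u hu
    apply (QuotientGroup.eq_one_iff _).mp
    have := hXe _ (hUX (Subgroup.mem_comap.mp hu))
    exact this
  have hU9 : ∀ u ∈ U, u ^ 3 ^ 2 = 1 := by
    intro u hu
    obtain ⟨k, hk⟩ := Subgroup.mem_zpowers_iff.mp (hUp u hu)
    rw [pow_two, pow_mul, ← hk, ← zpow_natCast, ← zpow_mul, mul_comm, zpow_mul, zpow_natCast, hz3,
      one_zpow]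
  have hUC : ∀ u ∈ U, ∀ v ∈ N, v * u = u * v := by
    intro u hu v hv
    exact Subgroup.mem_centralizer_iff.mp (hC u (hU9 u hu)) v hv
  -- `N ≤ U`
  have hNU : N ≤ U := by
    by_contra hnot
    have hlt2 : N ⊓ U < N := lt_of_le_of_ne inf_le_left (fun h => hnot (h ▸ inf_le_right))
    have h2 := card_mul_le_of_lt hR hlt2
    have hM : Nat.card (N ⊓ U : Subgroup R) ≤ 3 := by
      rw [hNc] at h2
      omega
    have hzp : ∀ a : R, a ∈ U → orderOf a = 3 → Subgroup.zpowers a = N ⊓ U := by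
      intro a haU hao
      apply Subgroup.eq_of_le_of_card_ge
      · rw [Subgroup.zpowers_le]
        exact ⟨hΩ a (by rw [← hao]; exact pow_orderOf_eq_one a), haU⟩
      · rw [Nat.card_zpowers, hao]
        exact hM
    have hcyc : IsCyclic U := by
      apply Cfsg.Agent.Lib.Helper59.isCyclic_of_unique_odd (p := 3) (by norm_num)
        (hR.to_subgroup U)
      intro a b ha hb
      have ha' : orderOf (a : R) = 3 := by rw [Subgroup.orderOf_coe]; exact ha
      have hb' : orderOf (b : R) = 3 := by rw [Subgroup.orderOf_coe]; exact hb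
      have h1 : (b : R) ∈ Subgroup.zpowers (a : R) := by
        rw [hzp a a.2 ha', ← hzp b b.2 hb']
        exact Subgroup.mem_zpowers _
      obtain ⟨k, hk⟩ := Subgroup.mem_zpowers_iff.mp h1
      exact Subgroup.mem_zpowers_iff.mpr ⟨k, Subtype.ext (by simpa using hk)⟩
    obtain ⟨w, hw⟩ := hcyc.exists_generator
    have h3 : orderOf w = Nat.card U := orderOf_eq_card_of_forall_mem_zpowers hw
    have h4 : w ^ 3 ^ 2 = 1 := Subtype.ext (by simpa using hU9 w w.2)
    have h5 := orderOf_dvd_of_pow_eq_one h4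
    rw [h3, hUcard] at h5
    norm_num at h5
  -- commutators of `U` lie in `N`
  have hcommN : ∀ a ∈ U, ∀ b ∈ U, ⁅b⁻¹, a⁻¹⁆ ∈ N := by
    have hmc : Nat.card (U.map (QuotientGroup.mk' N)) = 3 ^ 2 := by
      have h2 := card_comap_mk' N (U.map (QuotientGroup.mk' N))
      rw [Subgroup.comap_map_eq_self (by rw [QuotientGroup.ker_mk']; exact hNU), hUcard, hNc] at h2
      omega
    have hcm : IsMulCommutative (U.map (QuotientGroup.mk' N)) :=
      IsPGroup.isMulCommutative_of_card_eq_prime_sq hmc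
    intro a ha b hb
    apply (QuotientGroup.eq_one_iff _).mp
    have h1 : ((⁅b⁻¹, a⁻¹⁆ : R) : R ⧸ N) =
        ⁅QuotientGroup.mk' N b⁻¹, QuotientGroup.mk' N a⁻¹⁆ :=
      map_commutatorElement (QuotientGroup.mk' N) b⁻¹ a⁻¹
    rw [h1, commutatorElement_eq_one_iff_mul_comm]
    have := hcm.is_comm.comm ⟨QuotientGroup.mk' N b⁻¹, Subgroup.mem_map_of_mem _ (U.inv_mem hb)⟩
      ⟨QuotientGroup.mk' N a⁻¹, Subgroup.mem_map_of_mem _ (U.inv_mem ha)⟩
    simpa using congrArg Subtype.val this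
  have hmul : ∀ a b : U, (a * b) ^ 3 = a ^ 3 * b ^ 3 := by
    intro a b
    apply Subtype.ext
    have hc := hcommN a a.2 b b.2
    have h1 := mul_pow_of_central (mul_eq_mul_mul_commutator (a : R) (b : R))
      (hUC a a.2 _ hc) (hUC b b.2 _ hc) 3
    have h2 : Nat.choose 3 2 = 3 := by decide
    rw [h2, hNe _ hc, mul_one] at h1
    simpa using h1
  let φ : U →* U := MonoidHom.mk' (fun u => u ^ 3) hmul
  have hrange : Nat.card φ.range ≤ 3 := by
    have h1 : φ.range.map U.subtype ≤ T := by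
      rintro _ ⟨_, ⟨u, rfl⟩, rfl⟩
      exact hUp u u.2
    rw [← Subgroup.card_map_of_injective U.subtype_injective, ← hTcard]
    exact Subgroup.card_le_of_le h1
  have hker : Nat.card φ.ker ≤ 9 := by
    have h1 : φ.ker.map U.subtype ≤ N := by
      rintro _ ⟨u, hu, rfl⟩
      apply hΩ
      have : u ^ 3 = 1 := MonoidHom.mem_ker.mp hu
      simpa using congrArg Subtype.val this
    rw [← Subgroup.card_map_of_injective U.subtype_injective]
    have := Subgroup.card_le_of_le h1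
    omega
  have h4 : Nat.card U = Nat.card φ.ker * Nat.card φ.range := by
    rw [← Subgroup.index_ker, Subgroup.card_mul_index]
  have h5 : Nat.card φ.ker * Nat.card φ.range ≤ 9 * 3 := Nat.mul_le_mul hker hrange
  omega

end Cfsg.Agent.Lib.Helper42.Blk
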