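import Mathlib
import Cfsg.Prelude.Def_OddOrderLocal
import Cfsg.Prelude.Def_PLocal
import Cfsg.Agent.Lib.Helper3.Metacyclic
import Cfsg.Agent.Lib.Helper3.MaxClass

set_option autoImplicit false

namespace Cfsg.Agent.Lib.Helper42.Blk

open Cfsg.Agent.Lib.Helper3
open scoped commutatorElement

/-- RUNG A3 (the lifting step of helper3's proof of Huppert's criterion, valid for odd `p`) -/
theorem metacyclic_lift {R : Type*} [Group R] [Finite R] {p : ℕ} [Fact p.Prime] (hp2 : p ≠ 2)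
    (hR : IsPGroup p R) (hO : Nat.card (Cfsg.omegaOne p (⊤ : Subgroup R)) ≤ p ^ 2)
    (z : R) (hzR' : z ∈ commutator R) (hzc : z ∈ Subgroup.center R) (hzo : orderOf z = p)
    [(Subgroup.zpowers z).Normal] (hQ : Cfsg.IsMetacyclic (R ⧸ Subgroup.zpowers z)) :
    Cfsg.IsMetacyclic R := by
  have hpp : p.Prime := Fact.out
  have hzp : z ^ p = 1 := by rw [← hzo]; exact pow_orderOf_eq_one z
  obtain ⟨Nb, hNbn, hNbc, hQc⟩ := hQ
  obtain ⟨⟨cb, hcbN⟩, hcb⟩ := hNbc.exists_generator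
  obtain ⟨c, rfl⟩ := QuotientGroup.mk'_surjective _ cb
  obtain ⟨qb, hqb⟩ := hQc.exists_generator
  obtain ⟨tb, rfl⟩ := QuotientGroup.mk'_surjective _ qb
  obtain ⟨t, rfl⟩ := QuotientGroup.mk'_surjective _ tb
  set S := Nb.comap (QuotientGroup.mk' (Subgroup.zpowers z)) with hS
  have hSn : S.Normal := hNbn.comap _
  -- elements of `S`
  have hform : ∀ x ∈ S, ∃ a b : ℤ, x = c ^ a * z ^ b := by
    intro x hx
    obtain ⟨a, ha⟩ := Subgroup.mem_zpowers_iff.mp
      (hcb ⟨QuotientGroup.mk' (Subgroup.zpowers z) x, hx⟩)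
    have ha' : (QuotientGroup.mk' (Subgroup.zpowers z) c) ^ a =
        QuotientGroup.mk' (Subgroup.zpowers z) x := by
      simpa using congrArg Subtype.val ha
    have h1 : (c ^ a)⁻¹ * x ∈ Subgroup.zpowers z := by
      apply (QuotientGroup.eq_one_iff _).mp
      have : QuotientGroup.mk' (Subgroup.zpowers z) ((c ^ a)⁻¹ * x) = 1 := by
        rw [map_mul, map_inv, map_zpow, ha', inv_mul_cancel]
      exact this
    obtain ⟨b, hb⟩ := Subgroup.mem_zpowers_iff.mp h1
    exact ⟨a, b, by rw [hb]; group⟩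
  have hcS : c ∈ S := hcbN
  have hzS : z ∈ S := by
    rw [hS, Subgroup.mem_comap]
    have h1 : QuotientGroup.mk' (Subgroup.zpowers z) z = 1 :=
      (QuotientGroup.eq_one_iff _).mpr (Subgroup.mem_zpowers z)
    rw [h1]
    exact Subgroup.one_mem _
  have hzcomm : ∀ g : R, Commute z g := fun g => (Subgroup.mem_center_iff.mp hzc g).symm
  have hSc : ∀ a ∈ S, ∀ b ∈ S, a * b = b * a := by
    intro x hx y hy
    obtain ⟨a, b, rfl⟩ := hform x hx
    obtain ⟨a', b', rfl⟩ := hform y hy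
    have h1 : Commute (c ^ a) (c ^ a') := (Commute.refl c).zpow_zpow a a'
    have h2 : Commute (c ^ a) (z ^ b') := ((hzcomm (c ^ a)).zpow_left b').symm
    have h3 : Commute (z ^ b) (c ^ a') := (hzcomm (c ^ a')).zpow_left b
    have h4 : Commute (z ^ b) (z ^ b') := (Commute.refl z).zpow_zpow b b'
    exact ((h1.mul_right h2).mul_left (h3.mul_right h4))
  have htop : S ⊔ Subgroup.zpowers t = ⊤ := by
    rw [eq_top_iff]
    intro g _
    obtain ⟨k, hk⟩ := Subgroup.mem_zpowers_iff.mp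
      (hqb (QuotientGroup.mk' Nb (QuotientGroup.mk' (Subgroup.zpowers z) g)))
    have h1 : g * (t ^ k)⁻¹ ∈ S := by
      rw [hS, Subgroup.mem_comap]
      apply (QuotientGroup.eq_one_iff _).mp
      have : QuotientGroup.mk' Nb (QuotientGroup.mk' (Subgroup.zpowers z) (g * (t ^ k)⁻¹)) = 1 := by
        rw [map_mul, map_mul, map_inv, map_inv, map_zpow, map_zpow, hk, mul_inv_cancel]
      exact this
    have h2 : g = g * (t ^ k)⁻¹ * t ^ k := by group
    rw [h2]
    exact Subgroup.mul_mem_sup h1 (Subgroup.zpow_mem _ (Subgroup.mem_zpowers t) k)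
  have hRS : IsCyclic (R ⧸ S) := isCyclic_quotient_of_sup_zpowers S t htop
  by_cases hzc' : z ∈ Subgroup.zpowers c
  · have hSeq : S = Subgroup.zpowers c := by
      apply le_antisymm
      · intro x hx
        obtain ⟨a, b, rfl⟩ := hform x hx
        exact Subgroup.mul_mem _ (Subgroup.zpow_mem _ (Subgroup.mem_zpowers c) a)
          (Subgroup.zpow_mem _ hzc' b)
      · exact Subgroup.zpowers_le.mpr hcS
    have hScyc : IsCyclic S := by rw [hSeq]; infer_instance
    exact ⟨S, hSn, hScyc, hRS⟩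
  -- otherwise the commutator subgroup has order `p`
  apply metacyclic_of_commutator_le_zpowers hp2 hR hO z hzc hzp
  obtain ⟨θ, hθ, hle⟩ := commutator_eq_of_abelian_normal_sup_zpowers S hSc t htop
  have hθz : θ ⟨z, hzS⟩ = 1 := by
    rw [hθ, commutatorElement_eq_one_iff_mul_comm]
    exact hzcomm t
  have hθform : ∀ x : S, ∃ a : ℤ, θ x = (θ ⟨c, hcS⟩) ^ a := by
    intro x
    obtain ⟨a, b, hab⟩ := hform x x.2
    refine ⟨a, ?_⟩
    have : x = (⟨c, hcS⟩ : S) ^ a * (⟨z, hzS⟩ : S) ^ b := Subtype.ext (by simpa using hab)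
    rw [this, map_mul, map_zpow, map_zpow, hθz, one_zpow, mul_one]
  set w := θ ⟨c, hcS⟩ with hw
  have hwS : w ∈ S := by
    rw [hw, hθ, commutatorElement_def, mul_assoc, mul_assoc]
    apply S.mul_mem hcS
    rw [← mul_assoc]
    exact hSn.conj_mem _ (S.inv_mem hcS) t
  obtain ⟨i, j, hij⟩ := hform w hwS
  obtain ⟨x, hx⟩ := hle hzR'
  obtain ⟨a, ha⟩ := hθform x
  -- `z = w ^ a = c ^ (i a) z ^ (j a)`
  have h1 : z = (c ^ i) ^ a * (z ^ j) ^ a := by
    rw [← ((hzcomm (c ^ i)).zpow_left j).symm.mul_zpow, ← hij, ← ha, hx]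
  have h2 : (c ^ i) ^ a = z ^ (1 - j * a) := by
    rw [zpow_sub, zpow_one, zpow_mul]
    exact eq_mul_inv_of_mul_eq h1.symm
  -- `⟨c⟩ ∩ ⟨z⟩ = 1`
  have h3 : z ^ (1 - j * a) = 1 := by
    by_contra hne
    apply hzc'
    have h4 : z ^ (1 - j * a) ∈ Subgroup.zpowers c := by
      rw [← h2]
      exact Subgroup.zpow_mem _ (Subgroup.zpow_mem _ (Subgroup.mem_zpowers c) i) a
    have h5 : ¬ (p : ℤ) ∣ (1 - j * a) := by
      intro hdvd
      rw [← hzo] at hdvd
      exact hne (orderOf_dvd_iff_zpow_eq_one.mp hdvd)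
    have h6 : IsCoprime (1 - j * a) (p : ℤ) :=
      ((Nat.prime_iff_prime_int.mp hpp).coprime_iff_not_dvd.mpr h5).symm
    obtain ⟨u, v, huv⟩ := h6
    have h7 : z = (z ^ (1 - j * a)) ^ u := by
      have e1 : z ^ (v * (p : ℤ)) = 1 := by
        rw [mul_comm, zpow_mul, zpow_natCast, hzp, one_zpow]
      calc z = z ^ (u * (1 - j * a) + v * (p : ℤ)) := by rw [huv, zpow_one]
        _ = z ^ (u * (1 - j * a)) := by rw [zpow_add, e1, mul_one]
        _ = (z ^ (1 - j * a)) ^ u := by rw [mul_comm, zpow_mul]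
    rw [h7]
    exact Subgroup.zpow_mem _ h4 u
  have h8 : (p : ℤ) ∣ 1 - j * a := by
    rw [← hzo]
    exact orderOf_dvd_iff_zpow_eq_one.mpr h3
  have h9 : ¬ (p : ℤ) ∣ a := by
    intro hdvd
    have h10 : (p : ℤ) ∣ 1 := by
      have := dvd_add h8 (Dvd.dvd.mul_left hdvd j)
      simpa using this
    have h11 := Int.natCast_dvd_natCast.mp (by simpa using h10 : (p : ℤ) ∣ ((1 : ℕ) : ℤ))
    exact hpp.one_lt.ne' (Nat.dvd_one.mp h11)
  have h12 : c ^ i = 1 := by
    have h13 : (c ^ i) ^ a = 1 := by rw [h2, h3]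
    have h14 := orderOf_dvd_iff_zpow_eq_one.mpr h13
    obtain ⟨m, hm⟩ := (IsPGroup.iff_orderOf.mp hR) (c ^ i)
    rcases Nat.eq_zero_or_pos m with hm0 | hm0
    · rw [hm0, pow_zero] at hm
      exact orderOf_eq_one_iff.mp hm
    · exfalso
      apply h9
      refine dvd_trans ?_ h14
      rw [hm]
      exact_mod_cast dvd_pow_self p hm0.ne'
  intro g hg
  obtain ⟨x', rfl⟩ := hle hg
  obtain ⟨a', ha'⟩ := hθform x'
  rw [ha', hij, h12, one_mul]
  exact Subgroup.zpow_mem _ (Subgroup.zpow_mem _ (Subgroup.mem_zpowers z) j) a'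

end Cfsg.Agent.Lib.Helper42.Blk
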