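import Mathlib
import Cfsg.Prelude.Def_OddOrderLocal
import Cfsg.Prelude.Def_PLocal
import Cfsg.Agent.Lib.Helper3.Metacyclic
import Cfsg.Agent.Lib.Helper3.MaxClass

set_option autoImplicit false

namespace Cfsg.Agent.Lib.Helper42.Blk

open Cfsg.Agent.Lib.Helper3
open scoped commutatorElement

theorem comm_of_card_le_sq {Q : Type*} [Group Q] [Finite Q] {p : ℕ} [Fact p.Prime] (j : ℕ)
    (hj : j ≤ 2) (hQ : Nat.card Q = p ^ j) (a b : Q) : a * b = b * a := by
  interval_cases j
  · rw [pow_zero] at hQ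
    have : Subsingleton Q := (Nat.card_eq_one_iff_unique.mp hQ).1
    exact Subsingleton.elim _ _
  · rw [pow_one] at hQ
    have hc : IsCyclic Q := isCyclic_of_prime_card hQ
    obtain ⟨w, hw⟩ := hc.exists_generator
    obtain ⟨i, rfl⟩ := Subgroup.mem_zpowers_iff.mp (hw a)
    obtain ⟨k, rfl⟩ := Subgroup.mem_zpowers_iff.mp (hw b)
    exact ((Commute.refl w).zpow_zpow i k).eq
  · exact IsPGroup.commutative_of_card_eq_prime_sq hQ a b

/-- RUNG A4 -/
theorem metacyclic_of_card_le {R : Type*} [Group R] [Finite R] {p : ℕ} [Fact p.Prime]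
    (hp2 : p ≠ 2) (m : ℕ) (hm : m ≤ 3) (hR : Nat.card R = p ^ m)
    (hO : Nat.card (Cfsg.omegaOne p (⊤ : Subgroup R)) ≤ p ^ 2) : Cfsg.IsMetacyclic R := by
  have hpp : p.Prime := Fact.out
  have hPG : IsPGroup p R := IsPGroup.of_card hR
  by_cases hc0 : commutator R = ⊥
  · exact metacyclic_of_commutator_le_zpowers hp2 hPG hO 1
      (Subgroup.one_mem _) (one_pow _) (by rw [hc0]; exact bot_le)
  obtain ⟨z, hzR', hzc, hzo⟩ := exists_central_order_p hPG (commutator R) hc0
  have hzp : z ^ p = 1 := by rw [← hzo]; exact pow_orderOf_eq_one z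
  have hZn : (Subgroup.zpowers z).Normal :=
    normal_of_le_center' (Subgroup.zpowers_le.mpr hzc)
  apply metacyclic_of_commutator_le_zpowers hp2 hPG hO z hzc hzp
  have hTc : Nat.card (Subgroup.zpowers z) = p ^ 1 := by rw [Nat.card_zpowers, hzo, pow_one]
  have hQc : Nat.card (R ⧸ Subgroup.zpowers z) = p ^ (m - 1) :=
    (card_quotient_of_card hpp _ hR hTc).2
  rw [commutator_def, Subgroup.commutator_le]
  intro a _ b _
  apply (QuotientGroup.eq_one_iff _).mp
  have h1 : ((⁅a, b⁆ : R) : R ⧸ Subgroup.zpowers z) =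
      ⁅QuotientGroup.mk' (Subgroup.zpowers z) a, QuotientGroup.mk' (Subgroup.zpowers z) b⁆ :=
    map_commutatorElement (QuotientGroup.mk' (Subgroup.zpowers z)) a b
  rw [h1, commutatorElement_eq_one_iff_mul_comm]
  exact comm_of_card_le_sq (m - 1) (by omega) hQc _ _

end Cfsg.Agent.Lib.Helper42.Blk
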