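import Mathlib
import Cfsg.Prelude.Def_OddOrderLocal
import Cfsg.Prelude.Def_PLocal
import Cfsg.Agent.S0126
import Cfsg.Agent.Lib.Helper3.Metacyclic
import Cfsg.Agent.Lib.Helper3.MaxClass
import Cfsg.Agent.Lib.Helper59.CycSelfCentA
import Cfsg.Agent.Lib.Helper42.BlkA1
import Cfsg.Agent.Lib.Helper42.BlkA2
import Cfsg.Agent.Lib.Helper42.BlkA3
import Cfsg.Agent.Lib.Helper42.BlkA4
import Cfsg.Agent.Lib.Helper62.BlkA5

set_option autoImplicit false

universe u

namespace Cfsg.Agent.Lib.Helper42.Blk

open Cfsg.Agent.Lib
open scoped commutatorElement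

/-- the centre of a quotient of maximal class -/
theorem center_quotient_eq {R : Type*} [Group R] [Finite R] {p : ℕ} [Fact p.Prime] (n : ℕ)
    (hn : 4 ≤ n) (hR : Nat.card R = p ^ n) (N : Subgroup R) [N.Normal]
    (hNc : Nat.card N = p ^ 2) (z : R) (hzN : z ∈ N) (hzo : orderOf z = p)
    [(Subgroup.zpowers z).Normal]
    (h1 : Group.nilpotencyClass (R ⧸ Subgroup.zpowers z) = n - 2) :
    Subgroup.center (R ⧸ Subgroup.zpowers z) = N.map (QuotientGroup.mk' (Subgroup.zpowers z)) := by
  have hpp : p.Prime := Fact.out
  have hPG : IsPGroup p R := IsPGroup.of_card hR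
  have hTc : Nat.card (Subgroup.zpowers z) = p ^ 1 := by rw [Nat.card_zpowers, hzo, pow_one]
  have hQc : Nat.card (R ⧸ Subgroup.zpowers z) = p ^ (n - 1) :=
    (Helper3.card_quotient_of_card hpp _ hR hTc).2
  have hcen : Nat.card (Subgroup.center (R ⧸ Subgroup.zpowers z)) = p :=
    Helper3.card_center_of_maxClass (n := n - 1) (by omega) hQc (by rw [h1]; omega)
  have hle : Subgroup.zpowers z ≤ N := Subgroup.zpowers_le.mpr hzN
  have hNb : Nat.card (N.map (QuotientGroup.mk' (Subgroup.zpowers z))) = p := by
    have h2 := Helper3.card_comap_mk' (Subgroup.zpowers z)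
      (N.map (QuotientGroup.mk' (Subgroup.zpowers z)))
    rw [Subgroup.comap_map_eq_self (by rw [QuotientGroup.ker_mk']; exact hle), hNc, hTc,
      pow_one, pow_two] at h2
    exact (Nat.eq_of_mul_eq_mul_right hpp.pos h2).symm
  have hNbn : (N.map (QuotientGroup.mk' (Subgroup.zpowers z))).Normal :=
    Subgroup.Normal.map inferInstance _ (QuotientGroup.mk'_surjective _)
  have h3 := Helper59.le_center_of_normal_card_prime (hPG.to_quotient _)
    (N.map (QuotientGroup.mk' (Subgroup.zpowers z))) hNb
  exact (Subgroup.eq_of_le_of_card_ge h3 (by rw [hcen, hNb])).symm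

theorem class_quotient_of_eq_center {R : Type*} [Group R] (T : Subgroup R) [T.Normal]
    (hT : T = Subgroup.center R) :
    Group.nilpotencyClass (R ⧸ T) = Group.nilpotencyClass R - 1 := by
  subst hT
  exact Group.nilpotencyClass_quotient_center

/-- RUNG A6: the induction -/
theorem three_main (n : ℕ) : ∀ (R : Type u) [Group R] [Finite R], Nat.card R = 3 ^ n →
    Nat.card (Cfsg.omegaOne 3 (⊤ : Subgroup R)) ≤ 3 ^ 2 →
    Cfsg.IsMetacyclic R ∨ Group.nilpotencyClass R = n - 1 := by
  have : Fact (Nat.Prime 3) := ⟨Nat.prime_three⟩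
  induction n with
  | zero =>
    intro R _ _ hR hO
    exact Or.inl (metacyclic_of_card_le (p := 3) (by norm_num) 0 (by norm_num) hR hO)
  | succ k ih =>
    intro R _ _ hR hO
    by_cases hk : k + 1 ≤ 3
    · exact Or.inl (metacyclic_of_card_le (p := 3) (by norm_num) (k + 1) hk hR hO)
    push Not at hk
    have hPG : IsPGroup 3 R := IsPGroup.of_card hR
    by_cases hc0 : commutator R = ⊥
    · exact Or.inl (Helper3.metacyclic_of_commutator_le_zpowers (by norm_num) hPG hO 1
        (Subgroup.one_mem _) (one_pow _) (by rw [hc0]; exact bot_le))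
    have hnc : ¬ IsCyclic R := by
      intro h
      apply hc0
      rw [commutator_eq_bot_iff_center_eq_top, eq_top_iff]
      intro g _
      rw [Subgroup.mem_center_iff]
      intro a
      obtain ⟨w, hw⟩ := h.exists_generator
      obtain ⟨i, rfl⟩ := Subgroup.mem_zpowers_iff.mp (hw g)
      obtain ⟨j, rfl⟩ := Subgroup.mem_zpowers_iff.mp (hw a)
      exact ((Commute.refl w).zpow_zpow j i).eq
    obtain ⟨N, hNn, ⟨hNcm, hNe⟩, hNc⟩ := Cfsg.Agent.S0126.result (p := 3) (by norm_num) hPG hnc
    have hΩ : ∀ g : R, g ^ 3 = 1 → g ∈ N := by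
      have hle : N ≤ Cfsg.omegaOne 3 (⊤ : Subgroup R) := by
        intro a ha
        exact Subgroup.subset_closure ⟨Subgroup.mem_top _, hNe a ha⟩
      have heq : N = Cfsg.omegaOne 3 (⊤ : Subgroup R) :=
        Subgroup.eq_of_le_of_card_ge hle (by rw [hNc]; exact hO)
      intro g hg
      rw [heq]
      exact Subgroup.subset_closure ⟨Subgroup.mem_top _, hg⟩
    by_cases hC : ∀ x : R, x ^ 3 ^ 2 = 1 → x ∈ Subgroup.centralizer (N : Set R)
    swap
    · push Not at hC
      obtain ⟨x, hx, hxC⟩ := hC
      exact Or.inr (maxClass_of_outer (p := 3) (by norm_num) (k + 1) hR N hNc hΩ x hx hxC)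
    have key : ∀ z : R, z ∈ commutator R → z ∈ Subgroup.center R → orderOf z = 3 →
        ∀ [(Subgroup.zpowers z).Normal], Cfsg.IsMetacyclic R ∨
          (4 ≤ k ∧ Group.nilpotencyClass (R ⧸ Subgroup.zpowers z) = k - 1) := by
      intro z hzR hzc hzo _
      have hO1 := omega_quotient_three hPG N hNc hNe hΩ hC z hzc hzo
      have hTc : Nat.card (Subgroup.zpowers z) = 3 ^ 1 := by rw [Nat.card_zpowers, hzo, pow_one]
      have hcard : Nat.card (R ⧸ Subgroup.zpowers z) = 3 ^ k :=
        (Helper3.card_quotient_of_card Nat.prime_three _ hR hTc).2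
      by_cases hk4 : k ≤ 3
      · exact Or.inl (metacyclic_lift (by norm_num) hPG hO z hzR hzc hzo
          (metacyclic_of_card_le (p := 3) (by norm_num) k hk4 hcard hO1))
      rcases ih (R ⧸ Subgroup.zpowers z) hcard hO1 with h | h
      · exact Or.inl (metacyclic_lift (by norm_num) hPG hO z hzR hzc hzo h)
      · exact Or.inr ⟨by omega, h⟩
    obtain ⟨z, hzR', hzc, hzo⟩ := Helper3.exists_central_order_p hPG (commutator R) hc0
    have hZn : (Subgroup.zpowers z).Normal :=
      Helper3.normal_of_le_center' (Subgroup.zpowers_le.mpr hzc)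
    rcases key z hzR' hzc hzo with h | ⟨hk4, h1⟩
    · exact Or.inl h
    have hz3 : z ^ 3 = 1 := by rw [← hzo]; exact pow_orderOf_eq_one z
    have hzN : z ∈ N := hΩ z hz3
    have hTN : Subgroup.zpowers z ≤ N := Subgroup.zpowers_le.mpr hzN
    have hcen := center_quotient_eq (p := 3) (k + 1) (by omega) hR N hNc z hzN hzo
      (by rw [h1]; omega)
    -- preimages
    have hpre : ∀ (g : R) (W : Subgroup R), Subgroup.zpowers z ≤ W →
        QuotientGroup.mk' (Subgroup.zpowers z) g ∈ W.map (QuotientGroup.mk' (Subgroup.zpowers z)) →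
        g ∈ W := by
      intro g W hW hg
      have : g ∈ (W.map (QuotientGroup.mk' (Subgroup.zpowers z))).comap
          (QuotientGroup.mk' (Subgroup.zpowers z)) := hg
      rwa [Subgroup.comap_map_eq_self (by rw [QuotientGroup.ker_mk']; exact hW)] at this
    have hZleN : Subgroup.center R ≤ N := by
      intro g hg
      apply hpre g N hTN
      rw [← hcen, Subgroup.mem_center_iff]
      intro a
      obtain ⟨a, rfl⟩ := QuotientGroup.mk'_surjective _ a
      rw [← map_mul, ← map_mul, Subgroup.mem_center_iff.mp hg a]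
    by_cases hNZ : N ≤ Subgroup.center R
    · -- the central case
      have hex : ∃ z' ∈ N, z' ∉ Subgroup.zpowers z := by
        by_contra hcon
        push Not at hcon
        have h2 : Nat.card N ≤ Nat.card (Subgroup.zpowers z) :=
          Subgroup.card_le_of_le (fun a ha => hcon a ha)
        rw [hNc, Nat.card_zpowers, hzo] at h2
        norm_num at h2
      obtain ⟨z', hz'N, hz'z⟩ := hex
      have hz'c : z' ∈ Subgroup.center R := hNZ hz'N
      have hz'1 : z' ≠ 1 := by
        rintro rfl
        exact hz'z (Subgroup.one_mem _)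
      have hz'o : orderOf z' = 3 := orderOf_eq_prime (hNe z' hz'N) hz'1
      have hZn' : (Subgroup.zpowers z').Normal :=
        Helper3.normal_of_le_center' (Subgroup.zpowers_le.mpr hz'c)
      have hz'R : z' ∈ commutator R := by
        apply hpre z' (commutator R) (Subgroup.zpowers_le.mpr hzR')
        have hmap : (commutator R).map (QuotientGroup.mk' (Subgroup.zpowers z)) =
            commutator (R ⧸ Subgroup.zpowers z) := by
          rw [commutator_def, commutator_def, Subgroup.map_commutator,
            Subgroup.map_top_of_surjective _ (QuotientGroup.mk'_surjective _)]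
        rw [hmap]
        have hne : commutator (R ⧸ Subgroup.zpowers z) ≠ ⊥ := by
          intro h
          have hcm : IsMulCommutative (R ⧸ Subgroup.zpowers z) := by
            refine ⟨⟨fun a b => ?_⟩⟩
            have h3 : ⁅a, b⁆ ∈ commutator (R ⧸ Subgroup.zpowers z) :=
              Subgroup.commutator_mem_commutator (Subgroup.mem_top a) (Subgroup.mem_top b)
            rw [h, Subgroup.mem_bot] at h3
            exact commutatorElement_eq_one_iff_mul_comm.mp h3
          have hnq : Group.IsNilpotent (R ⧸ Subgroup.zpowers z) :=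
            (hPG.to_quotient (Subgroup.zpowers z)).isNilpotent
          have := Group.IsNilpotent.nilpotencyClass_le_one_iff.mpr hcm
          omega
        obtain ⟨w, hwR, hwc, hwo⟩ := Helper3.exists_central_order_p
          (hPG.to_quotient (Subgroup.zpowers z)) (commutator (R ⧸ Subgroup.zpowers z)) hne
        have hTc : Nat.card (Subgroup.zpowers z) = 3 ^ 1 := by
          rw [Nat.card_zpowers, hzo, pow_one]
        have hQc : Nat.card (R ⧸ Subgroup.zpowers z) = 3 ^ k :=
          (Helper3.card_quotient_of_card Nat.prime_three _ hR hTc).2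
        have hcc : Nat.card (Subgroup.center (R ⧸ Subgroup.zpowers z)) = 3 :=
          Helper3.card_center_of_maxClass (n := k) (by omega) hQc h1
        have heq : Subgroup.zpowers w = Subgroup.center (R ⧸ Subgroup.zpowers z) :=
          Subgroup.eq_of_le_of_card_ge (Subgroup.zpowers_le.mpr hwc)
            (by rw [hcc, Nat.card_zpowers, hwo])
        have h4 : QuotientGroup.mk' (Subgroup.zpowers z) z' ∈
            Subgroup.center (R ⧸ Subgroup.zpowers z) := by
          rw [hcen]
          exact Subgroup.mem_map_of_mem _ hz'N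
        rw [← heq] at h4
        exact (Subgroup.zpowers_le.mpr hwR) h4
      rcases key z' hz'R hz'c hz'o with h | ⟨_, h2⟩
      · exact Or.inl h
      · exfalso
        have hz1 : z ≠ 1 := by
          rintro rfl
          rw [orderOf_one] at hzo
          norm_num at hzo
        exact Helper62.Blk.no_two_maxClass_quotients (p := 3) (by norm_num) (k + 1) (by omega) hR N hNc hNe hΩ
          hNZ z z' hzN hz'N hz1 hz'z (by rw [h1]; omega) (by rw [h2]; omega)
    · -- the centre is `⟨z⟩`
      right
      have hlt : Subgroup.center R < N := lt_of_le_of_ne hZleN (fun h => hNZ h.ge)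
      have h5 := Helper3.card_mul_le_of_lt hPG hlt
      have h6 : Subgroup.zpowers z = Subgroup.center R := by
        apply Subgroup.eq_of_le_of_card_ge (Subgroup.zpowers_le.mpr hzc)
        rw [Nat.card_zpowers, hzo]
        rw [hNc] at h5
        omega
      have h7 := class_quotient_of_eq_center (Subgroup.zpowers z) h6
      omega
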