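import Mathlib
import Cfsg.Prelude.Def_CaseTheorems
import Cfsg.Agent.Lib.Helper3.Metacyclic
import Cfsg.Agent.Lib.Helper3.RankThree
import Cfsg.Agent.Lib.Helper42.BlkDefs

set_option autoImplicit false

namespace Cfsg.Agent.Lib.Helper42.Blk

open Cfsg.Agent.Lib.Helper3

/-- RUNG B1 -/
theorem frame_of_rank {G : Type*} [Group G] [Finite G] {p : ℕ} [Fact p.Prime] (hp : p ≠ 2)
    (hG : IsPGroup p G) (hrk : Cfsg.PRankLE p 2 G) (N : Subgroup G) [N.Normal]
    (hNc : Nat.card N = p ^ 2) (hNe : ∀ a ∈ N, a ^ p = 1)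
    (hNcomm : ∀ a ∈ N, ∀ b ∈ N, a * b = b * a) (x : G) (hx : x ^ p = 1) (hxN : x ∉ N) :
    Frame p N x := by
  have hpp : p.Prime := Fact.out
  have omega : ∀ c ∈ Subgroup.centralizer (N : Set G), c ^ p = 1 → c ∈ N := by
    intro c hc hcp
    by_contra hcN
    have hcomm : ∀ a ∈ N ⊔ Subgroup.zpowers c, ∀ b ∈ N ⊔ Subgroup.zpowers c, a * b = b * a := by
      apply sup_comm_of_comm N (Subgroup.zpowers c) hNcomm
      · intro a ha b hb
        obtain ⟨i, rfl⟩ := Subgroup.mem_zpowers_iff.mp ha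
        obtain ⟨j, rfl⟩ := Subgroup.mem_zpowers_iff.mp hb
        exact ((Commute.refl c).zpow_zpow i j).eq
      · intro a ha b hb
        obtain ⟨j, rfl⟩ := Subgroup.mem_zpowers_iff.mp hb
        have h1 : Commute a c := Subgroup.mem_centralizer_iff.mp hc a ha
        exact (h1.zpow_right j).eq
    have hexp : ∀ a ∈ N ⊔ Subgroup.zpowers c, a ^ p = 1 := by
      apply sup_pow_of_comm N (Subgroup.zpowers c) p hNe _ hcomm
      intro a ha
      obtain ⟨i, rfl⟩ := Subgroup.mem_zpowers_iff.mp ha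
      rw [← zpow_natCast, ← zpow_mul, mul_comm, zpow_mul, zpow_natCast, hcp, one_zpow]
    have hle := hrk (N ⊔ Subgroup.zpowers c)
      ⟨⟨fun a b => Subtype.ext (hcomm a a.2 b b.2)⟩⟩ hexp
    have hlt : N < N ⊔ Subgroup.zpowers c := by
      refine lt_of_le_of_ne le_sup_left (fun h => hcN ?_)
      rw [h]
      exact (le_sup_right : Subgroup.zpowers c ≤ N ⊔ Subgroup.zpowers c)
        (Subgroup.mem_zpowers c)
    have h2 := card_mul_le_of_lt hG hlt
    rw [hNc] at h2
    have h3 : p ^ 2 < p * p ^ 2 := by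
      have := hpp.two_le
      have h4 : 0 < p ^ 2 := pow_pos hpp.pos 2
      nlinarith
    omega
  have hxC : x ∉ Subgroup.centralizer (N : Set G) := fun h => hxN (omega x h hx)
  refine ⟨hG, hp, inferInstance, hNc, hNe, hNcomm, hx, hxC, omega, ?_⟩
  -- the decomposition
  set C := Subgroup.centralizer (N : Set G) with hC
  have hCn : C.Normal := inferInstance
  have hidx : C.index ≤ p := index_centralizer_le hG N hNc.le
  have hcardQ : Nat.card (G ⧸ C) = p := by
    have h1 : Nat.card (G ⧸ C) = C.index := rfl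
    obtain ⟨k, hk⟩ := (hG.to_quotient C).exists_card_eq
    rw [h1] at hk
    rcases Nat.eq_zero_or_pos k with hk0 | hk0
    · exfalso
      rw [hk0, pow_zero] at hk
      have := Subgroup.index_eq_one.mp hk
      exact hxC (this ▸ Subgroup.mem_top x)
    · rw [h1]
      apply le_antisymm hidx
      rw [hk]
      calc p = p ^ 1 := (pow_one p).symm
        _ ≤ p ^ k := Nat.pow_le_pow_right hpp.pos hk0
  have hx1 : (QuotientGroup.mk' C x) ≠ 1 := by
    intro h
    exact hxC ((QuotientGroup.eq_one_iff x).mp h)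
  have htop := zpowers_eq_top_of_prime_card hcardQ hx1
  intro g
  have hg : QuotientGroup.mk' C g ∈ Subgroup.zpowers (QuotientGroup.mk' C x) := by
    rw [htop]; exact Subgroup.mem_top _
  rw [← mem_powers_iff_mem_zpowers] at hg
  obtain ⟨i, hi⟩ := hg
  refine ⟨i, (x ^ i)⁻¹ * g, ?_, by group⟩
  apply (QuotientGroup.eq_one_iff _).mp
  have : QuotientGroup.mk' C ((x ^ i)⁻¹ * g) = 1 := by
    rw [map_mul, map_inv, map_pow]
    rw [← hi]
    simp
  exact this

end Cfsg.Agent.Lib.Helper42.Blk
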