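import Mathlib
import Cfsg.Agent.Lib.Helper3.Metacyclic
import Cfsg.Agent.Lib.Helper70.Kulakoff
import Cfsg.Agent.Lib.Helper42.BlkDefs

set_option autoImplicit false

namespace Cfsg.Agent.Lib.Helper42.Blk

open Cfsg.Agent.Lib.Helper3

theorem conj_zpow' {G : Type*} [Group G] (x a : G) (i : ℤ) :
    x⁻¹ * a ^ i * x = (x⁻¹ * a * x) ^ i := by
  have := conj_zpow (a := x⁻¹) (b := a) (i := i)
  simpa using this.symm

theorem conj_eq_mul_ps {G : Type*} [Group G] (x c : G) : x⁻¹ * c * x = c * ps x c := by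
  unfold ps; group

/-- RUNG B2 -/
theorem exists_zdata {G : Type*} [Group G] [Finite G] {p : ℕ} [Fact p.Prime]
    {N : Subgroup G} {x : G} (F : Frame p N x) : ∃ z₀ : G, ZData N x z₀ := by
  have hpp : p.Prime := Fact.out
  have hNn : N.Normal := F.normal
  have hex : ∃ y₀ ∈ N, y₀ * x ≠ x * y₀ := by
    by_contra h
    push Not at h
    exact F.xC (Subgroup.mem_centralizer_iff.mpr h)
  obtain ⟨y₀, hy₀, hne⟩ := hex
  set z₀ := ps x y₀ with hz₀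
  have hconj : x⁻¹ * y₀ * x = y₀ * z₀ := conj_eq_mul_ps x y₀
  have hzN : z₀ ∈ N := by
    have h1 : x⁻¹ * y₀ * x ∈ N := by
      have := hNn.conj_mem y₀ hy₀ x⁻¹
      simpa using this
    have h2 : z₀ = y₀⁻¹ * (x⁻¹ * y₀ * x) := by rw [hz₀]; unfold ps; group
    rw [h2]
    exact N.mul_mem (N.inv_mem hy₀) h1
  have hz1 : z₀ ≠ 1 := by
    intro h
    apply hne
    rw [h, mul_one] at hconj
    calc y₀ * x = x * (x⁻¹ * y₀ * x) := by group
      _ = x * y₀ := by rw [hconj]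
  have hzc : z₀ ∈ Subgroup.center G := by
    have := Cfsg.Agent.Lib.Helper70.commutator_central_of_normal_card_sq F.pgroup N F.card
      y₀⁻¹ (N.inv_mem hy₀) x⁻¹
    simpa [hz₀, ps] using this
  have hzp : z₀ ^ p = 1 := F.exp z₀ hzN
  have hzo : orderOf z₀ = p := orderOf_eq_prime hzp hz1
  have hZn : (Subgroup.zpowers z₀).Normal :=
    normal_of_le_center' (Subgroup.zpowers_le.mpr hzc)
  have hy₀z : y₀ ∉ Subgroup.zpowers z₀ := by
    intro h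
    apply hne
    exact (Subgroup.mem_center_iff.mp ((Subgroup.zpowers_le.mpr hzc) h) x).symm
  -- `N = ⟨y₀⟩ ⟨z₀⟩`
  have hsup : Subgroup.zpowers y₀ ⊔ Subgroup.zpowers z₀ = N := by
    have hle : Subgroup.zpowers y₀ ⊔ Subgroup.zpowers z₀ ≤ N :=
      sup_le (Subgroup.zpowers_le.mpr hy₀) (Subgroup.zpowers_le.mpr hzN)
    apply Subgroup.eq_of_le_of_card_ge hle
    have hlt : Subgroup.zpowers z₀ < Subgroup.zpowers y₀ ⊔ Subgroup.zpowers z₀ := by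
      refine lt_of_le_of_ne le_sup_right (fun h => hy₀z ?_)
      rw [h]
      exact (le_sup_left : Subgroup.zpowers y₀ ≤ _) (Subgroup.mem_zpowers y₀)
    have h2 := card_mul_le_of_lt F.pgroup hlt
    rw [Nat.card_zpowers, hzo] at h2
    rw [F.card, pow_two]
    exact h2
  have hform : ∀ v ∈ N, ∃ i j : ℤ, v = y₀ ^ i * z₀ ^ j := by
    intro v hv
    rw [← hsup, ← SetLike.mem_coe, Subgroup.mul_normal] at hv
    obtain ⟨a, ha, b, hb, rfl⟩ := hv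
    obtain ⟨i, rfl⟩ := Subgroup.mem_zpowers_iff.mp ha
    obtain ⟨j, rfl⟩ := Subgroup.mem_zpowers_iff.mp hb
    exact ⟨i, j, rfl⟩
  have hcz : ∀ g : G, Commute z₀ g := fun g => (Subgroup.mem_center_iff.mp hzc g).symm
  have hps : ∀ i j : ℤ, ps x (y₀ ^ i * z₀ ^ j) = z₀ ^ i := by
    intro i j
    have h1 : x⁻¹ * y₀ ^ i * x = y₀ ^ i * z₀ ^ i := by
      rw [conj_zpow', hconj, (hcz y₀).symm.mul_zpow]
    have h2 : x⁻¹ * (y₀ ^ i * z₀ ^ j) * x = (x⁻¹ * y₀ ^ i * x) * z₀ ^ j := by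
      have := ((hcz x).zpow_left j).eq
      calc x⁻¹ * (y₀ ^ i * z₀ ^ j) * x = x⁻¹ * y₀ ^ i * (z₀ ^ j * x) := by group
        _ = x⁻¹ * y₀ ^ i * (x * z₀ ^ j) := by rw [this]
        _ = _ := by group
    have h3 : ps x (y₀ ^ i * z₀ ^ j) = (y₀ ^ i * z₀ ^ j)⁻¹ * (x⁻¹ * (y₀ ^ i * z₀ ^ j) * x) := by
      unfold ps; group
    rw [h3, h2, h1]
    have h4 : Commute (z₀ ^ i) (z₀ ^ j) := (Commute.refl z₀).zpow_zpow i j
    calc (y₀ ^ i * z₀ ^ j)⁻¹ * (y₀ ^ i * z₀ ^ i * z₀ ^ j)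
        = (z₀ ^ j)⁻¹ * (z₀ ^ i * z₀ ^ j) := by group
      _ = (z₀ ^ j)⁻¹ * (z₀ ^ j * z₀ ^ i) := by rw [h4.eq]
      _ = z₀ ^ i := by group
  refine ⟨z₀, hzN, hz1, hzc, ?_, ?_, ⟨y₀, hy₀, rfl⟩⟩
  · intro v hv
    obtain ⟨i, j, rfl⟩ := hform v hv
    rw [hps]
    exact Subgroup.zpow_mem _ (Subgroup.mem_zpowers z₀) i
  · intro v hv h1
    obtain ⟨i, j, rfl⟩ := hform v hv
    rw [hps] at h1
    have h2 : (p : ℤ) ∣ i := by
      rw [← hzo]
      exact orderOf_dvd_iff_zpow_eq_one.mpr h1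
    obtain ⟨k, rfl⟩ := h2
    have h3 : y₀ ^ ((p : ℤ) * k) = 1 := by
      rw [zpow_mul, zpow_natCast, F.exp y₀ hy₀, one_zpow]
    rw [h3, one_mul]
    exact Subgroup.zpow_mem _ (Subgroup.mem_zpowers z₀) j

end Cfsg.Agent.Lib.Helper42.Blk
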