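import Mathlib

set_option autoImplicit false

namespace Cfsg.Agent.Lib.Helper42

open scoped Pointwise

variable {G : Type*} [Group G]

/-- A `p`-subgroup `D` of `H` lies in an `H`-conjugate of any Sylow `p`-subgroup of `G` inside `H`. -/
theorem exists_le_smul_sylow_of_le [Finite G] {p : ℕ} [Fact p.Prime] (H : Subgroup G) (P : Sylow p G)
    (hP : (P : Subgroup G) ≤ H) (D : Subgroup G) (hD : IsPGroup p D) (hDH : D ≤ H) :
    ∃ k ∈ H, D ≤ ((k • P : Sylow p G) : Subgroup G) := by
  have hD' : IsPGroup p (D.subgroupOf H) := hD.comap_subtype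
  obtain ⟨Q, hQ⟩ := hD'.exists_le_sylow
  obtain ⟨k, hk⟩ := MulAction.exists_smul_eq H (P.subtype hP) Q
  refine ⟨k, k.2, ?_⟩
  intro d hd
  have h1 : (⟨d, hDH hd⟩ : H) ∈ (Q : Subgroup H) := hQ (by simpa [Subgroup.mem_subgroupOf] using hd)
  rw [← hk, Sylow.smul_subtype hP k] at h1
  rw [Sylow.coe_subtype, Subgroup.mem_subgroupOf] at h1
  exact h1

/-- Two Sylow subgroups of `G` inside `H` are conjugate by an element of `H`. -/
theorem exists_smul_sylow_eq_of_le [Finite G] {p : ℕ} [Fact p.Prime] (H : Subgroup G) (P Q : Sylow p G)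
    (hP : (P : Subgroup G) ≤ H) (hQ : (Q : Subgroup G) ≤ H) :
    ∃ k ∈ H, k • P = Q := by
  obtain ⟨k, hk, hle⟩ := exists_le_smul_sylow_of_le H P hP Q Q.2 hQ
  exact ⟨k, hk, Sylow.ext (Q.3 (k • P).2 hle)⟩

/-- A finite cyclic group has at most one element of order two. -/
theorem eq_of_orderOf_two_of_isCyclic {A : Type*} [Group A] [Finite A] [IsCyclic A] {a b : A}
    (ha : orderOf a = 2) (hb : orderOf b = 2) : a = b := by
  classical
  have := Fintype.ofFinite A
  have hd : 2 ∣ Fintype.card A := ha ▸ orderOf_dvd_card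
  have h := IsCyclic.card_orderOf_eq_totient (α := A) hd
  rw [Nat.totient_two] at h
  have h1 := Finset.card_le_one.1 h.le
  exact h1 a (by simp [ha]) b (by simp [hb])

/-- The normalizer of `S` fixes the involution of a cyclic characteristic subgroup of `S`. -/
theorem conj_eq_of_mem_normalizer_of_char [Finite G] (S : Subgroup G) (C : Subgroup S)
    (hCc : IsCyclic C) (hCh : C.Characteristic) (c : S) (hc : c ∈ C) (hc2 : orderOf c = 2)
    (n : G) (hn : n ∈ Subgroup.normalizer (S : Set G)) : n * (c : G) * n⁻¹ = c := by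
  set φ : MulAut S := S.normalizerMonoidHom ⟨n, hn⟩ with hφ
  have h1 : φ c ∈ C := by
    have := hCh.fixed φ
    rw [← this] at hc
    exact hc
  have h2 : orderOf (φ c) = 2 := by rw [MulEquiv.orderOf_eq φ c, hc2]
  have h3 : (⟨φ c, h1⟩ : C) = ⟨c, hc⟩ := by
    apply eq_of_orderOf_two_of_isCyclic
    · rw [← h2]; exact Subgroup.orderOf_mk _ _
    · rw [← hc2]; exact Subgroup.orderOf_mk _ _
  have h4 : φ c = c := congrArg Subtype.val h3
  have h5 : ((φ c : S) : G) = n * c * n⁻¹ := rfl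
  rw [← h5, h4]

/-- In a group where distinct Sylow `2`-subgroups meet inside the centre of a Sylow `2`-subgroup,
the involution of a cyclic characteristic subgroup of a Sylow `2`-subgroup `S` is the only one of
its conjugates in `S`. -/
theorem isolated_of_sylow_inter_central [Finite G]
    (hCI : ∀ S T : Sylow 2 G, S ≠ T → ∃ U : Sylow 2 G,
      (S : Subgroup G) ⊓ (T : Subgroup G) ≤ (Subgroup.center ↥(U : Subgroup G)).map (U : Subgroup G).subtype)
    (S : Sylow 2 G) (C : Subgroup ↥(S : Subgroup G)) (hCc : IsCyclic ↥C) (hCh : C.Characteristic)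
    (c : ↥(S : Subgroup G)) (hc : c ∈ C) (hc2 : orderOf c = 2) (g : G)
    (hg : g * (c : G) * g⁻¹ ∈ (S : Subgroup G)) : g * (c : G) * g⁻¹ = c := by
  have : Fact (Nat.Prime 2) := ⟨Nat.prime_two⟩
  have hN : ∀ n ∈ Subgroup.normalizer ((S : Subgroup G) : Set G), n * (c : G) * n⁻¹ = c :=
    fun n hn => conj_eq_of_mem_normalizer_of_char (S : Subgroup G) C hCc hCh c hc hc2 n hn
  -- conjugates of `S` determine conjugates of `c`
  have hA : ∀ a b : G, a • S = b • S → a * (c : G) * a⁻¹ = b * (c : G) * b⁻¹ := by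
    intro a b hab
    have h1 : (b⁻¹ * a) • S = S := by rw [mul_smul, hab, inv_smul_smul]
    have h2 := hN _ (Sylow.smul_eq_iff_mem_normalizer.1 h1)
    calc a * (c : G) * a⁻¹ = b * ((b⁻¹ * a) * (c : G) * (b⁻¹ * a)⁻¹) * b⁻¹ := by group
      _ = b * (c : G) * b⁻¹ := by rw [h2]
  have hcS : ∀ s ∈ (S : Subgroup G), s * (c : G) = (c : G) * s := by
    intro s hs
    have := hN s (Subgroup.le_normalizer hs)
    calc s * (c : G) = (s * (c : G) * s⁻¹) * s := by group
      _ = (c : G) * s := by rw [this]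
  -- `a • S` centralizes `a c a⁻¹`
  have hcent : ∀ a : G, ((a • S : Sylow 2 G) : Subgroup G) ≤
      Subgroup.centralizer {a * (c : G) * a⁻¹} := by
    intro a y hy
    rw [Sylow.coe_subgroup_smul, Subgroup.mem_pointwise_smul_iff_inv_smul_mem] at hy
    have h1 := hcS _ hy
    rw [Subgroup.mem_centralizer_singleton_iff]
    simp only [MulAut.smul_def, MulAut.conj_inv_apply] at h1
    calc y * (a * (c : G) * a⁻¹) = a * ((a⁻¹ * y * a) * (c : G)) * a⁻¹ := by group
      _ = a * ((c : G) * (a⁻¹ * y * a)) * a⁻¹ := by rw [h1]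
      _ = a * (c : G) * a⁻¹ * y := by group
  set x : G := g * (c : G) * g⁻¹ with hx
  set H : Subgroup G := Subgroup.centralizer {x} with hH
  obtain ⟨k, hk, hD⟩ := exists_le_smul_sylow_of_le H (g • S) (hcent g) ((S : Subgroup G) ⊓ H)
    (S.2.to_le inf_le_left) inf_le_right
  have hkx : k * x * k⁻¹ = x := by
    rw [hH, Subgroup.mem_centralizer_singleton_iff] at hk
    rw [hk]; group
  have hT : (k * g) * (c : G) * (k * g)⁻¹ = x := by
    calc (k * g) * (c : G) * (k * g)⁻¹ = k * (g * (c : G) * g⁻¹) * k⁻¹ := by group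
      _ = x := hkx
  rw [← mul_smul] at hD
  by_cases hTS : (k * g) • S = S
  · rw [← hT]
    exact hN _ (Sylow.smul_eq_iff_mem_normalizer.1 hTS)
  · obtain ⟨U, hU⟩ := hCI S ((k * g) • S) (fun h => hTS h.symm)
    have hxx : x ∈ H := by rw [hH, Subgroup.mem_centralizer_singleton_iff]
    have hcH : (c : G) ∈ H := by
      rw [hH, Subgroup.mem_centralizer_singleton_iff]
      exact (hcS x hg).symm
    have hxU := hU ⟨hg, hD ⟨hg, hxx⟩⟩
    have hcU := hU ⟨c.2, hD ⟨c.2, hcH⟩⟩
    have hUcent : ∀ y : G, y ∈ (Subgroup.center ↥(U : Subgroup G)).map (U : Subgroup G).subtype →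
        (U : Subgroup G) ≤ Subgroup.centralizer {y} := by
      rintro _ ⟨z, hz, rfl⟩ u hu
      rw [Subgroup.mem_centralizer_singleton_iff]
      have := Subgroup.mem_center_iff.1 hz ⟨u, hu⟩
      exact congrArg Subtype.val this
    obtain ⟨k₁, hk₁, hk₁U⟩ := exists_smul_sylow_eq_of_le (Subgroup.centralizer {(c : G)}) S U
      (by have := hcent 1; simpa using this) (hUcent _ hcU)
    obtain ⟨k₂, hk₂, hk₂U⟩ := exists_smul_sylow_eq_of_le H ((k * g) • S) U
      (by have := hcent (k * g); rwa [hT] at this) (hUcent _ hxU)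
    rw [← mul_smul] at hk₂U
    have h1 := hA k₁ (k₂ * (k * g)) (hk₁U.trans hk₂U.symm)
    have h2 : k₁ * (c : G) * k₁⁻¹ = c := by
      rw [Subgroup.mem_centralizer_singleton_iff] at hk₁
      rw [hk₁]; group
    have h3 : (k₂ * (k * g)) * (c : G) * (k₂ * (k * g))⁻¹ = x := by
      calc (k₂ * (k * g)) * (c : G) * (k₂ * (k * g))⁻¹
          = k₂ * ((k * g) * (c : G) * (k * g)⁻¹) * k₂⁻¹ := by group
        _ = k₂ * x * k₂⁻¹ := by rw [hT]
        _ = x := by
          rw [hH, Subgroup.mem_centralizer_singleton_iff] at hk₂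
          rw [hk₂]; group
    rw [h2, h3] at h1
    exact h1.symm

end Cfsg.Agent.Lib.Helper42
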