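import Mathlib

set_option autoImplicit false

namespace Cfsg.Agent.Lib.Helper42.RO

open Classical in
theorem count_key {A Ω : Type*} [Fintype A] [Fintype Ω] (r : Ω → Ω → Prop) (RA : A → Ω → Prop)
    (hA1 : ∀ a, ∃ ω, RA a ω) (hA2 : ∀ a ω ω', RA a ω → (RA a ω' ↔ r ω ω')) :
    (Fintype.card A : ℚ) = ∑ ω, ((Finset.univ.filter (fun ω' => r ω ω')).card : ℚ)⁻¹ *
      (Nat.card {a // RA a ω} : ℚ) := by
  have h1 : ∀ ω, (Nat.card {a // RA a ω} : ℚ) = ∑ a, if RA a ω then 1 else 0 := by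
    intro ω
    rw [Nat.card_eq_fintype_card, Fintype.card_subtype]
    simp
  simp_rw [h1, Finset.mul_sum]
  rw [Finset.sum_comm]
  have h2 : ∀ a, ∑ ω, ((Finset.univ.filter (fun ω' => r ω ω')).card : ℚ)⁻¹ *
      (if RA a ω then 1 else 0) = 1 := by
    intro a
    have h3 : ∀ ω, ((Finset.univ.filter (fun ω' => r ω ω')).card : ℚ)⁻¹ *
        (if RA a ω then 1 else 0) =
        if RA a ω then ((Finset.univ.filter (fun ω => RA a ω)).card : ℚ)⁻¹ else 0 := by
      intro ω
      split_ifs with h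
      · rw [mul_one]
        congr 3
        ext ω'
        simp only [Finset.mem_filter, Finset.mem_univ, true_and]
        exact (hA2 a ω ω' h).symm
      · simp
    simp_rw [h3]
    rw [← Finset.sum_filter, Finset.sum_const, nsmul_eq_mul, mul_inv_cancel₀]
    obtain ⟨ω0, h0⟩ := hA1 a
    have : 0 < (Finset.univ.filter (fun ω => RA a ω)).card :=
      Finset.card_pos.mpr ⟨ω0, by simp [h0]⟩
    exact_mod_cast this.ne'
  rw [Finset.sum_congr rfl (fun a _ => h2 a)]
  simp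

/-- [COUNT] -/
theorem card_eq_of_classes {A B Ω : Type*} [Finite A] [Finite B] [Finite Ω] (r : Ω → Ω → Prop)
    (RA : A → Ω → Prop) (RB : B → Ω → Prop)
    (hA1 : ∀ a, ∃ ω, RA a ω) (hA2 : ∀ a ω ω', RA a ω → (RA a ω' ↔ r ω ω'))
    (hB1 : ∀ b, ∃ ω, RB b ω) (hB2 : ∀ b ω ω', RB b ω → (RB b ω' ↔ r ω ω'))
    (hcard : ∀ ω, Nat.card {a // RA a ω} = Nat.card {b // RB b ω}) : Nat.card A = Nat.card B := by
  classical
  cases nonempty_fintype A
  cases nonempty_fintype B
  cases nonempty_fintype Ω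
  have hA := count_key r RA hA1 hA2
  have hB := count_key r RB hB1 hB2
  simp_rw [hcard] at hA
  rw [← hB] at hA
  rw [Nat.card_eq_fintype_card, Nat.card_eq_fintype_card]
  exact_mod_cast hA

end Cfsg.Agent.Lib.Helper42.RO
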