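import Cfsg.Agent.Lib.Helper84.RO.Defs
import Cfsg.Agent.Lib.Helper82.Linear
import Cfsg.Agent.Lib.Helper5.LinExt

set_option autoImplicit false

namespace Cfsg.Agent.Lib.Helper42.RO

open Cfsg Cfsg.Agent.Lib.Helper5 Cfsg.Agent.Lib.Helper84.RO
open scoped ComplexConjugate

theorem fix_aux_pow {K : Type*} [Group K] [Finite K] (θ : K → ℂ) (hθ : IsCharacter K θ)
    (h1 : θ 1 = 1) (k : K) (m : ℕ) (hm : (Nat.card K).Coprime m) (hk : θ k ^ m = 1) : θ k = 1 := by
  have h2 : θ k ^ Nat.card K = 1 := by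
    rw [← Cfsg.Agent.Lib.Helper82.isChar_linear_pow hθ h1, pow_card_eq_one', h1]
  have h3 := pow_gcd_eq_one.mpr ⟨h2, hk⟩
  rwa [hm, pow_one] at h3

/-- [FIX] -/
theorem fix_dual {X : Type*} [Group X] [Finite X] (K : Subgroup X) (hK : K.Normal)
    (hab : ∀ a ∈ K, ∀ b ∈ K, a * b = b * a) (S : Subgroup X)
    (hcop : (Nat.card K).Coprime (Nat.card S)) :
    (∀ θ : K → ℂ, IsCharacter K θ → θ 1 = 1 → (∀ s ∈ S, cjF hK θ s = θ) → θ = fun _ => 1) ↔
      (∀ k ∈ K, (∀ s ∈ S, s * k = k * s) → k = 1) := by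
  classical
  haveI := Fintype.ofFinite S
  constructor
  · intro hθ k hk hks
    by_contra hk1
    have hcomm : commutator K = ⊥ := by
      rw [commutator_eq_closure, Subgroup.closure_eq_bot_iff]
      rintro _ ⟨a, b, rfl⟩
      have : a * b = b * a := Subtype.ext (hab a a.2 b b.2)
      simp [commutatorElement_def, this]
    have hkn : (⟨k, hk⟩ : K) ∉ commutator K := by
      rw [hcomm, Subgroup.mem_bot]
      intro h
      exact hk1 (congrArg Subtype.val h)
    obtain ⟨lam, hl, hl1, hlk⟩ := exists_linear_ne_one hkn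
    set Θ : K →* ℂ := ∏ s : S, (Cfsg.Agent.Lib.Helper82.linHom lam hl hl1).comp
      (@MulAut.conjNormal X _ K hK (s : X)).toMonoidHom with hΘ
    have hΘa : ∀ n : K, Θ n = ∏ s : S, lam ⟨(s : X) * n * (s : X)⁻¹, hK.conj_mem n n.2 s⟩ := by
      intro n
      rw [hΘ, MonoidHom.finsetProd_apply]
      rfl
    have hchar : IsCharacter K (fun n => Θ n) := by
      obtain ⟨n, ρ, _, h⟩ := Cfsg.Agent.Lib.Helper83.isIrr_of_hom Θ.toHomUnits
      exact ⟨n, ρ, by rw [h]; funext g; simp⟩
    have hinv : ∀ t ∈ S, cjF hK (fun n => Θ n) t = fun n => Θ n := by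
      intro t ht
      funext n
      rw [cjF_apply, hΘa, hΘa]
      refine Fintype.prod_equiv (Equiv.mulRight (⟨t, ht⟩ : S)) _ _ ?_
      intro s
      congr 1
      apply Subtype.ext
      simp [mul_assoc]
    have h2 := congrFun (hθ _ hchar (map_one Θ) hinv) ⟨k, hk⟩
    rw [hΘa] at h2
    have h3 : ∀ s : S, lam ⟨(s : X) * (⟨k, hk⟩ : K) * (s : X)⁻¹,
        hK.conj_mem _ (⟨k, hk⟩ : K).2 s⟩ = lam ⟨k, hk⟩ := by
      intro s
      congr 1
      apply Subtype.ext
      simp [hks s s.2]
    rw [Finset.prod_congr rfl (fun s _ => h3 s), Finset.prod_const, Finset.card_univ,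
      ← Nat.card_eq_fintype_card] at h2
    exact hlk (fix_aux_pow lam hl hl1 _ _ hcop h2)
  · intro hC θ hθ h1 hinv
    letI : CommGroup K := { (inferInstance : Group K) with
      mul_comm := fun a b => Subtype.ext (hab a a.2 b b.2) }
    funext k
    set N : K := ∏ s : S, @MulAut.conjNormal X _ K hK (s : X) k with hN
    have hfix : ∀ t ∈ S, t * (N : X) = (N : X) * t := by
      intro t ht
      have h2 : @MulAut.conjNormal X _ K hK t N = N := by
        rw [hN, map_prod]
        refine Fintype.prod_equiv (Equiv.mulLeft (⟨t, ht⟩ : S)) _ _ ?_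
        intro s
        apply Subtype.ext
        simp [mul_assoc]
      have h3 := congrArg Subtype.val h2
      rw [MulAut.conjNormal_apply] at h3
      calc t * (N : X) = (t * (N : X) * t⁻¹) * t := by group
        _ = (N : X) * t := by rw [h3]
    have hN1 : N = 1 := Subtype.ext (hC N N.2 hfix)
    have h4 : (Cfsg.Agent.Lib.Helper82.linHom θ hθ h1) N = θ k ^ Nat.card S := by
      rw [hN, map_prod]
      have h5 : ∀ s : S, (Cfsg.Agent.Lib.Helper82.linHom θ hθ h1)
          (@MulAut.conjNormal X _ K hK (s : X) k) = θ k := by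
        intro s
        have := congrFun (hinv s s.2) k
        rw [cjF_apply] at this
        rw [Cfsg.Agent.Lib.Helper82.linHom_apply, ← this]
        rfl
      rw [Finset.prod_congr rfl (fun s _ => h5 s), Finset.prod_const, Finset.card_univ,
        ← Nat.card_eq_fintype_card]
    rw [hN1, map_one] at h4
    exact fix_aux_pow θ hθ h1 k _ hcop h4.symm

end Cfsg.Agent.Lib.Helper42.RO
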