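import Cfsg.Agent.Lib.Helper84.RO.Defs
import Cfsg.Agent.Lib.Helper82.Linear
import Cfsg.Agent.Lib.Helper78.SqSub
import Cfsg.Agent.Lib.Helper5.LinExt
import Cfsg.Agent.Lib.Helper1.PGroup

set_option autoImplicit false

namespace Cfsg.Agent.Lib.Helper42.RO

open Cfsg Cfsg.Agent.Lib.Helper5 Cfsg.Agent.Lib.Helper84.RO
open scoped ComplexConjugate

/-- [FRAT] -/
theorem commutator_eq_frattini_iff {P : Type*} [Group P] [Finite P] (hP : IsPGroup 2 P) :
    commutator P = frattini P ↔ LinReal P := by
  constructor
  · intro h ν hν h1 g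
    have h2 : g * g ∈ commutator P := by
      rw [h]
      exact Cfsg.Agent.Lib.Helper78.sqSub_le_frattini hP (Cfsg.Agent.Lib.Helper78.sq_mem_sqSub g)
    have h3 := Cfsg.Agent.Lib.Helper82.isChar_linear_commutator hν h1 h2
    rw [Cfsg.Agent.Lib.Helper82.isChar_linear_mul hν h1] at h3
    rcases mul_self_eq_one_iff.mp h3 with h4 | h4 <;> simp [h4]
  · intro h
    apply le_antisymm
    · exact Cfsg.Agent.Lib.Helper78.commutator_le_sqSub.trans
        (Cfsg.Agent.Lib.Helper78.sqSub_le_frattini hP)
    · intro x hx
      by_contra hxc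
      obtain ⟨μ, hμ, h1, hμx⟩ := exists_linear_ne_one hxc
      have hre := h μ hμ h1
      have hsq : ∀ g, μ g = 1 ∨ μ g = -1 := by
        intro g
        have h2 := Cfsg.Agent.Lib.Helper82.isChar_linear_mul_conj hμ h1 g
        have h3 : conj (μ g) = μ g := Complex.conj_eq_iff_im.mpr (hre g)
        rw [h3] at h2
        exact mul_self_eq_one_iff.mp h2
      set K := (Cfsg.Agent.Lib.Helper82.linHom μ hμ h1).ker with hK
      have hmem : ∀ g, g ∈ K ↔ μ g = 1 := fun g => by
        rw [hK, MonoidHom.mem_ker, Cfsg.Agent.Lib.Helper82.linHom_apply]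
      have hco : IsCoatom K := by
        refine ⟨?_, ?_⟩
        · intro htop
          apply hμx
          rw [← hmem, htop]
          trivial
        · intro H hKH
          obtain ⟨hle, hne⟩ := SetLike.lt_iff_le_and_exists.mp hKH
          obtain ⟨y, hyH, hyK⟩ := hne
          have hy : μ y = -1 := by
            rcases hsq y with h4 | h4
            · exact absurd ((hmem y).mpr h4) hyK
            · exact h4
          rw [eq_top_iff]
          intro g _
          rcases hsq g with h4 | h4
          · exact hle ((hmem g).mpr h4)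
          · have h5 : g * y ∈ K := by
              rw [hmem, Cfsg.Agent.Lib.Helper82.isChar_linear_mul hμ h1, h4, hy]
              norm_num
            have h6 := H.mul_mem (hle h5) (H.inv_mem hyH)
            simpa using h6
      have h7 := (Cfsg.Agent.Lib.Helper1.le_frattini_iff (frattini P)).mp le_rfl K hco hx
      exact hμx ((hmem x).mp h7)

end Cfsg.Agent.Lib.Helper42.RO
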