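import Mathlib

set_option autoImplicit false

namespace Cfsg.Agent.Lib.Helper42.RO

/-- [NQ] -/
theorem normalizer_map_surj {X X' : Type*} [Group X] [Finite X] [Group X'] {p : ℕ} [Fact p.Prime]
    (π : X →* X') (hπ : Function.Surjective π) (S : Sylow p X) (y' : X')
    (hy : y' ∈ Subgroup.normalizer (((S : Subgroup X).map π : Subgroup X') : Set X')) :
    ∃ n ∈ Subgroup.normalizer ((S : Subgroup X) : Set X), π n = y' := by
  obtain ⟨y, rfl⟩ := hπ y'
  set H : Subgroup X := ((S : Subgroup X).map π).comap π with hH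
  have hSH : (S : Subgroup X) ≤ H := Subgroup.le_comap_map _ _
  have hyS : ((y • S : Sylow p X) : Subgroup X) ≤ H := by
    intro x hx
    rw [Sylow.coe_subgroup_smul, Subgroup.mem_pointwise_smul_iff_inv_smul_mem] at hx
    rw [hH, Subgroup.mem_comap]
    have h1 : π (y⁻¹ * x * y) ∈ (S : Subgroup X).map π := by
      refine Subgroup.mem_map_of_mem _ ?_
      simpa [MulAut.smul_def] using hx
    have h2 := (Subgroup.mem_normalizer_iff.mp hy _).mp h1
    simpa [mul_assoc] using h2
  obtain ⟨h, hh⟩ := MulAction.exists_smul_eq H ((y • S).subtype hyS) (S.subtype hSH)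
  rw [Sylow.smul_subtype] at hh
  have h3 : h • (y • S) = S := Sylow.subtype_injective hh
  have h4 : ((h : X) * y) • S = S := by
    rw [mul_smul]; exact h3
  have h5 : (h : X) * y ∈ Subgroup.normalizer ((S : Subgroup X) : Set X) :=
    Sylow.smul_eq_iff_mem_normalizer.mp h4
  obtain ⟨s, hs, hsh⟩ := Subgroup.mem_map.mp (Subgroup.mem_comap.mp h.2)
  refine ⟨s⁻¹ * ((h : X) * y), mul_mem (inv_mem (Subgroup.le_normalizer hs)) h5, ?_⟩
  simp [hsh]

end Cfsg.Agent.Lib.Helper42.RO
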