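import Mathlib
import Cfsg.Agent.Lib.Helper64.ClassSize
import Cfsg.Agent.Lib.Helper58.PRegularCentral
import Cfsg.Agent.Lib.Helper77.Frobenius
import Cfsg.Agent.Lib.Helper55.CharP
import Cfsg.Agent.Lib.Helper11.NPC
import Cfsg.Agent.Lib.Helper42.ClassSize

/-! Basic lemmas on groups in which `p ^ 2` divides no class size. -/

set_option autoImplicit false

namespace Cfsg.Agent.Lib.Helper42

open Subgroup Cfsg.Agent.Lib.Helper77

universe u

/-- A subgroup of index dividing `p` in a finite `p`-group contains all commutators. -/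
theorem comm_mem_of_index_dvd {P : Type*} [Group P] [Finite P] {p : ℕ} [hp : Fact p.Prime]
    (hP : IsPGroup p P) (H : Subgroup P) (h : H.index ∣ p) (s t : P) :
    s * t * s⁻¹ * t⁻¹ ∈ H := by
  rcases (Nat.dvd_prime hp.out).1 h with h1 | h1
  · rw [index_eq_one] at h1; rw [h1]; trivial
  · obtain ⟨k, hk⟩ := IsPGroup.iff_card.1 hP
    have hk0 : k ≠ 0 := by
      rintro rfl
      have h2 : H.index ∣ Nat.card P := H.index_dvd_card
      rw [h1, hk, pow_zero] at h2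
      exact hp.out.one_lt.ne' (Nat.dvd_one.1 h2)
    have hn : H.Normal := normal_of_index_eq_minFac_card (by rw [h1, hk, hp.out.pow_minFac hk0])
    have hc : Nat.card (P ⧸ H) = p := h1
    have hcyc : IsCyclic (P ⧸ H) := isCyclic_of_prime_card hc
    have hcomm : ∀ a b : P ⧸ H, a * b = b * a := fun a b => (IsCyclic.commGroup).mul_comm a b
    rw [← QuotientGroup.eq_one_iff]
    have e : ((s * t * s⁻¹ * t⁻¹ : P) : P ⧸ H) = (s : P ⧸ H) * t * (s : P ⧸ H)⁻¹ * (t : P ⧸ H)⁻¹ := rfl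
    rw [e, hcomm (s : P ⧸ H) t]
    group

theorem dvd_prime_of_dvd_pow_of_not_sq {p a n k : ℕ} (hp : p.Prime) (h1 : a ∣ p ^ k) (h2 : a ∣ n)
    (h3 : ¬ p ^ 2 ∣ n) : a ∣ p := by
  obtain ⟨j, _, rfl⟩ := (Nat.dvd_prime_pow hp).1 h1
  have hj : j ≤ 1 := by
    by_contra hj
    exact h3 ((pow_dvd_pow p (by omega)).trans h2)
  calc p ^ j ∣ p ^ 1 := pow_dvd_pow p hj
    _ = p := pow_one p

/-- Sylow subgroup of a subgroup `C` containing a given `p`-subgroup, seen in `G`. -/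
theorem exists_pgroup_index {G : Type*} [Group G] [Finite G] (p : ℕ) [hp : Fact p.Prime]
    (C Q : Subgroup G) (hQ : IsPGroup p Q) (hQC : Q ≤ C) :
    ∃ T : Subgroup G, IsPGroup p T ∧ Q ≤ T ∧ T ≤ C ∧ ∃ m : ℕ, ¬ p ∣ m ∧ T.index = m * C.index := by
  have hQ' : IsPGroup p (Q.subgroupOf C) := hQ.comap_subtype
  obtain ⟨T, hT⟩ := hQ'.exists_le_sylow
  refine ⟨(T : Subgroup C).map C.subtype, T.2.map _, ?_, map_subtype_le _, (T : Subgroup C).index,
    T.not_dvd_index, index_map_subtype _⟩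
  intro x hx
  exact ⟨⟨x, hQC hx⟩, hT (mem_subgroupOf.2 hx), rfl⟩

theorem exists_sylow_relIndex_dvd {G : Type*} [Group G] [Finite G] (p : ℕ) [hp : Fact p.Prime]
    (C : Subgroup G) : ∃ P : Sylow p G, C.relIndex P ∣ C.index := by
  obtain ⟨T, hT, -, hTC, m, hm, hTi⟩ := exists_pgroup_index p C ⊥ IsPGroup.of_bot bot_le
  obtain ⟨P, hP⟩ := hT.exists_le_sylow
  refine ⟨P, ?_⟩
  have h2 := relIndex_mul_index hP
  have h3 : T.relIndex P ∣ m * C.index := by
    rw [← hTi, ← h2]; exact dvd_mul_right _ _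
  have h4 : (T.relIndex P).Coprime m := by
    obtain ⟨n, hn⟩ := IsPGroup.iff_card.1 P.2
    have h5 : T.relIndex P ∣ p ^ n := hn ▸ relIndex_dvd_card _ _
    exact Nat.Coprime.coprime_dvd_left h5
      (Nat.Coprime.pow_left n ((Nat.Prime.coprime_iff_not_dvd hp.out).2 hm))
  exact (relIndex_dvd_of_le_left _ hTC).trans (h4.dvd_of_dvd_mul_left h3)

theorem exists_sylow_relIndex_dvd_prime {G : Type*} [Group G] [Finite G] {p : ℕ} [hp : Fact p.Prime]
    {C : Subgroup G} (h : ¬ p ^ 2 ∣ C.index) : ∃ P : Sylow p G, C.relIndex P ∣ p := by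
  obtain ⟨P, hP⟩ := exists_sylow_relIndex_dvd p C
  obtain ⟨n, hn⟩ := IsPGroup.iff_card.1 P.2
  exact ⟨P, dvd_prime_of_dvd_pow_of_not_sq hp.out (hn ▸ relIndex_dvd_card _ _) hP h⟩

theorem eq_one_of_pow_prime_pow {G : Type*} [Group G] (Z : Subgroup G) {p : ℕ}
    (hz : ∀ z ∈ Z, z ^ p = 1 → z = 1) : ∀ (k : ℕ) (c : G), c ∈ Z → c ^ (p ^ k) = 1 → c = 1
  | 0, c, _, h => by simpa using h
  | k + 1, c, hc, h => by
      apply eq_one_of_pow_prime_pow Z hz k c hc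
      apply hz _ (Z.pow_mem hc _)
      rw [← pow_mul, ← pow_succ]; exact h

/-- If `p ^ 2` divides no class size and the centre has no element of order `p`, the Sylow
`p`-subgroups are abelian. -/
theorem sylow_comm_of_center {G : Type*} [Group G] [Finite G] {p : ℕ} [hp : Fact p.Prime]
    (h : ∀ w : G, ¬ p ^ 2 ∣ (centralizer ({w} : Set G)).index)
    (hz : ∀ z ∈ center G, z ^ p = 1 → z = 1)
    (P : Sylow p G) (x y : G) (hx : x ∈ P) (hy : y ∈ P) : x * y = y * x := by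
  have hcP : x * y * x⁻¹ * y⁻¹ ∈ (P : Subgroup G) :=
    mul_mem (mul_mem (mul_mem hx hy) (inv_mem hx)) (inv_mem hy)
  have htop : centralizer ({x * y * x⁻¹ * y⁻¹} : Set G) = ⊤ := by
    apply Cfsg.Agent.Lib.Helper58.eq_top_of_conj_cover
    intro w
    obtain ⟨P₁, hP₁⟩ := exists_sylow_relIndex_dvd_prime (h w)
    obtain ⟨g, hg⟩ := MulAction.exists_smul_eq G P P₁
    have hx1 : g * x * g⁻¹ ∈ P₁ := by
      rw [← hg, mem_smul_sylow]; simpa [mul_assoc] using hx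
    have hy1 : g * y * g⁻¹ ∈ P₁ := by
      rw [← hg, mem_smul_sylow]; simpa [mul_assoc] using hy
    have h1 := comm_mem_of_index_dvd P₁.2 ((centralizer ({w} : Set G)).subgroupOf P₁) hP₁
      ⟨_, hx1⟩ ⟨_, hy1⟩
    rw [mem_subgroupOf, mem_centralizer_singleton_iff] at h1
    simp only [Subgroup.coe_mul, InvMemClass.coe_inv] at h1
    refine ⟨g⁻¹, ?_⟩
    rw [mem_centralizer_singleton_iff]
    have e : g * x * g⁻¹ * (g * y * g⁻¹) * (g * x * g⁻¹)⁻¹ * (g * y * g⁻¹)⁻¹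
        = g * (x * y * x⁻¹ * y⁻¹) * g⁻¹ := by group
    rw [e] at h1
    calc g⁻¹ * w * g⁻¹⁻¹ * (x * y * x⁻¹ * y⁻¹)
        = g⁻¹ * (w * (g * (x * y * x⁻¹ * y⁻¹) * g⁻¹)) * g := by group
      _ = g⁻¹ * ((g * (x * y * x⁻¹ * y⁻¹) * g⁻¹) * w) * g := by rw [h1]
      _ = x * y * x⁻¹ * y⁻¹ * (g⁻¹ * w * g⁻¹⁻¹) := by group
  have hcc : x * y * x⁻¹ * y⁻¹ ∈ center G :=
    Cfsg.Agent.Lib.Helper64.centralizer_singleton_eq_top_iff.1 htop
  obtain ⟨k, hk⟩ := P.2 ⟨_, hcP⟩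
  have hk' : (x * y * x⁻¹ * y⁻¹) ^ (p ^ k) = 1 := by
    have := congrArg Subtype.val hk
    simpa using this
  have h1 := eq_one_of_pow_prime_pow (center G) hz k _ hcc hk'
  calc x * y = (x * y * x⁻¹ * y⁻¹) * (y * x) := by group
    _ = y * x := by rw [h1, one_mul]

end Cfsg.Agent.Lib.Helper42
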