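import Mathlib
import Cfsg.Agent.Lib.Helper42.SFBasic

/-! If `p ^ 2` divides no class size and `|G|` is prime to `p - 1`, then `G` has a normal
`p`-complement: preparatory lemmas. -/

set_option autoImplicit false

namespace Cfsg.Agent.Lib.Helper42

open Subgroup Cfsg.Agent.Lib.Helper77

universe u

theorem index_centralizer_map_dvd' {G G' : Type*} [Group G] [Group G'] (f : G →* G')
    (hf : Function.Surjective f) (y : G) :
    (centralizer ({f y} : Set G')).index ∣ (centralizer ({y} : Set G)).index := by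
  have h1 : (centralizer ({y} : Set G)).map f ≤ centralizer ({f y} : Set G') := by
    rintro _ ⟨c, hc, rfl⟩
    have hc' : c ∈ centralizer ({y} : Set G) := hc
    rw [Subgroup.mem_centralizer_singleton_iff] at hc' ⊢
    rw [← map_mul, ← map_mul, hc']
  exact (index_dvd_of_le h1).trans (index_map_dvd _ hf)

/-- A normal `p`-complement lifts through a central subgroup of exponent `p`. -/
theorem npc_of_central_quotient {G : Type u} [Group G] [Finite G] {p : ℕ} [hp : Fact p.Prime]
    (Z : Subgroup G) [Z.Normal] (hZ : Z ≤ center G) (hZp : ∀ z ∈ Z, z ^ p = 1)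
    (h : NPC p (G ⧸ Z)) : NPC p G := by
  rw [npc_iff_frobCond] at h ⊢
  intro Q hQ g hg hgo
  have h1 := h (Q.map (QuotientGroup.mk' Z)) (hQ.map _) (QuotientGroup.mk' Z g) ?_ ?_
  · rw [mem_centralizer_iff] at h1 ⊢
    intro a ha
    have h2 := h1 (QuotientGroup.mk' Z a) ⟨a, ha, rfl⟩
    have h3 : g⁻¹ * a⁻¹ * g * a ∈ Z := by
      rw [← QuotientGroup.eq_one_iff]
      have e : ((g⁻¹ * a⁻¹ * g * a : G) : G ⧸ Z)
          = (QuotientGroup.mk' Z g)⁻¹ * (QuotientGroup.mk' Z a)⁻¹ *
            ((QuotientGroup.mk' Z g) * (QuotientGroup.mk' Z a)) := by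
        simp [mul_assoc]
      rw [e, ← h2]; group
    have h4 : g⁻¹ * a⁻¹ * g * a = 1 :=
      Cfsg.Agent.Lib.Helper55.eq_one_of_conj_eq_mul (p := p) (d := g) (q := a)
        (z := g⁻¹ * a⁻¹ * g * a) (k := 1) hgo (by group)
        (((mem_center_iff.1 (hZ h3)) g)) (by rw [pow_one]; exact hZp _ h3)
    calc a * g = g * a * (g⁻¹ * a⁻¹ * g * a)⁻¹ := by group
      _ = g * a := by rw [h4]; simp
  · apply Cfsg.Agent.Lib.Helper11.mem_normalizer_of_conj_mem
    rintro _ ⟨q, hq, rfl⟩
    exact ⟨g * q * g⁻¹, (mem_normalizer_iff.1 hg q).1 hq, by simp⟩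
  · exact Nat.Coprime.coprime_dvd_left (orderOf_map_dvd _ g) hgo

/-- The hypothesis passes to centralizers of `p`-elements if the `p`-subgroups are abelian. -/
theorem p2free_centralizer {G : Type*} [Group G] [Finite G] {p : ℕ} [hp : Fact p.Prime]
    (h : ∀ w : G, ¬ p ^ 2 ∣ (centralizer ({w} : Set G)).index)
    (hab : ∀ Q : Subgroup G, IsPGroup p Q → ∀ x ∈ Q, ∀ y ∈ Q, x * y = y * x)
    (u : G) (hu : ∃ k, orderOf u = p ^ k) (y : centralizer ({u} : Set G)) :
    ¬ p ^ 2 ∣ (centralizer ({y} : Set (centralizer ({u} : Set G)))).index := by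
  obtain ⟨a, b, ha, hb, hab', ⟨j, hj⟩, hbq⟩ := Cfsg.Agent.Lib.Helper64.exists_prime_decomp p (y : G)
  obtain ⟨k, hk⟩ := hu
  have hyu : Commute u (y : G) := by
    have := y.2
    rw [mem_centralizer_singleton_iff] at this
    exact this.symm
  have hua : Commute u a := by
    obtain ⟨i, rfl⟩ := ha
    exact hyu.zpow_right i
  have hub : Commute u b := by
    obtain ⟨i, rfl⟩ := hb
    exact hyu.zpow_right i
  have hab2 : Commute a b := by
    obtain ⟨i, rfl⟩ := ha
    obtain ⟨i', rfl⟩ := hb
    exact ((Commute.refl (y : G)).zpow_left i).zpow_right i'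
  have hcop : (orderOf u).Coprime (orderOf b) := by
    rw [hk]; exact (Nat.Coprime.pow_right k hbq).symm
  have hC := Cfsg.Agent.Lib.Helper64.centralizer_mul_of_coprime hub hcop
  have haC : zpowers a ≤ centralizer ({u * b} : Set G) := by
    rw [zpowers_le, hC, mem_inf, mem_centralizer_singleton_iff, mem_centralizer_singleton_iff]
    exact ⟨hua.symm.eq, hab2.eq⟩
  have hpa : IsPGroup p (zpowers a) := IsPGroup.of_card (by rw [Nat.card_zpowers, hj])
  obtain ⟨T, hT, haT, hTC, m, hm, hTi⟩ := exists_pgroup_index p _ (zpowers a) hpa haC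
  have hTy : T ≤ centralizer ({(y : G)} : Set G) ⊓ centralizer ({u} : Set G) := by
    intro t ht
    have h1 := hTC ht
    rw [hC, mem_inf, mem_centralizer_singleton_iff, mem_centralizer_singleton_iff] at h1
    rw [mem_inf, mem_centralizer_singleton_iff, mem_centralizer_singleton_iff]
    refine ⟨?_, h1.1⟩
    have h2 : t * a = a * t := hab T hT t ht a (haT (mem_zpowers a))
    rw [← hab', ← mul_assoc, h2, mul_assoc, h1.2, mul_assoc]
  rw [index_centralizer_subtype, ← inf_relIndex_right]
  intro hdvd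
  have h1 := relIndex_mul_index (inf_le_right :
    centralizer ({(y : G)} : Set G) ⊓ centralizer ({u} : Set G) ≤ centralizer ({u} : Set G))
  have h2 : p ^ 2 ∣ m * (centralizer ({u * b} : Set G)).index := by
    rw [← hTi]
    exact (hdvd.trans (Dvd.intro _ h1)).trans (index_dvd_of_le hTy)
  have h3 : (p ^ 2).Coprime m :=
    Nat.Coprime.pow_left 2 ((Nat.Prime.coprime_iff_not_dvd hp.out).2 hm)
  exact h _ (h3.dvd_of_dvd_mul_left h2)

theorem normalizer_le_centralizer_of_card_prime {G : Type*} [Group G] [Finite G] {p : ℕ}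
    [hp : Fact p.Prime] (hcop : (Nat.card G).Coprime (p - 1)) (P : Subgroup G)
    (hP : Nat.card P = p) : normalizer (P : Set G) ≤ centralizer (P : Set G) := by
  have key := card_dvd_of_injective _ (QuotientGroup.kerLift_injective P.normalizerMonoidHom)
  rw [normalizerMonoidHom_ker, ← index, ← relIndex] at key
  refine relIndex_eq_one.mp (Nat.eq_one_of_dvd_coprimes ?_ dvd_rfl key)
  have hc : IsCyclic P := isCyclic_of_prime_card hP
  rw [hc.card_mulAut, hP, Nat.totient_prime hp.out]
  apply Nat.Coprime.coprime_dvd_left <| relIndex_dvd_card ..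
  apply Nat.Coprime.coprime_dvd_left <| card_subgroup_dvd_card _
  exact hcop

/-- A `p'`-element of `N(P)` (with `P` abelian) commuting with `v ∈ P` whose centralizer has a
normal `p`-complement centralizes `P`. -/
theorem mem_centralizer_of_fix {G : Type*} [Group G] [Finite G] {p : ℕ} [hp : Fact p.Prime]
    (P : Sylow p G) (hPab : ∀ x ∈ P, ∀ y ∈ P, x * y = y * x)
    (v : G) (hv : v ∈ P) (hnpc : NPC p (centralizer ({v} : Set G)))
    (n : G) (hn : n ∈ normalizer ((P : Subgroup G) : Set G)) (hno : (orderOf n).Coprime p)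
    (hnv : n * v = v * n) : n ∈ centralizer ((P : Subgroup G) : Set G) := by
  have hF := frobCond_of_npc hnpc
  have hnH : n ∈ centralizer ({v} : Set G) := by
    rw [mem_centralizer_singleton_iff]; exact hnv
  have h1 := hF ((P : Subgroup G).subgroupOf (centralizer ({v} : Set G))) P.2.comap_subtype
    ⟨n, hnH⟩ ?_ ?_
  · rw [mem_centralizer_iff] at h1 ⊢
    intro a ha
    have haH : a ∈ centralizer ({v} : Set G) := by
      rw [mem_centralizer_singleton_iff]; exact hPab a ha v hv
    have h2 := h1 ⟨a, haH⟩ (mem_subgroupOf.2 ha)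
    exact congrArg Subtype.val h2
  · rw [mem_normalizer_iff]
    intro x
    exact (mem_normalizer_iff.1 hn x)
  · rw [Subgroup.orderOf_mk]; exact hno

end Cfsg.Agent.Lib.Helper42
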