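import Mathlib
import Cfsg.Agent.Lib.Helper42.SFThmA

/-! The counting argument: abelian Sylow `p`-subgroup `P`, centralizers of nontrivial `p`-elements
with normal `p`-complements, every element commuting with a nontrivial `p`-element: no element of
`N(P)` moves all nontrivial elements of `P`. -/

set_option autoImplicit false

namespace Cfsg.Agent.Lib.Helper42

open Subgroup Cfsg.Agent.Lib.Helper77

universe u

/-- nontrivial `p`-element -/
abbrev IsPE (p : ℕ) {G : Type*} [Group G] (u : G) : Prop := (∃ k, orderOf u = p ^ k) ∧ u ≠ 1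

abbrev YT (p : ℕ) (G : Type*) [Group G] := {y : G // (orderOf y).Coprime p}

abbrev AT (p : ℕ) (G : Type*) [Group G] :=
  {a : G × G // IsPE p a.1 ∧ (orderOf a.2).Coprime p ∧ Commute a.1 a.2}

abbrev BT (p : ℕ) (G : Type*) [Group G] := {b : G × G // IsPE p b.1 ∧ Commute b.1 b.2}

theorem card_le_Y_add_A {G : Type*} [Group G] [Finite G] (p : ℕ) [hp : Fact p.Prime] :
    Nat.card G ≤ Nat.card (YT p G) + Nat.card (AT p G) := by
  rw [← Nat.card_sum]
  let f : YT p G ⊕ AT p G → G := fun x => Sum.elim (fun y => y.1) (fun a => a.1.1 * a.1.2) x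
  apply Nat.card_le_card_of_surjective f
  intro g
  obtain ⟨a, b, ha, hb, hab, hak, hbq⟩ := Cfsg.Agent.Lib.Helper64.exists_prime_decomp p g
  by_cases ha1 : a = 1
  · refine ⟨Sum.inl ⟨b, hbq⟩, ?_⟩
    rw [ha1, one_mul] at hab
    exact hab
  · have hc : Commute a b := by
      obtain ⟨i, rfl⟩ := ha
      obtain ⟨i', rfl⟩ := hb
      exact ((Commute.refl g).zpow_left i).zpow_right i'
    exact ⟨Sum.inr ⟨(a, b), ⟨hak, ha1⟩, hbq, hc⟩, hab⟩

theorem card_Y_le_A {G : Type*} [Group G] [Finite G] (p : ℕ)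
    (hex : ∀ y : G, ∃ u : G, IsPE p u ∧ Commute u y) :
    Nat.card (YT p G) ≤ Nat.card (AT p G) := by
  choose u hu using hex
  let f : YT p G → AT p G := fun y => ⟨(u y.1, y.1), (hu y.1).1, y.2, (hu y.1).2⟩
  apply Nat.card_le_card_of_injective f
  intro y y' h
  have h1 := congrArg (fun a : AT p G => a.1.2) h
  exact Subtype.ext h1

theorem card_A_mul_le_B {G : Type*} [Group G] [Finite G] {p : ℕ} [hp : Fact p.Prime]
    (P : Sylow p G) (hPab : ∀ x ∈ P, ∀ y ∈ P, x * y = y * x)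
    (hnpc : ∀ u : G, IsPE p u → NPC p (centralizer ({u} : Set G)))
    (gu : G → G) (hgu : ∀ u, IsPE p u → (gu u)⁻¹ * u * gu u ∈ P) :
    Nat.card (AT p G) * Nat.card P ≤ Nat.card (BT p G) := by
  rw [← Nat.card_prod]
  have hcomm : ∀ (u : G), IsPE p u → ∀ s ∈ P, Commute u (gu u * s * (gu u)⁻¹) := by
    intro u hu s hs
    have h1 := hPab _ (hgu u hu) s hs
    show u * (gu u * s * (gu u)⁻¹) = (gu u * s * (gu u)⁻¹) * u
    calc u * (gu u * s * (gu u)⁻¹) = gu u * (((gu u)⁻¹ * u * gu u) * s) * (gu u)⁻¹ := by group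
      _ = gu u * (s * ((gu u)⁻¹ * u * gu u)) * (gu u)⁻¹ := by rw [h1]
      _ = (gu u * s * (gu u)⁻¹) * u := by group
  let f : AT p G × P → BT p G := fun x =>
    ⟨(x.1.1.1, x.1.1.2 * (gu x.1.1.1 * x.2 * (gu x.1.1.1)⁻¹)), x.1.2.1,
      Commute.mul_right x.1.2.2.2 (hcomm _ x.1.2.1 _ x.2.2)⟩
  apply Nat.card_le_card_of_injective f
  rintro ⟨⟨⟨u, y⟩, hu, hy, hc⟩, ⟨s, hs⟩⟩ ⟨⟨⟨u', y'⟩, hu', hy', hc'⟩, ⟨s', hs'⟩⟩ h
  have h1 : u = u' := congrArg (fun b : BT p G => b.1.1) h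
  have h2 : y * (gu u * s * (gu u)⁻¹) = y' * (gu u' * s' * (gu u')⁻¹) :=
    congrArg (fun b : BT p G => b.1.2) h
  subst h1
  simp only at hu hy hc hu' hy' hc'
  obtain ⟨K, hKn, hKc, k, hk⟩ := hnpc u hu
  have hyC : y ∈ centralizer ({u} : Set G) := by
    rw [mem_centralizer_singleton_iff]; exact hc.symm.eq
  have hyC' : y' ∈ centralizer ({u} : Set G) := by
    rw [mem_centralizer_singleton_iff]; exact hc'.symm.eq
  have hyK : (⟨y, hyC⟩ : centralizer ({u} : Set G)) ∈ K :=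
    mem_of_coprime_of_index_pow K hk _ (by rw [Subgroup.orderOf_mk]; exact hy)
  have hyK' : (⟨y', hyC'⟩ : centralizer ({u} : Set G)) ∈ K :=
    mem_of_coprime_of_index_pow K hk _ (by rw [Subgroup.orderOf_mk]; exact hy')
  have h3 : y'⁻¹ * y = gu u * (s' * s⁻¹) * (gu u)⁻¹ := by
    calc y'⁻¹ * y = y'⁻¹ * (y * (gu u * s * (gu u)⁻¹)) * (gu u * s⁻¹ * (gu u)⁻¹) := by group
      _ = y'⁻¹ * (y' * (gu u * s' * (gu u)⁻¹)) * (gu u * s⁻¹ * (gu u)⁻¹) := by rw [h2]
      _ = gu u * (s' * s⁻¹) * (gu u)⁻¹ := by group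
  have h4 : (y'⁻¹ * y) ^ (Nat.card K) = 1 := by
    have h5 : ((⟨y', hyC'⟩ : centralizer ({u} : Set G))⁻¹ * ⟨y, hyC⟩) ∈ K :=
      K.mul_mem (K.inv_mem hyK') hyK
    have h6 : (⟨_, h5⟩ : K) ^ (Nat.card K) = 1 := pow_card_eq_one'
    have h7 : ((⟨y', hyC'⟩ : centralizer ({u} : Set G))⁻¹ * ⟨y, hyC⟩) ^ (Nat.card K) = 1 :=
      congrArg Subtype.val h6
    exact congrArg Subtype.val h7
  obtain ⟨j, hj⟩ := P.2 ⟨s' * s⁻¹, mul_mem hs' (inv_mem hs)⟩
  have hj' : (s' * s⁻¹) ^ (p ^ j) = 1 := by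
    have := congrArg Subtype.val hj
    simpa using this
  have h5 : (y'⁻¹ * y) ^ (p ^ j) = 1 := by
    rw [h3, conj_pow, hj']; group
  have h6 : y'⁻¹ * y = 1 := Cfsg.Agent.Lib.Helper55.eq_one_of_pow_of_coprime h5 h4 hKc
  have h7 : y = y' := by
    calc y = y' * (y'⁻¹ * y) := by group
      _ = y' := by rw [h6, mul_one]
  have h8 : s = s' := by
    rw [h6] at h3
    have h9 : s' * s⁻¹ = 1 := by
      calc s' * s⁻¹ = (gu u)⁻¹ * (gu u * (s' * s⁻¹) * (gu u)⁻¹) * gu u := by group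
        _ = 1 := by rw [← h3]; group
    exact (mul_inv_eq_one.1 h9).symm
  subst h7 h8
  rfl

theorem card_B_mul_two_le {G : Type*} [Group G] [Finite G] {p : ℕ} [hp : Fact p.Prime]
    (P : Sylow p G)
    (gu : G → G) (hgu : ∀ u, IsPE p u → (gu u)⁻¹ * u * gu u ∈ P)
    (n : G) (hn : n ∈ normalizer ((P : Subgroup G) : Set G))
    (hmove : ∀ v ∈ P, v ≠ 1 → n * v ≠ v * n) :
    Nat.card (BT p G) * 2 ≤ Nat.card G * Nat.card {v : P // v ≠ 1} := by
  have hb : Nat.card Bool = 2 := by simp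
  rw [← hb, ← Nat.card_prod, ← Nat.card_prod]
  let c : Bool → G := fun e => cond e n 1
  have hcN : ∀ e, c e ∈ normalizer ((P : Subgroup G) : Set G) := by
    intro e; cases e
    · exact one_mem _
    · exact hn
  have hv1 : ∀ (e : Bool) (u : G), IsPE p u → c e * ((gu u)⁻¹ * u * gu u) * (c e)⁻¹ ≠ 1 := by
    intro e u hu h1
    apply hu.2
    calc u = gu u * (c e)⁻¹ * (c e * ((gu u)⁻¹ * u * gu u) * (c e)⁻¹) * c e * (gu u)⁻¹ := by group
      _ = 1 := by rw [h1]; group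
  let f : BT p G × Bool → G × {v : P // v ≠ 1} := fun x =>
    (x.1.1.2 * gu x.1.1.1 * (c x.2)⁻¹,
      ⟨⟨c x.2 * ((gu x.1.1.1)⁻¹ * x.1.1.1 * gu x.1.1.1) * (c x.2)⁻¹,
        (mem_normalizer_iff.1 (hcN x.2) _).1 (hgu _ x.1.2.1)⟩,
        fun h => hv1 x.2 _ x.1.2.1 (congrArg Subtype.val h)⟩)
  apply Nat.card_le_card_of_injective f
  rintro ⟨⟨⟨u, h⟩, hu, hc⟩, e⟩ ⟨⟨⟨u', h'⟩, hu', hc'⟩, e'⟩ hf
  have h1 : h * gu u * (c e)⁻¹ = h' * gu u' * (c e')⁻¹ := congrArg Prod.fst hf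
  have h2 : c e * ((gu u)⁻¹ * u * gu u) * (c e)⁻¹ = c e' * ((gu u')⁻¹ * u' * gu u') * (c e')⁻¹ :=
    congrArg (fun z : G × {v : P // v ≠ 1} => ((z.2 : P) : G)) hf
  simp only at hu hc hu' hc'
  have h3 : u = u' := by
    calc u = h * u * h⁻¹ := by rw [← hc.eq]; group
      _ = (h * gu u * (c e)⁻¹) * (c e * ((gu u)⁻¹ * u * gu u) * (c e)⁻¹) *
            (h * gu u * (c e)⁻¹)⁻¹ := by group
      _ = (h' * gu u' * (c e')⁻¹) * (c e' * ((gu u')⁻¹ * u' * gu u') * (c e')⁻¹) *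
            (h' * gu u' * (c e')⁻¹)⁻¹ := by rw [h1, h2]
      _ = h' * u' * h'⁻¹ := by group
      _ = u' := by rw [← hc'.eq]; group
  subst h3
  have hvP := hgu u hu
  have hvne : (gu u)⁻¹ * u * gu u ≠ 1 := by
    have := hv1 false u hu
    simpa [c] using this
  have h4 : e = e' := by
    cases e <;> cases e'
    · rfl
    · exfalso
      apply hmove _ hvP hvne
      simp only [c, cond_false, cond_true, one_mul, inv_one, mul_one] at h2
      calc n * ((gu u)⁻¹ * u * gu u) = (n * ((gu u)⁻¹ * u * gu u) * n⁻¹) * n := by group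
        _ = ((gu u)⁻¹ * u * gu u) * n := by rw [← h2]
    · exfalso
      apply hmove _ hvP hvne
      simp only [c, cond_false, cond_true, one_mul, inv_one, mul_one] at h2
      calc n * ((gu u)⁻¹ * u * gu u) = (n * ((gu u)⁻¹ * u * gu u) * n⁻¹) * n := by group
        _ = ((gu u)⁻¹ * u * gu u) * n := by rw [h2]
    · rfl
  subst h4
  have h5 : h = h' := by
    have := mul_right_cancel h1
    exact mul_right_cancel this
  subst h5
  rfl

/-- The counting argument. -/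
theorem no_moving_element {G : Type*} [Group G] [Finite G] {p : ℕ} [hp : Fact p.Prime]
    (P : Sylow p G) (hPab : ∀ x ∈ P, ∀ y ∈ P, x * y = y * x)
    (hnpc : ∀ u : G, IsPE p u → NPC p (centralizer ({u} : Set G)))
    (hex : ∀ y : G, ∃ u : G, IsPE p u ∧ Commute u y)
    (n : G) (hn : n ∈ normalizer ((P : Subgroup G) : Set G))
    (hmove : ∀ v ∈ P, v ≠ 1 → n * v ≠ v * n) : False := by
  have hg : ∀ u : G, ∃ g : G, IsPE p u → g⁻¹ * u * g ∈ P := by
    intro u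
    by_cases hu : IsPE p u
    · obtain ⟨k, hk⟩ := hu.1
      have h1 : IsPGroup p (zpowers u) := IsPGroup.of_card (by rw [Nat.card_zpowers, hk])
      obtain ⟨R, hR⟩ := h1.exists_le_sylow
      obtain ⟨g, hg⟩ := MulAction.exists_smul_eq G P R
      refine ⟨g, fun _ => ?_⟩
      rw [← mem_smul_sylow, hg]; exact hR (mem_zpowers u)
    · exact ⟨1, fun h => absurd h hu⟩
  choose gu hgu using hg
  have h1 := card_le_Y_add_A (G := G) p
  have h2 := card_Y_le_A p hex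
  have h3 := card_A_mul_le_B P hPab hnpc gu hgu
  have h4 := card_B_mul_two_le P gu hgu n hn hmove
  have h5 : Nat.card {v : P // v ≠ 1} < Nat.card P :=
    Finite.card_subtype_lt (x := (1 : P)) (by simp)
  have h6 : 0 < Nat.card G := Nat.card_pos
  have h7 : Nat.card G * Nat.card P ≤ Nat.card G * Nat.card {v : P // v ≠ 1} := by
    calc Nat.card G * Nat.card P ≤ (Nat.card (AT p G) + Nat.card (AT p G)) * Nat.card P :=
          Nat.mul_le_mul_right _ (by omega)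
      _ = (Nat.card (AT p G) * Nat.card P) * 2 := by ring
      _ ≤ Nat.card (BT p G) * 2 := Nat.mul_le_mul_right _ h3
      _ ≤ _ := h4
  have h8 := Nat.le_of_mul_le_mul_left h7 h6
  omega

end Cfsg.Agent.Lib.Helper42
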