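import Mathlib
import Cfsg.Agent.Lib.Helper42.SFBasic

/-! If `q ^ 2` divides no class size and the derived subgroup is a `q`-group, then the derived
subgroup has order dividing `q`. -/

set_option autoImplicit false

namespace Cfsg.Agent.Lib.Helper42

open Subgroup
open scoped commutatorElement

theorem le_of_relIndex_dvd_prime {G : Type*} [Group G] {q : ℕ} (hq : q.Prime) {H K T : Subgroup G}
    (h : H.relIndex T ∣ q) (hHK : H ⊓ T ≤ K) {x : G} (hxT : x ∈ T) (hxK : x ∈ K) (hxH : x ∉ H) :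
    T ≤ K := by
  have h1 : (H ⊓ T).relIndex (K ⊓ T) * (K ⊓ T).relIndex T = (H ⊓ T).relIndex T :=
    relIndex_mul_relIndex _ _ _ (le_inf hHK inf_le_right) inf_le_right
  rw [inf_relIndex_right H T] at h1
  have h2 : (H ⊓ T).relIndex (K ⊓ T) ≠ 1 := by
    intro h3
    rw [relIndex_eq_one] at h3
    exact hxH (h3 ⟨hxK, hxT⟩).1
  have h3 : (K ⊓ T).relIndex T = 1 := by
    rw [← h1] at h
    rcases (Nat.dvd_prime hq).1 h with h4 | h4
    · exact Nat.eq_one_of_mul_eq_one_left h4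
    · rcases (Nat.dvd_prime hq).1 (Dvd.intro _ h4) with h5 | h5
      · exact absurd h5 h2
      · rw [h5] at h4
        exact Nat.eq_of_mul_eq_mul_left hq.pos (by rw [h4, mul_one])
  rw [relIndex_eq_one] at h3
  exact h3.trans inf_le_left

theorem le_of_card_dvd_prime {H : Type*} [Group H] [Finite H] {q : ℕ} (hq : q.Prime)
    (L L' : Subgroup H) (hL : Nat.card L ∣ q) (e : H) (he : e ∈ L) (he' : e ∈ L') (h1 : e ≠ 1) :
    L ≤ L' := by
  have h2 : zpowers e ≤ L := zpowers_le.2 he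
  have h3 : Nat.card (zpowers e) ≠ 1 := by
    intro h4
    rw [Subgroup.card_eq_one, zpowers_eq_bot] at h4
    exact h1 h4
  have h4 : Nat.card (zpowers e) ∣ Nat.card L := card_dvd_of_le h2
  have h5 : Nat.card (zpowers e) = q := by
    rcases (Nat.dvd_prime hq).1 (h4.trans hL) with h6 | h6
    · exact absurd h6 h3
    · exact h6
  have h6 : Nat.card L ≤ Nat.card (zpowers e) := by
    rw [h5]; exact Nat.le_of_dvd hq.pos hL
  have h7 : zpowers e = L := eq_of_le_of_card_ge h2 h6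
  rw [← h7]
  exact zpowers_le.2 he'

/-- A normal subgroup `T` whose commutators `[t, g]` are central in `T`, every element of `G`
centralizing a subgroup of index dividing `q` in `T`. -/
structure CCtx (q : ℕ) {G : Type*} [Group G] (T : Subgroup G) : Prop where
  normal : T.Normal
  idx : ∀ g : G, (centralizer ({g} : Set G)).relIndex T ∣ q
  cen : ∀ t ∈ T, ∀ g : G, ∀ s ∈ T, (t * g * t⁻¹ * g⁻¹) * s = s * (t * g * t⁻¹ * g⁻¹)

section CC

variable {q : ℕ} {G : Type*} [Group G] {T : Subgroup G}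

theorem CCtx.comm_mem (h : CCtx q T) {t : G} (ht : t ∈ T) (g : G) :
    t * g * t⁻¹ * g⁻¹ ∈ T := by
  have h1 : g * t⁻¹ * g⁻¹ ∈ T := h.normal.conj_mem _ (inv_mem ht) g
  have e : t * g * t⁻¹ * g⁻¹ = t * (g * t⁻¹ * g⁻¹) := by group
  rw [e]; exact mul_mem ht h1

/-- `t ↦ [t, g]` as an endomorphism of `T`. -/
noncomputable def CCtx.phi (h : CCtx q T) (g : G) : T →* T :=
  MonoidHom.mk' (fun t => ⟨t * g * t⁻¹ * g⁻¹, h.comm_mem t.2 g⟩) (by
    intro t s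
    apply Subtype.ext
    have h1 := h.cen s s.2 g t t.2
    have h2 := h.cen s s.2 g _ (h.comm_mem t.2 g)
    show ((t : G) * s) * g * ((t : G) * s)⁻¹ * g⁻¹
      = ((t : G) * g * (t : G)⁻¹ * g⁻¹) * ((s : G) * g * (s : G)⁻¹ * g⁻¹)
    calc ((t : G) * s) * g * ((t : G) * s)⁻¹ * g⁻¹
        = ((t : G) * ((s : G) * g * (s : G)⁻¹ * g⁻¹)) * (t : G)⁻¹ * ((t : G) * g * (t : G)⁻¹ * g⁻¹) := by
          group
      _ = (((s : G) * g * (s : G)⁻¹ * g⁻¹) * (t : G)) * (t : G)⁻¹ * ((t : G) * g * (t : G)⁻¹ * g⁻¹) := by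
          rw [h1]
      _ = ((s : G) * g * (s : G)⁻¹ * g⁻¹) * ((t : G) * g * (t : G)⁻¹ * g⁻¹) := by group
      _ = _ := h2)

theorem CCtx.phi_coe (h : CCtx q T) (g : G) (t : T) :
    ((h.phi g t : T) : G) = t * g * (t : G)⁻¹ * g⁻¹ := rfl

theorem CCtx.card_range_phi (h : CCtx q T) (g : G) : Nat.card (h.phi g).range ∣ q := by
  rw [← Subgroup.index_ker]
  have h1 : (h.phi g).ker = (centralizer ({g} : Set G)).subgroupOf T := by
    ext t
    rw [MonoidHom.mem_ker, mem_subgroupOf, mem_centralizer_singleton_iff, Subtype.ext_iff,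
      h.phi_coe]
    constructor
    · intro h2
      calc (t : G) * g = ((t : G) * g * (t : G)⁻¹ * g⁻¹) * (g * t) := by group
        _ = g * t := by rw [h2]; simp
    · intro h2
      rw [h2]; simp
  rw [h1]; exact h.idx g

/-- The subgroup `[T, g]`. -/
noncomputable def CCtx.L (h : CCtx q T) (g : G) : Subgroup G := (h.phi g).range.map T.subtype

theorem CCtx.mem_L (h : CCtx q T) (g : G) {t : G} (ht : t ∈ T) : t * g * t⁻¹ * g⁻¹ ∈ h.L g :=
  ⟨h.phi g ⟨t, ht⟩, ⟨⟨t, ht⟩, rfl⟩, rfl⟩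

theorem CCtx.exists_of_mem_L (h : CCtx q T) (g : G) {x : G} (hx : x ∈ h.L g) :
    ∃ t ∈ T, x = t * g * t⁻¹ * g⁻¹ := by
  obtain ⟨_, ⟨t, rfl⟩, rfl⟩ := hx
  exact ⟨t, t.2, rfl⟩

theorem CCtx.card_L (h : CCtx q T) (g : G) : Nat.card (h.L g) ∣ q := by
  rw [CCtx.L, card_map_of_injective T.subtype_injective]
  exact h.card_range_phi g

theorem CCtx.L_le (h : CCtx q T) (g : G) : h.L g ≤ T := map_subtype_le _

/-- If `[e, g] ≠ 1` lies in a subgroup `L'`, then `[T, g] ≤ L'`. -/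
theorem CCtx.L_le_of_mem [Finite G] (h : CCtx q T) (hq : q.Prime) (g : G) (L' : Subgroup G) {e : G}
    (he : e ∈ T) (heL : e * g * e⁻¹ * g⁻¹ ∈ L') (hne : e * g * e⁻¹ * g⁻¹ ≠ 1) : h.L g ≤ L' :=
  le_of_card_dvd_prime hq (h.L g) L' (h.card_L g) _ (h.mem_L g he) heL hne

end CC

/-- The context of the lemma: a normal `q`-subgroup `T` with an abelian complement `B` of order
prime to `q`, every element centralizing a subgroup of index dividing `q` in `T`. -/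
structure QCtx (q : ℕ) {G : Type*} [Group G] (T B : Subgroup G) : Prop where
  normal : T.Normal
  pgroup : IsPGroup q T
  idx : ∀ g : G, (centralizer ({g} : Set G)).relIndex T ∣ q
  comm : ∀ b ∈ B, ∀ c ∈ B, b * c = c * b
  ord : ∀ b ∈ B, (orderOf b).Coprime q
  prod : ∀ g : G, ∃ t ∈ T, ∃ b ∈ B, g = t * b

variable {q : ℕ} [hq : Fact q.Prime] {G : Type*} [Group G] [Finite G] {T B : Subgroup G}

omit hq [Finite G] in
theorem QCtx.comm_mem (h : QCtx q T B) {t : G} (ht : t ∈ T) (g : G) :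
    t * g * t⁻¹ * g⁻¹ ∈ T := by
  have h1 : g * t⁻¹ * g⁻¹ ∈ T := h.normal.conj_mem _ (inv_mem ht) g
  have e : t * g * t⁻¹ * g⁻¹ = t * (g * t⁻¹ * g⁻¹) := by group
  rw [e]; exact mul_mem ht h1

theorem QCtx.comm_central (h : QCtx q T B) {s t : G} (hs : s ∈ T) (ht : t ∈ T) (g : G) :
    (s * t * s⁻¹ * t⁻¹) * g = g * (s * t * s⁻¹ * t⁻¹) := by
  have h1 := comm_mem_of_index_dvd h.pgroup ((centralizer ({g} : Set G)).subgroupOf T) (h.idx g)
    ⟨s, hs⟩ ⟨t, ht⟩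
  rw [mem_subgroupOf, mem_centralizer_singleton_iff] at h1
  exact h1

theorem QCtx.eq_one_of_commute (h : QCtx q T B) {s b : G} (hs : s ∈ T) (hb : b ∈ B)
    (hc : (s * b * s⁻¹ * b⁻¹) * b = b * (s * b * s⁻¹ * b⁻¹)) : s * b * s⁻¹ * b⁻¹ = 1 := by
  obtain ⟨k, hk⟩ := h.pgroup ⟨_, h.comm_mem hs b⟩
  have hk' : (s * b * s⁻¹ * b⁻¹) ^ (q ^ k) = 1 := congrArg Subtype.val hk
  refine Cfsg.Agent.Lib.Helper55.eq_one_of_conj_eq_mul (p := q) (d := b) (q := s⁻¹) (k := k)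
    (h.ord b hb) ?_ hc.symm hk'
  rw [← hc]; group

theorem QCtx.comm_B_central (h : QCtx q T B) {s b : G} (hs : s ∈ T) (hb : b ∈ B) {t : G}
    (ht : t ∈ T) : (s * b * s⁻¹ * b⁻¹) * t = t * (s * b * s⁻¹ * b⁻¹) := by
  by_cases hwb : (s * b * s⁻¹ * b⁻¹) * b = b * (s * b * s⁻¹ * b⁻¹)
  · rw [h.eq_one_of_commute hs hb hwb]; simp
  · have h1 : T ≤ centralizer ({s * b * s⁻¹ * b⁻¹} : Set G) := by
      refine le_of_relIndex_dvd_prime hq.out (h.idx b) ?_ (h.comm_mem hs b)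
        (x := s * b * s⁻¹ * b⁻¹) ?_ ?_
      · intro a ha
        obtain ⟨hab, haT⟩ := mem_inf.1 ha
        rw [mem_centralizer_singleton_iff] at hab ⊢
        have hab' : a * b * a⁻¹ = b := by rw [hab]; group
        have hz := h.comm_central haT hs (s * b * s⁻¹)
        calc a * (s * b * s⁻¹ * b⁻¹)
            = (a * s * a⁻¹ * s⁻¹) * (s * (a * b * a⁻¹) * s⁻¹) * (a * s * a⁻¹ * s⁻¹)⁻¹ *
                (a * b * a⁻¹)⁻¹ * a := by group
          _ = (a * s * a⁻¹ * s⁻¹) * (s * b * s⁻¹) * (a * s * a⁻¹ * s⁻¹)⁻¹ * b⁻¹ * a := by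
              rw [hab']
          _ = (s * b * s⁻¹) * (a * s * a⁻¹ * s⁻¹) * (a * s * a⁻¹ * s⁻¹)⁻¹ * b⁻¹ * a := by rw [hz]
          _ = (s * b * s⁻¹ * b⁻¹) * a := by group
      · rw [mem_centralizer_singleton_iff]
      · rw [mem_centralizer_singleton_iff]; exact hwb
    have h2 := h1 ht
    rw [mem_centralizer_singleton_iff] at h2
    exact h2.symm

theorem QCtx.comm_mul_eq (h : QCtx q T B) {t x b : G} (ht : t ∈ T) (hx : x ∈ T) (hb : b ∈ B) :
    t * (x * b) * t⁻¹ * (x * b)⁻¹ = (t * x * t⁻¹ * x⁻¹) * (t * b * t⁻¹ * b⁻¹) := by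
  have h1 := h.comm_B_central ht hb hx
  calc t * (x * b) * t⁻¹ * (x * b)⁻¹ = (t * x * t⁻¹ * x⁻¹) * (x * (t * b * t⁻¹ * b⁻¹)) * x⁻¹ := by
        group
    _ = (t * x * t⁻¹ * x⁻¹) * ((t * b * t⁻¹ * b⁻¹) * x) * x⁻¹ := by rw [h1]
    _ = _ := by group

theorem QCtx.comm_central' (h : QCtx q T B) {t : G} (ht : t ∈ T) (g : G) {s : G} (hs : s ∈ T) :
    (t * g * t⁻¹ * g⁻¹) * s = s * (t * g * t⁻¹ * g⁻¹) := by
  obtain ⟨x, hx, b, hb, rfl⟩ := h.prod g
  rw [h.comm_mul_eq ht hx hb, mul_assoc, h.comm_B_central ht hb hs, ← mul_assoc,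
    h.comm_central ht hx s, mul_assoc]

theorem QCtx.toC (h : QCtx q T B) : CCtx q T :=
  ⟨h.normal, h.idx, fun _ ht g _ hs => h.comm_central' ht g hs⟩

theorem QCtx.spread (h : QCtx q T B) (L : Subgroup G) [hL : L.Normal] (e : G) (he : e ∈ T)
    (heL : ∀ g, e * g * e⁻¹ * g⁻¹ ∈ L) (g₁ : G) (hg₁ : e * g₁ * e⁻¹ * g₁⁻¹ ≠ 1) :
    ∀ t ∈ T, ∀ g, t * g * t⁻¹ * g⁻¹ ∈ L := by
  have step1 : ∀ g, e * g * e⁻¹ * g⁻¹ ≠ 1 → ∀ t ∈ T, t * g * t⁻¹ * g⁻¹ ∈ L := by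
    intro g hg t ht
    exact h.toC.L_le_of_mem hq.out g L he (heL g) hg (h.toC.mem_L g ht)
  intro t ht g
  by_cases hg : e * g * e⁻¹ * g⁻¹ = 1
  · have h1 : e * (g₁ * g) * e⁻¹ * (g₁ * g)⁻¹ ≠ 1 := by
      have e1 : e * (g₁ * g) * e⁻¹ * (g₁ * g)⁻¹
          = (e * g₁ * e⁻¹ * g₁⁻¹) * (g₁ * (e * g * e⁻¹ * g⁻¹) * g₁⁻¹) := by group
      rw [e1, hg]; simpa using hg₁
    have h2 := step1 _ h1 t ht
    have h3 := step1 _ hg₁ t ht
    have e2 : t * g * t⁻¹ * g⁻¹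
        = g₁⁻¹ * ((t * g₁ * t⁻¹ * g₁⁻¹)⁻¹ * (t * (g₁ * g) * t⁻¹ * (g₁ * g)⁻¹)) * g₁⁻¹⁻¹ := by group
    rw [e2]
    exact hL.conj_mem _ (mul_mem (inv_mem h3) h2) _
  · exact step1 g hg t ht

theorem QCtx.exists_L (h : QCtx q T B) :
    ∃ L : Subgroup G, L.Normal ∧ Nat.card L ∣ q ∧ ∀ t ∈ T, ∀ g, t * g * t⁻¹ * g⁻¹ ∈ L := by
  by_cases c1 : ∃ b ∈ B, ∃ s ∈ T, s * b * s⁻¹ * b⁻¹ ≠ 1
  · obtain ⟨b, hb, s, hs, hsb⟩ := c1
    have hn : (h.toC.L b).Normal := by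
      constructor
      intro x hx g
      obtain ⟨t, ht, rfl⟩ := h.toC.exists_of_mem_L b hx
      obtain ⟨y, hy, c, hc, rfl⟩ := h.prod g
      have hct : c * t * c⁻¹ ∈ T := h.normal.conj_mem _ ht c
      have h1 := h.comm_B_central hct hb hy
      have h2 : c * b * c⁻¹ = b := by rw [h.comm c hc b hb]; group
      have e1 : y * c * (t * b * t⁻¹ * b⁻¹) * (y * c)⁻¹
          = y * ((c * t * c⁻¹) * (c * b * c⁻¹) * (c * t * c⁻¹)⁻¹ * (c * b * c⁻¹)⁻¹) * y⁻¹ := by group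
      rw [e1, h2, ← h1]
      have e2 : (c * t * c⁻¹) * b * (c * t * c⁻¹)⁻¹ * b⁻¹ * y * y⁻¹
          = (c * t * c⁻¹) * b * (c * t * c⁻¹)⁻¹ * b⁻¹ := by group
      rw [e2]
      exact h.toC.mem_L b hct
    refine ⟨h.toC.L b, hn, h.toC.card_L b, ?_⟩
    have heL := h.toC.mem_L b hs
    refine h.spread (h.toC.L b) (s * b * s⁻¹ * b⁻¹) (h.comm_mem hs b) ?_ b ?_
    · intro g
      have e1 : (s * b * s⁻¹ * b⁻¹) * g * (s * b * s⁻¹ * b⁻¹)⁻¹ * g⁻¹
          = (s * b * s⁻¹ * b⁻¹) * (g * (s * b * s⁻¹ * b⁻¹)⁻¹ * g⁻¹) := by group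
      rw [e1]
      exact mul_mem heL (hn.conj_mem _ (inv_mem heL) g)
    · intro h1
      apply hsb
      apply h.eq_one_of_commute hs hb
      calc (s * b * s⁻¹ * b⁻¹) * b
          = ((s * b * s⁻¹ * b⁻¹) * b * (s * b * s⁻¹ * b⁻¹)⁻¹ * b⁻¹) * (b * (s * b * s⁻¹ * b⁻¹)) := by
            group
        _ = b * (s * b * s⁻¹ * b⁻¹) := by rw [h1, one_mul]
  · have c1' : ∀ b ∈ B, ∀ s ∈ T, s * b * s⁻¹ * b⁻¹ = 1 := by
      intro b hb s hs
      by_contra h1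
      exact c1 ⟨b, hb, s, hs, h1⟩
    have hred : ∀ t ∈ T, ∀ y ∈ T, ∀ c ∈ B,
        t * (y * c) * t⁻¹ * (y * c)⁻¹ = t * y * t⁻¹ * y⁻¹ := by
      intro t ht y hy c hc
      rw [h.comm_mul_eq ht hy hc, c1' c hc t ht, mul_one]
    by_cases c2 : ∃ x ∈ T, ∃ s ∈ T, s * x * s⁻¹ * x⁻¹ ≠ 1
    · obtain ⟨x, hx, s, hs, hsx⟩ := c2
      have hn : (h.toC.L x).Normal := by
        constructor
        intro z hz g
        obtain ⟨t, ht, rfl⟩ := h.toC.exists_of_mem_L x hz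
        rw [← h.comm_central ht hx g]
        have e2 : t * x * t⁻¹ * x⁻¹ * g * g⁻¹ = t * x * t⁻¹ * x⁻¹ := by group
        rw [e2]
        exact h.toC.mem_L x ht
      refine ⟨h.toC.L x, hn, h.toC.card_L x, ?_⟩
      refine h.spread (h.toC.L x) x hx ?_ s ?_
      · intro g
        obtain ⟨y, hy, c, hc, rfl⟩ := h.prod g
        rw [hred x hx y hy c hc]
        have e1 : x * y * x⁻¹ * y⁻¹ = (y * x * y⁻¹ * x⁻¹)⁻¹ := by group
        rw [e1]
        exact inv_mem (h.toC.mem_L x hy)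
      · intro h1
        apply hsx
        have e1 : s * x * s⁻¹ * x⁻¹ = (x * s * x⁻¹ * s⁻¹)⁻¹ := by group
        rw [e1, h1, inv_one]
    · refine ⟨⊥, inferInstance, by simp, ?_⟩
      intro t ht g
      obtain ⟨y, hy, c, hc, rfl⟩ := h.prod g
      rw [hred t ht y hy c hc, mem_bot]
      by_contra h1
      exact c2 ⟨y, hy, t, ht, h1⟩

theorem QCtx.commutator_le (h : QCtx q T B) (L : Subgroup G) [hL : L.Normal]
    (hTL : ∀ t ∈ T, ∀ g, t * g * t⁻¹ * g⁻¹ ∈ L) : commutator G ≤ L := by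
  rw [commutator_def, Subgroup.commutator_le]
  intro g _ k _
  obtain ⟨t, ht, b, hb, rfl⟩ := h.prod g
  obtain ⟨s, hs, c, hc, rfl⟩ := h.prod k
  have hcen : ∀ t ∈ T, ∀ x : G, Commute (t : G ⧸ L) (x : G ⧸ L) := by
    intro t ht x
    have h1 := hTL t ht x
    rw [← QuotientGroup.eq_one_iff] at h1
    have e : ((t * x * t⁻¹ * x⁻¹ : G) : G ⧸ L)
        = (t : G ⧸ L) * (x : G ⧸ L) * (t : G ⧸ L)⁻¹ * (x : G ⧸ L)⁻¹ := rfl
    rw [e] at h1
    show (t : G ⧸ L) * (x : G ⧸ L) = (x : G ⧸ L) * (t : G ⧸ L)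
    calc (t : G ⧸ L) * (x : G ⧸ L)
        = ((t : G ⧸ L) * (x : G ⧸ L) * (t : G ⧸ L)⁻¹ * (x : G ⧸ L)⁻¹) * ((x : G ⧸ L) * t) := by group
      _ = (x : G ⧸ L) * t := by rw [h1, one_mul]
  have hbc : Commute (b : G ⧸ L) (c : G ⧸ L) := by
    show (b : G ⧸ L) * (c : G ⧸ L) = (c : G ⧸ L) * (b : G ⧸ L)
    rw [← QuotientGroup.mk_mul, ← QuotientGroup.mk_mul, h.comm b hb c hc]
  have hcomm : Commute ((t * b : G) : G ⧸ L) ((s * c : G) : G ⧸ L) := by
    rw [QuotientGroup.mk_mul, QuotientGroup.mk_mul]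
    exact Commute.mul_left (Commute.mul_right (hcen t ht s) (hcen t ht c))
      (Commute.mul_right (hcen s hs b).symm hbc)
  rw [← QuotientGroup.eq_one_iff]
  have e : ((⁅t * b, s * c⁆ : G) : G ⧸ L) = ⁅((t * b : G) : G ⧸ L), ((s * c : G) : G ⧸ L)⁆ := rfl
  rw [e, commutatorElement_eq_one_iff_commute]
  exact hcomm

theorem relIndex_dvd_prime_of_normal {G : Type*} [Group G] [Finite G] {q : ℕ} [hq : Fact q.Prime]
    (h : ∀ w : G, ¬ q ^ 2 ∣ (centralizer ({w} : Set G)).index) (T : Subgroup G) [T.Normal]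
    (hT : IsPGroup q T) (g : G) : (centralizer ({g} : Set G)).relIndex T ∣ q := by
  obtain ⟨n, hn⟩ := IsPGroup.iff_card.1 hT
  exact dvd_prime_of_dvd_pow_of_not_sq hq.out (hn ▸ relIndex_dvd_card _ _)
    (relIndex_dvd_index_of_normal_right _ T) (h g)

/-- If `q ^ 2` divides no class size and `G'` is a `q`-group, then `|G'|` divides `q`. -/
theorem card_commutator_dvd_of_isPGroup {G : Type*} [Group G] [Finite G] {q : ℕ}
    [hq : Fact q.Prime] (h : ∀ w : G, ¬ q ^ 2 ∣ (centralizer ({w} : Set G)).index)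
    (hD : IsPGroup q (commutator G)) : Nat.card (commutator G) ∣ q := by
  obtain ⟨T, hDT⟩ := hD.exists_le_sylow
  have hcm : ∀ a b : G, a * b * a⁻¹ * b⁻¹ ∈ commutator G := fun a b =>
    Subgroup.commutator_mem_commutator (mem_top a) (mem_top b)
  have hTn : (T : Subgroup G).Normal := ⟨fun t ht g => by
    have e : g * t * g⁻¹ = (g * t * g⁻¹ * t⁻¹) * t := by group
    rw [e]
    exact mul_mem (hDT (hcm g t)) ht⟩
  have hcop : Nat.Coprime (Nat.card (T : Subgroup G)) (T : Subgroup G).index := by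
    obtain ⟨n, hn⟩ := IsPGroup.iff_card.1 T.2
    rw [hn]
    exact Nat.Coprime.pow_left n ((Nat.Prime.coprime_iff_not_dvd hq.out).2 T.not_dvd_index)
  obtain ⟨B, hB⟩ := exists_right_complement'_of_coprime hcop
  have ctx : QCtx q (T : Subgroup G) B :=
    { normal := hTn
      pgroup := T.2
      idx := relIndex_dvd_prime_of_normal h (T : Subgroup G) T.2
      comm := by
        intro b hb c hc
        have h1 : b * c * b⁻¹ * c⁻¹ ∈ (T : Subgroup G) ⊓ B :=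
          mem_inf.2 ⟨hDT (hcm b c), B.mul_mem (B.mul_mem (B.mul_mem hb hc) (B.inv_mem hb)) (B.inv_mem hc)⟩
        rw [hB.disjoint.eq_bot, mem_bot] at h1
        calc b * c = (b * c * b⁻¹ * c⁻¹) * (c * b) := by group
          _ = c * b := by rw [h1, one_mul]
      ord := by
        intro b hb
        have h1 : orderOf b ∣ Nat.card B := by
          have := orderOf_dvd_natCard (⟨b, hb⟩ : B)
          rwa [Subgroup.orderOf_mk] at this
        rw [← hB.symm.index_eq_card] at h1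
        exact Nat.Coprime.coprime_dvd_left h1
          ((Nat.Prime.coprime_iff_not_dvd hq.out).2 T.not_dvd_index).symm
      prod := by
        intro g
        obtain ⟨x, hx⟩ := (isComplement_iff_existsUnique.1 hB g).exists
        exact ⟨x.1, x.1.2, x.2, x.2.2, hx.symm⟩ }
  obtain ⟨L, hLn, hLc, hL⟩ := ctx.exists_L
  exact (card_dvd_of_le (ctx.commutator_le L hL)).trans hLc

end Cfsg.Agent.Lib.Helper42
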