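import Mathlib
import Cfsg.Agent.Lib.Helper42.SFLemQ

/-! If `q ^ 2` divides no class size, every nontrivial abelian normal `q`-subgroup contains a normal
subgroup of order `q`. -/

set_option autoImplicit false

namespace Cfsg.Agent.Lib.Helper42

open Subgroup

theorem eq_top_or_eq_top_of_forall_mem_or {G : Type*} [Group G] (H K : Subgroup G)
    (h : ∀ g, g ∈ H ∨ g ∈ K) : H = ⊤ ∨ K = ⊤ := by
  by_contra hc
  push Not at hc
  obtain ⟨hH, hK⟩ := hc
  obtain ⟨a, ha⟩ : ∃ a, a ∉ H := by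
    by_contra h1
    push Not at h1
    exact hH (eq_top_iff.2 (fun x _ => h1 x))
  obtain ⟨b, hb⟩ : ∃ b, b ∉ K := by
    by_contra h1
    push Not at h1
    exact hK (eq_top_iff.2 (fun x _ => h1 x))
  have haK : a ∈ K := (h a).resolve_left ha
  have hbH : b ∈ H := (h b).resolve_right hb
  rcases h (a * b) with h1 | h1
  · exact ha ((mul_mem_cancel_right hbH).1 h1)
  · exact hb ((mul_mem_cancel_left haK).1 h1)

theorem card_eq_prime_of_minimal {G : Type*} [Group G] [Finite G] {q : ℕ} [hq : Fact q.Prime]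
    (h : ∀ w : G, ¬ q ^ 2 ∣ (centralizer ({w} : Set G)).index)
    (M : Subgroup G) [hMn : M.Normal] (hMq : IsPGroup q M)
    (hMab : ∀ x ∈ M, ∀ y ∈ M, x * y = y * x) (hM1 : M ≠ ⊥)
    (hmin : ∀ N : Subgroup G, N.Normal → N ≤ M → N = ⊥ ∨ N = M) : Nat.card M = q := by
  have hcm : ∀ t ∈ M, ∀ g : G, t * g * t⁻¹ * g⁻¹ ∈ M := by
    intro t ht g
    have h1 : g * t⁻¹ * g⁻¹ ∈ M := hMn.conj_mem _ (inv_mem ht) g
    have e : t * g * t⁻¹ * g⁻¹ = t * (g * t⁻¹ * g⁻¹) := by group
    rw [e]; exact mul_mem ht h1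
  have C : CCtx q M :=
    ⟨hMn, relIndex_dvd_prime_of_normal h M hMq, fun t ht g s hs => hMab _ (hcm t ht g) s hs⟩
  have hcard1 : Nat.card M ≠ 1 := fun h1 => hM1 (Subgroup.card_eq_one.1 h1)
  by_cases hc : ∃ b : G, ∃ m ∈ M, m * b * m⁻¹ * b⁻¹ ≠ 1
  · obtain ⟨b, m₀, hm₀, hne⟩ := hc
    have hLb1 : C.L b ≠ ⊥ := by
      intro h1
      have h2 := C.mem_L b hm₀
      rw [h1, mem_bot] at h2
      exact hne h2
    have hLcard : Nat.card (C.L b) = q := by
      rcases (Nat.dvd_prime hq.out).1 (C.card_L b) with h1 | h1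
      · exact absurd (Subgroup.card_eq_one.1 h1) hLb1
      · exact h1
    have claim : ∀ g, g ∈ normalizer ((C.L b : Subgroup G) : Set G) ∨
        g ∈ normalizer ((M ⊓ centralizer ({b} : Set G) : Subgroup G) : Set G) := by
      intro g
      by_cases hA : g ∈ normalizer ((M ⊓ centralizer ({b} : Set G) : Subgroup G) : Set G)
      · exact Or.inr hA
      · left
        have hA' : g⁻¹ ∉ normalizer ((M ⊓ centralizer ({b} : Set G) : Subgroup G) : Set G) :=
          fun h1 => hA (inv_mem_iff.1 h1)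
        obtain ⟨a, haA, hga⟩ : ∃ a ∈ M ⊓ centralizer ({b} : Set G),
            g * a * g⁻¹ ∉ M ⊓ centralizer ({b} : Set G) := by
          by_contra h1
          push Not at h1
          exact hA (Cfsg.Agent.Lib.Helper11.mem_normalizer_of_conj_mem _ g h1)
        obtain ⟨a', haA', hga'⟩ : ∃ a ∈ M ⊓ centralizer ({b} : Set G),
            g⁻¹ * a * g⁻¹⁻¹ ∉ M ⊓ centralizer ({b} : Set G) := by
          by_contra h1
          push Not at h1
          exact hA' (Cfsg.Agent.Lib.Helper11.mem_normalizer_of_conj_mem _ g⁻¹ h1)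
        obtain ⟨haM, hab⟩ := mem_inf.1 haA
        obtain ⟨haM', hab'⟩ := mem_inf.1 haA'
        rw [mem_centralizer_singleton_iff] at hab hab'
        -- the element `e = g a g⁻¹`
        have heM : g * a * g⁻¹ ∈ M := hMn.conj_mem _ haM g
        have hek : (g * a * g⁻¹) * (g * b * g⁻¹) * (g * a * g⁻¹)⁻¹ * (g * b * g⁻¹)⁻¹ = 1 := by
          have e1 : (g * a * g⁻¹) * (g * b * g⁻¹) * (g * a * g⁻¹)⁻¹ * (g * b * g⁻¹)⁻¹
              = g * ((a * b) * a⁻¹ * b⁻¹) * g⁻¹ := by group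
          rw [e1, hab]; group
        have heb : (g * a * g⁻¹) * b * (g * a * g⁻¹)⁻¹ * b⁻¹ ≠ 1 := by
          intro h1
          apply hga
          refine mem_inf.2 ⟨heM, ?_⟩
          rw [mem_centralizer_singleton_iff]
          calc (g * a * g⁻¹) * b = ((g * a * g⁻¹) * b * (g * a * g⁻¹)⁻¹ * b⁻¹) * (b * (g * a * g⁻¹)) := by
                group
            _ = b * (g * a * g⁻¹) := by rw [h1, one_mul]
        have hsplit : ∀ e : G, e * (b * (g * b * g⁻¹)) * e⁻¹ * (b * (g * b * g⁻¹))⁻¹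
            = (e * b * e⁻¹ * b⁻¹) * (b * (e * (g * b * g⁻¹) * e⁻¹ * (g * b * g⁻¹)⁻¹) * b⁻¹) := by
          intro e; group
        have h1 : C.L (b * (g * b * g⁻¹)) ≤ C.L b := by
          have e1 := hsplit (g * a * g⁻¹)
          rw [hek, mul_one, mul_inv_cancel, mul_one] at e1
          refine C.L_le_of_mem hq.out _ _ heM ?_ ?_
          · rw [e1]; exact C.mem_L b heM
          · rw [e1]; exact heb
        -- the element `a'`
        have hak : a' * (g * b * g⁻¹) * a'⁻¹ * (g * b * g⁻¹)⁻¹ ≠ 1 := by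
          intro h2
          apply hga'
          refine mem_inf.2 ⟨hMn.conj_mem _ haM' g⁻¹, ?_⟩
          rw [mem_centralizer_singleton_iff]
          calc g⁻¹ * a' * g⁻¹⁻¹ * b
              = g⁻¹ * ((a' * (g * b * g⁻¹) * a'⁻¹ * (g * b * g⁻¹)⁻¹) * ((g * b * g⁻¹) * a')) * g := by
                group
            _ = g⁻¹ * ((g * b * g⁻¹) * a') * g := by rw [h2, one_mul]
            _ = b * (g⁻¹ * a' * g⁻¹⁻¹) := by group
        have hinv : ∀ x ∈ C.L b, b⁻¹ * x * b ∈ C.L b := by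
          intro x hx
          obtain ⟨m, hm, rfl⟩ := C.exists_of_mem_L b hx
          have e1 : b⁻¹ * (m * b * m⁻¹ * b⁻¹) * b
              = (b⁻¹ * m * b⁻¹⁻¹) * b * (b⁻¹ * m * b⁻¹⁻¹)⁻¹ * b⁻¹ := by group
          rw [e1]
          exact C.mem_L b (hMn.conj_mem _ hm b⁻¹)
        have h2 : a' * (g * b * g⁻¹) * a'⁻¹ * (g * b * g⁻¹)⁻¹ ∈ C.L b := by
          have e1 := hsplit a'
          have e2 : a' * b * a'⁻¹ * b⁻¹ = 1 := by rw [hab']; group
          rw [e2, one_mul] at e1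
          have h3 := hinv _ (h1 (C.mem_L (b * (g * b * g⁻¹)) haM'))
          rw [e1] at h3
          have e3 : b⁻¹ * (b * (a' * (g * b * g⁻¹) * a'⁻¹ * (g * b * g⁻¹)⁻¹) * b⁻¹) * b
              = a' * (g * b * g⁻¹) * a'⁻¹ * (g * b * g⁻¹)⁻¹ := by group
          rwa [e3] at h3
        have h3 : C.L (g * b * g⁻¹) ≤ C.L b := C.L_le_of_mem hq.out _ _ haM' h2 hak
        apply Cfsg.Agent.Lib.Helper11.mem_normalizer_of_conj_mem
        intro x hx
        obtain ⟨m, hm, rfl⟩ := C.exists_of_mem_L b hx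
        have e1 : g * (m * b * m⁻¹ * b⁻¹) * g⁻¹
            = (g * m * g⁻¹) * (g * b * g⁻¹) * (g * m * g⁻¹)⁻¹ * (g * b * g⁻¹)⁻¹ := by group
        rw [e1]
        exact h3 (C.mem_L _ (hMn.conj_mem _ hm g))
    rcases eq_top_or_eq_top_of_forall_mem_or _ _ claim with h1 | h1
    · have hn : (C.L b).Normal := normalizer_eq_top_iff.1 h1
      rcases hmin _ hn (C.L_le b) with h2 | h2
      · exact absurd h2 hLb1
      · rw [← h2]; exact hLcard
    · have hn : (M ⊓ centralizer ({b} : Set G)).Normal := normalizer_eq_top_iff.1 h1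
      rcases hmin _ hn inf_le_left with h2 | h2
      · have h3 := Cfsg.Agent.Lib.Helper12.relIndex_mul_card_inf M (centralizer ({b} : Set G))
        rw [h2, Subgroup.card_bot, mul_one] at h3
        rcases (Nat.dvd_prime hq.out).1 (h3 ▸ C.idx b) with h4 | h4
        · exact absurd h4 hcard1
        · exact h4
      · exfalso
        apply hne
        have h3 : m₀ ∈ M ⊓ centralizer ({b} : Set G) := by rw [h2]; exact hm₀
        have h4 := (mem_inf.1 h3).2
        rw [mem_centralizer_singleton_iff] at h4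
        rw [h4]; group
  · have hc' : ∀ b : G, ∀ m ∈ M, m * b * m⁻¹ * b⁻¹ = 1 := by
      intro b m hm
      by_contra h1
      exact hc ⟨b, m, hm, h1⟩
    obtain ⟨k, hk⟩ := IsPGroup.iff_card.1 hMq
    have hk0 : k ≠ 0 := by
      rintro rfl
      exact hcard1 (by rw [hk, pow_zero])
    have hdvd : q ∣ Nat.card M := by rw [hk]; exact dvd_pow_self q hk0
    obtain ⟨e, he⟩ := exists_prime_orderOf_dvd_card' q hdvd
    have heo : orderOf (e : G) = q := by rw [Subgroup.orderOf_coe]; exact he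
    have hn : (zpowers (e : G)).Normal := by
      constructor
      intro x hx g
      have hxM : x ∈ M := (zpowers_le.2 e.2) hx
      have h1 := hc' g⁻¹ x hxM
      have e1 : g * x * g⁻¹ = g * (x * g⁻¹ * x⁻¹ * g⁻¹⁻¹) * g⁻¹ * x := by group
      rw [e1, h1]
      simpa using hx
    rcases hmin _ hn (zpowers_le.2 e.2) with h2 | h2
    · exfalso
      rw [zpowers_eq_bot] at h2
      rw [h2, orderOf_one] at heo
      exact hq.out.one_lt.ne heo
    · rw [← h2, Nat.card_zpowers, heo]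

theorem exists_normal_card_prime {G : Type*} [Group G] [Finite G] {q : ℕ} [hq : Fact q.Prime]
    (h : ∀ w : G, ¬ q ^ 2 ∣ (centralizer ({w} : Set G)).index) :
    ∀ (n : ℕ) (M : Subgroup G), Nat.card M = n → M.Normal → IsPGroup q M →
      (∀ x ∈ M, ∀ y ∈ M, x * y = y * x) → M ≠ ⊥ →
      ∃ N : Subgroup G, N.Normal ∧ N ≤ M ∧ Nat.card N = q := by
  intro n
  induction n using Nat.strong_induction_on with
  | _ n ih =>
  intro M hn hMn hMq hMab hM1
  by_cases hmin : ∀ N : Subgroup G, N.Normal → N ≤ M → N = ⊥ ∨ N = M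
  · exact ⟨M, hMn, le_rfl, card_eq_prime_of_minimal h M hMq hMab hM1 hmin⟩
  · push Not at hmin
    obtain ⟨N, hNn, hNM, hN1, hN2⟩ := hmin
    have hlt : Nat.card N < n := by
      rw [← hn]
      exact Cfsg.Agent.Lib.Helper77.card_lt_card_of_lt (lt_of_le_of_ne hNM hN2)
    obtain ⟨N', h1, h2, h3⟩ := ih _ hlt N rfl hNn (hMq.to_le hNM)
      (fun x hx y hy => hMab x (hNM hx) y (hNM hy)) hN1
    exact ⟨N', h1, h2.trans hNM, h3⟩

end Cfsg.Agent.Lib.Helper42
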