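import Mathlib
import Cfsg.Agent.Lib.Helper42.SFCount

/-! If `p ^ 2` divides no class size and `|G|` is prime to `p - 1`, then `G` has a normal
`p`-complement. -/

set_option autoImplicit false

namespace Cfsg.Agent.Lib.Helper42

open Subgroup Cfsg.Agent.Lib.Helper77

universe u

theorem isPE_of_mem {G : Type*} [Group G] {p : ℕ} [hp : Fact p.Prime] {Q : Subgroup G}
    (hQ : IsPGroup p Q) {v : G} (hv : v ∈ Q) (h1 : v ≠ 1) : IsPE p v := by
  refine ⟨?_, h1⟩
  obtain ⟨k, hk⟩ := hQ ⟨v, hv⟩
  have hk' : v ^ (p ^ k) = 1 := congrArg Subtype.val hk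
  obtain ⟨j, _, hj⟩ := (Nat.dvd_prime_pow hp.out).1 (orderOf_dvd_of_pow_eq_one hk')
  exact ⟨j, hj⟩

theorem card_quotient_lt' {G : Type*} [Group G] [Finite G] (N : Subgroup G) (hN : N ≠ ⊥) :
    Nat.card (G ⧸ N) < Nat.card G := by
  have h1 := N.card_mul_index
  rw [Subgroup.index_eq_card] at h1
  have h2 : 1 < Nat.card N := by
    have h3 : Nat.card N ≠ 1 := fun h => hN (Subgroup.card_eq_one.mp h)
    have h4 : 0 < Nat.card N := Nat.card_pos
    omega
  have h5 : 0 < Nat.card (G ⧸ N) := Nat.card_pos
  nlinarith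

theorem npc_of_p2free (p : ℕ) [hp : Fact p.Prime] : ∀ (N : ℕ) (G : Type u) [Group G] [Finite G],
    Nat.card G = N → (Nat.card G).Coprime (p - 1) →
    (∀ w : G, ¬ p ^ 2 ∣ (centralizer ({w} : Set G)).index) → NPC p G := by
  intro N
  induction N using Nat.strong_induction_on with
  | _ N ih =>
  intro G _ _ hN hcop h
  by_cases hz : ∃ z ∈ center G, z ^ p = 1 ∧ z ≠ 1
  · obtain ⟨z, hzc, hzp, hz1⟩ := hz
    have hZ : zpowers z ≤ center G := zpowers_le.2 hzc
    have : (zpowers z).Normal := ⟨fun n hn g => by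
      have h1 := (mem_center_iff.1 (hZ hn)) g
      rw [h1]; simpa using hn⟩
    apply npc_of_central_quotient (zpowers z) hZ
    · rintro _ ⟨i, rfl⟩
      show (z ^ i) ^ p = 1
      rw [← zpow_natCast, ← zpow_mul, mul_comm, zpow_mul, zpow_natCast, hzp, one_zpow]
    · have hne : zpowers z ≠ ⊥ := by
        intro hb
        exact hz1 (zpowers_eq_bot.1 hb)
      apply ih (Nat.card (G ⧸ zpowers z)) (hN ▸ card_quotient_lt' _ hne) _ rfl
      · exact Nat.Coprime.coprime_dvd_left (card_quotient_dvd_card _) hcop
      · intro w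
        obtain ⟨w, rfl⟩ := QuotientGroup.mk_surjective w
        intro hd
        exact h w (hd.trans (index_centralizer_map_dvd' (QuotientGroup.mk' _)
          (QuotientGroup.mk'_surjective _) w))
  · have hz' : ∀ z ∈ center G, z ^ p = 1 → z = 1 := fun z h1 h2 =>
      by_contra (fun h3 => hz ⟨z, h1, h2, h3⟩)
    obtain ⟨P⟩ : Nonempty (Sylow p G) := inferInstance
    have hab : ∀ Q : Subgroup G, IsPGroup p Q → ∀ x ∈ Q, ∀ y ∈ Q, x * y = y * x := by
      intro Q hQ x hx y hy
      obtain ⟨R, hR⟩ := hQ.exists_le_sylow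
      exact sylow_comm_of_center h hz' R x y (hR hx) (hR hy)
    have hnpc : ∀ u : G, IsPE p u → NPC p (centralizer ({u} : Set G)) := by
      intro u hu
      apply ih (Nat.card (centralizer ({u} : Set G))) ?_ _ rfl
      · exact Nat.Coprime.coprime_dvd_left (card_subgroup_dvd_card _) hcop
      · exact p2free_centralizer h hab u hu.1
      · rw [← hN, ← Subgroup.card_top (G := G)]
        apply card_lt_card_of_lt
        rw [lt_top_iff_ne_top]
        intro htop
        have huc := Cfsg.Agent.Lib.Helper64.centralizer_singleton_eq_top_iff.1 htop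
        obtain ⟨k, hk⟩ := hu.1
        exact hu.2 (eq_one_of_pow_prime_pow (center G) hz' k u huc (by rw [← hk, pow_orderOf_eq_one]))
    have hPab : ∀ x ∈ P, ∀ y ∈ P, x * y = y * x := hab P P.2
    have key : ∀ n ∈ normalizer ((P : Subgroup G) : Set G), (orderOf n).Coprime p →
        n ∈ centralizer ((P : Subgroup G) : Set G) := by
      intro n hn hno
      by_contra hnc
      obtain ⟨k, hk⟩ := IsPGroup.iff_card.1 P.2
      have hmove : ∀ v ∈ P, v ≠ 1 → n * v ≠ v * n := by
        intro v hv hv1 hnv
        exact hnc (mem_centralizer_of_fix P hPab v hv (hnpc v (isPE_of_mem P.2 hv hv1)) n hn hno hnv)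
      have hk2 : 2 ≤ k := by
        by_contra hk2
        have hk01 : k = 0 ∨ k = 1 := by omega
        rcases hk01 with rfl | rfl
        · rw [pow_zero, Subgroup.card_eq_one] at hk
          apply hnc
          rw [mem_centralizer_iff]
          intro a ha
          have ha' : a ∈ (P : Subgroup G) := ha
          rw [hk, mem_bot] at ha'
          rw [ha']; simp
        · rw [pow_one] at hk
          exact hnc (normalizer_le_centralizer_of_card_prime hcop (P : Subgroup G) hk hn)
      have hex : ∀ y : G, ∃ u : G, IsPE p u ∧ Commute u y := by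
        intro y
        obtain ⟨P₁, hP₁⟩ := exists_sylow_relIndex_dvd_prime (h y)
        have hc1 : Nat.card (P₁ : Subgroup G) = p ^ k := by
          rw [← hk, P₁.card_eq_multiplicity, P.card_eq_multiplicity]
        have hne : ((P₁ : Subgroup G) ⊓ centralizer ({y} : Set G)) ≠ ⊥ := by
          intro hb
          have h1 := Cfsg.Agent.Lib.Helper12.relIndex_mul_card_inf (P₁ : Subgroup G)
            (centralizer ({y} : Set G))
          rw [hb, Subgroup.card_bot, mul_one, hc1] at h1
          rw [h1] at hP₁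
          have h2 : p ^ 2 ∣ p := (pow_dvd_pow p hk2).trans hP₁
          have h3 := Nat.le_of_dvd hp.out.pos h2
          have h4 := hp.out.one_lt
          nlinarith
        obtain ⟨⟨u, hu⟩, hu1'⟩ := Subgroup.ne_bot_iff_exists_ne_one.1 hne
        have hu1 : u ≠ 1 := fun h => hu1' (Subtype.ext h)
        rw [mem_inf, mem_centralizer_singleton_iff] at hu
        exact ⟨u, isPE_of_mem P₁.2 hu.1 hu1, hu.2⟩
      exact no_moving_element P hPab hnpc hex n hn hmove
    have hNC : normalizer ((P : Subgroup G) : Set G) ≤ centralizer ((P : Subgroup G) : Set G) := by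
      intro n hn
      obtain ⟨a, b, ha, hb, hab', ⟨j, hj⟩, hbq⟩ := Cfsg.Agent.Lib.Helper64.exists_prime_decomp p n
      have hzn : zpowers n ≤ normalizer ((P : Subgroup G) : Set G) := zpowers_le.2 hn
      have hpa : IsPGroup p (zpowers a) := IsPGroup.of_card (by rw [Nat.card_zpowers, hj])
      have haP : a ∈ (P : Subgroup G) := by
        have h1 := hpa.inf_normalizer_sylow P
        have h2 : a ∈ zpowers a ⊓ normalizer (P : Set G) :=
          ⟨mem_zpowers a, hzn ha⟩
        rw [h1] at h2
        exact h2.2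
      have haC : a ∈ centralizer ((P : Subgroup G) : Set G) := by
        rw [mem_centralizer_iff]
        intro x hx
        exact hPab x hx a haP
      rw [← hab']
      exact mul_mem haC (key b (hzn hb) hbq)
    have hcompl := MonoidHom.ker_transferSylow_isComplement' P hNC
    obtain ⟨h1, h2⟩ := npc_of_isComplement' P hcompl
    exact ⟨_, inferInstance, h1, h2⟩

end Cfsg.Agent.Lib.Helper42
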