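import Mathlib
import Cfsg.Agent.Lib.Helper42.SFNpc
import Cfsg.Agent.Lib.Helper42.SFIrr
import Cfsg.Agent.Lib.Helper1.Hall
import Cfsg.Agent.Lib.Helper42.Supersolvable2

/-! Groups with squarefree class sizes: solvable, and the derived subgroup is cyclic of squarefree
order. -/

set_option autoImplicit false

namespace Cfsg.Agent.Lib.Helper42

open Subgroup Cfsg.Agent.Lib.Helper77

universe u

theorem coprime_minFac_sub_one (n : ℕ) (hn : n ≠ 1) : n.Coprime (n.minFac - 1) := by
  apply Nat.coprime_of_dvd
  intro k hk h1 h2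
  have hp := Nat.minFac_prime hn
  have h3 : k ≤ n.minFac - 1 := Nat.le_of_dvd (by have := hp.two_le; omega) h2
  have h4 : n.minFac ≤ k := Nat.minFac_le_of_dvd hk.two_le h1
  have := hp.two_le
  omega

theorem not_sq_dvd_of_squarefree {p n : ℕ} (hp : p.Prime) (h : Squarefree n) : ¬ p ^ 2 ∣ n := by
  intro hd
  rw [sq] at hd
  exact hp.one_lt.ne' (Nat.isUnit_iff.1 (h p hd))

theorem isSolvable_of_sf : ∀ (n : ℕ) (G : Type u) [Group G] [Finite G], Nat.card G = n →
    (∀ x : G, Squarefree (centralizer ({x} : Set G)).index) → Group.IsSolvable G := by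
  intro n
  induction n using Nat.strong_induction_on with
  | _ n ih =>
  intro G _ _ hn h
  by_cases h1 : Nat.card G = 1
  · have := (Nat.card_eq_one_iff_unique.1 h1).1
    infer_instance
  · have hp : Fact (Nat.card G).minFac.Prime := ⟨Nat.minFac_prime h1⟩
    obtain ⟨K, hKn, hKc, k, hk⟩ := npc_of_p2free (Nat.card G).minFac _ G rfl
      (coprime_minFac_sub_one _ h1) (fun w => not_sq_dvd_of_squarefree hp.out (h w))
    have hlt : Nat.card K < n := by
      rw [← hn]
      have h2 : Nat.card K ≤ Nat.card G := Nat.le_of_dvd Nat.card_pos (card_subgroup_dvd_card K)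
      have h3 : Nat.card K ≠ Nat.card G := by
        intro h4
        rw [h4] at hKc
        have h5 := Nat.Coprime.eq_one_of_dvd hKc.symm (Nat.minFac_dvd _)
        exact hp.out.one_lt.ne' h5
      omega
    have hKs : Group.IsSolvable K := ih _ hlt K rfl
      (fun x => (h (x : G)).squarefree_of_dvd (index_centralizer_subtype_dvd K x))
    have hQ : IsPGroup (Nat.card G).minFac (G ⧸ K) := IsPGroup.of_card (n := k) hk
    have hQn : Group.IsNilpotent (G ⧸ K) := hQ.isNilpotent
    have hQs : Group.IsSolvable (G ⧸ K) := inferInstance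
    exact Group.isSolvable_of_ker_le_range K.subtype (QuotientGroup.mk' K) (by simp)

/-- The elements of an abelian subgroup killed by `m`. -/
def torsionIn {G : Type*} [Group G] (D : Subgroup G) (hab : ∀ x ∈ D, ∀ y ∈ D, x * y = y * x)
    (m : ℕ) : Subgroup G where
  carrier := {x | x ∈ D ∧ x ^ m = 1}
  one_mem' := ⟨one_mem _, one_pow _⟩
  mul_mem' := fun {a b} ha hb => ⟨mul_mem ha.1 hb.1, by
    rw [(show Commute a b from hab _ ha.1 _ hb.1).mul_pow, ha.2, hb.2, one_mul]⟩
  inv_mem' := fun {a} ha => ⟨inv_mem ha.1, by rw [inv_pow, ha.2, inv_one]⟩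

theorem map_commutator_mk {G : Type*} [Group G] (K : Subgroup G) [K.Normal] :
    (commutator G).map (QuotientGroup.mk' K) = commutator (G ⧸ K) := by
  rw [commutator_def, commutator_def, Subgroup.map_commutator,
    Subgroup.map_top_of_surjective _ (QuotientGroup.mk'_surjective K)]

theorem not_sq_dvd_card_commutator {G : Type*} [Group G] [Finite G] {q : ℕ} [hq : Fact q.Prime]
    (h : ∀ w : G, ¬ q ^ 2 ∣ (centralizer ({w} : Set G)).index)
    (hab : ∀ x ∈ commutator G, ∀ y ∈ commutator G, x * y = y * x) :
    ¬ q ^ 2 ∣ Nat.card (commutator G) := by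
  obtain ⟨a, m, hm, hcard⟩ := Nat.exists_eq_pow_mul_and_not_dvd
    (Nat.card_pos (α := commutator G)).ne' q hq.out.ne_one
  have hKn : (torsionIn (commutator G) hab m).Normal := by
    constructor
    intro x hx g
    exact ⟨(inferInstance : (commutator G).Normal).conj_mem _ hx.1 g, by
      rw [conj_pow, hx.2]; group⟩
  have hKD : torsionIn (commutator G) hab m ≤ commutator G := fun x hx => hx.1
  have hKq : ¬ q ∣ Nat.card (torsionIn (commutator G) hab m) := by
    intro hd
    obtain ⟨x, hx⟩ := exists_prime_orderOf_dvd_card' q hd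
    have h1 : (x : G) ^ m = 1 := x.2.2
    have h2 : orderOf (x : G) = q := by rw [Subgroup.orderOf_coe]; exact hx
    exact hm (h2 ▸ orderOf_dvd_of_pow_eq_one h1)
  have hP : IsPGroup q (commutator (G ⧸ torsionIn (commutator G) hab m)) := by
    rintro ⟨y, hy⟩
    rw [← map_commutator_mk] at hy
    obtain ⟨x, hx, rfl⟩ := hy
    refine ⟨a, Subtype.ext ?_⟩
    show (QuotientGroup.mk' _ x) ^ (q ^ a) = 1
    rw [← map_pow, QuotientGroup.mk'_apply, QuotientGroup.eq_one_iff]
    refine ⟨pow_mem hx _, ?_⟩
    rw [← pow_mul, ← hcard]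
    have h1 : (⟨x, hx⟩ : commutator G) ^ Nat.card (commutator G) = 1 := pow_card_eq_one'
    exact congrArg Subtype.val h1
  have hQ := card_commutator_dvd_of_isPGroup (G := G ⧸ torsionIn (commutator G) hab m) (q := q)
    (by
      intro w
      obtain ⟨w, rfl⟩ := QuotientGroup.mk_surjective w
      intro hd
      exact h w (hd.trans (index_centralizer_map_dvd' (QuotientGroup.mk' _)
        (QuotientGroup.mk'_surjective _) w))) hP
  have h1 := Cfsg.Agent.Lib.Helper1.card_map_mk_of_le (torsionIn (commutator G) hab m) hKD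
  rw [map_commutator_mk] at h1
  intro hd
  rw [← h1] at hd
  have h2 : (q ^ 2).Coprime (Nat.card (torsionIn (commutator G) hab m)) :=
    Nat.Coprime.pow_left 2 ((Nat.Prime.coprime_iff_not_dvd hq.out).2 hKq)
  have h3 : q ^ 2 ∣ q := (h2.dvd_of_dvd_mul_right hd).trans hQ
  have h4 := Nat.le_of_dvd hq.out.pos h3
  have h5 := hq.out.one_lt
  nlinarith

theorem isCyclic_of_comm_of_squarefree {A : Type*} [Group A] [Finite A]
    (hab : ∀ x y : A, x * y = y * x) (hsq : Squarefree (Nat.card A)) : IsCyclic A := by
  have hZ : IsZGroup A := IsZGroup.of_squarefree hsq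
  have hN : Group.IsNilpotent A := by
    letI : CommGroup A := { (inferInstance : Group A) with mul_comm := hab }
    exact CommGroup.isNilpotent
  infer_instance

theorem commutator_cyclic_of_sf : ∀ (n : ℕ) (G : Type u) [Group G] [Finite G], Nat.card G = n →
    (∀ x : G, Squarefree (centralizer ({x} : Set G)).index) →
    IsCyclic (commutator G) ∧ Squarefree (Nat.card (commutator G)) := by
  intro n
  induction n using Nat.strong_induction_on with
  | _ n ih =>
  intro G _ _ hn h
  have hsolv : Group.IsSolvable G := isSolvable_of_sf _ G rfl h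
  have hp2 : ∀ q : ℕ, q.Prime → ∀ w : G, ¬ q ^ 2 ∣ (centralizer ({w} : Set G)).index :=
    fun q hq w => not_sq_dvd_of_squarefree hq (h w)
  by_cases hD : commutator G = ⊥
  · rw [hD]
    exact ⟨inferInstance, by simp⟩
  · obtain ⟨M, hMD, hMn, hM1, hMc, q, hq, hMq⟩ :=
      Cfsg.Agent.Lib.Helper1.exists_normal_abelian_pgroup_le (commutator G) hD inferInstance
    have hqf : Fact q.Prime := ⟨hq⟩
    obtain ⟨N, hNn, hNM, hNq⟩ := exists_normal_card_prime (hp2 q hq) _ M rfl hMn hMq
      (fun x hx y hy => congrArg Subtype.val (hMc.is_comm.comm ⟨x, hx⟩ ⟨y, hy⟩)) hM1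
    have hND : N ≤ commutator G := hNM.trans hMD
    have hN1 : N ≠ ⊥ := by
      intro hb
      rw [hb, Subgroup.card_bot] at hNq
      exact hq.one_lt.ne hNq
    have hIH := ih (Nat.card (G ⧸ N)) (hn ▸ card_quotient_lt' N hN1) (G ⧸ N) rfl (by
      intro w
      obtain ⟨w, rfl⟩ := QuotientGroup.mk_surjective w
      exact (h w).squarefree_of_dvd (index_centralizer_map_dvd' (QuotientGroup.mk' _)
        (QuotientGroup.mk'_surjective _) w))
    have hNc : IsCyclic N := isCyclic_of_prime_card hNq
    have hcen := commutator_le_centralizer_of_cyclic_normal N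
    have hab' : ∀ x y : commutator G, x * y = y * x := by
      have hcyc : IsCyclic ((commutator G).map (QuotientGroup.mk' N)) := by
        rw [map_commutator_mk]; exact hIH.1
      apply commutative_of_cyclic_center_quotient
        ((QuotientGroup.mk' N).subgroupMap (commutator G))
      intro x hx
      rw [MonoidHom.mem_ker] at hx
      have hx1 : QuotientGroup.mk' N (x : G) = 1 := congrArg Subtype.val hx
      rw [QuotientGroup.mk'_apply, QuotientGroup.eq_one_iff] at hx1
      rw [mem_center_iff]
      intro y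
      have h1 := hcen y.2
      rw [mem_centralizer_iff] at h1
      exact Subtype.ext (h1 x hx1).symm
    have hab : ∀ x ∈ commutator G, ∀ y ∈ commutator G, x * y = y * x :=
      fun x hx y hy => congrArg Subtype.val (hab' ⟨x, hx⟩ ⟨y, hy⟩)
    have hsq : Squarefree (Nat.card (commutator G)) := by
      rw [Nat.squarefree_iff_prime_squarefree]
      intro r hr hd
      have hrf : Fact r.Prime := ⟨hr⟩
      exact not_sq_dvd_card_commutator (hp2 r hr) hab (by rw [sq]; exact hd)
    exact ⟨isCyclic_of_comm_of_squarefree hab' hsq, hsq⟩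

end Cfsg.Agent.Lib.Helper42
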