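import Mathlib
import Cfsg.Agent.Lib.Helper42.SFMain
import Cfsg.Agent.Lib.Helper42.Supersolvable
import Cfsg.Agent.Lib.Helper28.Cores

/-! Groups with squarefree class sizes: the Fitting subgroup. -/

set_option autoImplicit false

namespace Cfsg.Agent.Lib.Helper42

open Subgroup
open scoped commutatorElement

universe u

theorem ucs_two_eq_top {H : Type*} [Group H]
    (h : ∀ a b x : H, (a * b * a⁻¹ * b⁻¹) * x = x * (a * b * a⁻¹ * b⁻¹)) :
    Subgroup.upperCentralSeries H 2 = ⊤ := by
  rw [eq_top_iff]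
  intro a _
  rw [Subgroup.mem_upperCentralSeries_succ_iff]
  intro b
  rw [Subgroup.upperCentralSeries_one, mem_center_iff]
  intro x
  rw [commutatorElement_def]
  exact (h a b x).symm

/-- An element of a nilpotent subgroup normalizing a cyclic subgroup `⟨c⟩ ≤ F` of squarefree order
centralizes it. -/
theorem commute_of_nilpotent_of_squarefree {G : Type*} [Group G] (F : Subgroup G)
    (hF : Group.IsNilpotent F) (c : G) (hc : c ∈ F) (hsq : Squarefree (orderOf c)) (f : G)
    (hf : f ∈ F) (hn : f * c * f⁻¹ ∈ zpowers c) : f * c = c * f := by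
  obtain ⟨k, hk⟩ := hn
  have hk' : c ^ k = f * c * f⁻¹ := hk
  have key : ∀ i : ℕ, c ^ ((1 - k) ^ i) ∈ F.lowerCentralSeries i := by
    intro i
    induction i with
    | zero => simpa using hc
    | succ i ih =>
      rw [Subgroup.lowerCentralSeries_succ]
      have h1 := Subgroup.commutator_mem_commutator ih hf
      have e : ⁅c ^ ((1 - k) ^ i), f⁆ = c ^ ((1 - k) ^ (i + 1)) := by
        rw [commutatorElement_def]
        have e1 : c ^ ((1 - k) ^ i) * f * (c ^ ((1 - k) ^ i))⁻¹ * f⁻¹
            = c ^ ((1 - k) ^ i) * (f * c * f⁻¹) ^ (-((1 - k) ^ i)) := by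
          rw [conj_zpow, zpow_neg]; group
        rw [e1, ← hk', ← zpow_mul, ← zpow_add]
        congr 1
        ring
      rw [e] at h1
      exact h1
  obtain ⟨n, hn⟩ := (isNilpotent_iff_lowerCentralSeries F).1 hF
  have h1 := key n
  rw [hn, mem_bot] at h1
  have h2 : (orderOf c : ℤ) ∣ (1 - k) ^ n := orderOf_dvd_iff_zpow_eq_one.2 h1
  have h3 : (orderOf c : ℤ) ∣ (1 - k) := by
    by_cases hn0 : n = 0
    · subst hn0
      rw [pow_zero] at h2
      exact h2.trans (one_dvd _)
    · exact ((Int.squarefree_natCast.2 hsq).dvd_pow_iff_dvd hn0).1 h2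
  have h4 : c ^ (1 - k) = 1 := orderOf_dvd_iff_zpow_eq_one.1 h3
  have h5 : c ^ k = c := by
    calc c ^ k = c ^ (1 - k) * c ^ k := by rw [h4, one_mul]
      _ = c := by rw [← zpow_add]; simp
  rw [h5] at hk'
  calc f * c = (f * c * f⁻¹) * f := by group
    _ = c * f := by rw [← hk']

theorem ss_of_comm : ∀ (n : ℕ) (A : Type u) [Group A] [Finite A], Nat.card A = n →
    (∀ x y : A, x * y = y * x) → Cfsg.IsSupersolvable A := by
  intro n
  induction n using Nat.strong_induction_on with
  | _ n ih =>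
  intro A _ _ hn hab
  rcases subsingleton_or_nontrivial A with hs | hnt
  · exact ss_of_subsingleton
  · obtain ⟨g, hg⟩ := exists_ne (1 : A)
    have hN : (zpowers g).Normal := ⟨fun x hx y => by
      rw [hab y x]; simpa using hx⟩
    have hne : zpowers g ≠ ⊥ := fun hb => hg (zpowers_eq_bot.1 hb)
    apply ss_of_cyclic_normal (zpowers g)
    apply ih _ (hn ▸ card_quotient_lt' _ hne) _ rfl
    intro x y
    obtain ⟨x, rfl⟩ := QuotientGroup.mk_surjective x
    obtain ⟨y, rfl⟩ := QuotientGroup.mk_surjective y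
    rw [← QuotientGroup.mk_mul, ← QuotientGroup.mk_mul, hab]

theorem sf_structure {G : Type u} [Group G] [Finite G]
    (h : ∀ x : G, Squarefree (centralizer ({x} : Set G)).index) :
    Cfsg.IsSupersolvable G ∧ (Cfsg.fittingSubgroup G).Normal ∧
    (∀ _h : (Cfsg.fittingSubgroup G).Normal, IsCyclic (G ⧸ Cfsg.fittingSubgroup G) ∧
      Squarefree (Cfsg.fittingSubgroup G).index) ∧
    IsCyclic (commutator G) ∧ Squarefree (Nat.card (commutator G)) ∧
    Subgroup.upperCentralSeries ↥(Cfsg.fittingSubgroup G) 2 = ⊤ ∧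
    commutator ↥(commutator G) = ⊥ := by
  obtain ⟨hcyc, hsq⟩ := commutator_cyclic_of_sf _ G rfl h
  have hcm : ∀ a b : G, a * b * a⁻¹ * b⁻¹ ∈ commutator G := fun a b =>
    Subgroup.commutator_mem_commutator (mem_top a) (mem_top b)
  obtain ⟨⟨c, hcD⟩, hgen⟩ := hcyc.exists_generator
  have hDc : ∀ x ∈ commutator G, x ∈ zpowers c := by
    intro x hx
    obtain ⟨i, hi⟩ := hgen ⟨x, hx⟩
    exact ⟨i, congrArg Subtype.val hi⟩
  have hord : orderOf c = Nat.card (commutator G) := by
    have h1 := orderOf_eq_card_of_forall_mem_zpowers hgen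
    rwa [Subgroup.orderOf_mk] at h1
  -- elements commuting with `c` commute with all commutators
  have hCD : ∀ x : G, x * c = c * x → ∀ d ∈ commutator G, d * x = x * d := by
    intro x hx d hd
    obtain ⟨i, rfl⟩ := hDc d hd
    exact ((show Commute x c from hx).zpow_right i).symm.eq
  have hCeq : centralizer ({c} : Set G) = centralizer ((commutator G : Subgroup G) : Set G) := by
    ext x
    rw [mem_centralizer_singleton_iff, mem_centralizer_iff]
    exact ⟨fun hx d hd => hCD x hx d hd, fun hx => (hx c hcD).symm⟩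
  have hCn : (centralizer ({c} : Set G)).Normal := by
    rw [hCeq]; infer_instance
  have hCnil : Group.IsNilpotent (centralizer ({c} : Set G)) := by
    refine ⟨⟨2, ucs_two_eq_top (H := centralizer ({c} : Set G)) ?_⟩⟩
    intro a b x
    apply Subtype.ext
    have hx := x.2
    rw [mem_centralizer_singleton_iff] at hx
    exact hCD x hx _ (hcm a b)
  have hCF : centralizer ({c} : Set G) ≤ Cfsg.fittingSubgroup G :=
    Cfsg.Agent.Lib.Helper28.le_fitting hCn hCnil
  have hFn : (Cfsg.fittingSubgroup G).Normal := Cfsg.Agent.Lib.Helper28.fitting_normal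
  have hFnil : Group.IsNilpotent (Cfsg.fittingSubgroup G) :=
    Cfsg.Agent.Lib.Helper28.fitting_isNilpotent
  have hcC : c ∈ centralizer ({c} : Set G) := by rw [mem_centralizer_singleton_iff]
  have hFC : ∀ f ∈ Cfsg.fittingSubgroup G, f * c = c * f := by
    intro f hf
    apply commute_of_nilpotent_of_squarefree _ hFnil c (hCF hcC) (hord ▸ hsq) f hf
    exact hDc _ ((inferInstance : (commutator G).Normal).conj_mem _ hcD f)
  have hDab : ∀ x y : commutator G, x * y = y * x := by
    intro x y
    obtain ⟨i, hi⟩ := hDc x x.2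
    obtain ⟨j, hj⟩ := hDc y y.2
    apply Subtype.ext
    show (x : G) * y = y * x
    rw [← hi, ← hj]
    exact (((Commute.refl c).zpow_left i).zpow_right j).eq
  refine ⟨?_, hFn, ?_, hcyc, hsq, ?_, ?_⟩
  · apply ss_of_cyclic_normal (commutator G)
    apply ss_of_comm _ _ rfl
    intro x y
    obtain ⟨x, rfl⟩ := QuotientGroup.mk_surjective x
    obtain ⟨y, rfl⟩ := QuotientGroup.mk_surjective y
    rw [← QuotientGroup.mk_mul, ← QuotientGroup.mk_mul, QuotientGroup.eq]
    have e : (x * y)⁻¹ * (y * x) = y⁻¹ * x⁻¹ * y⁻¹⁻¹ * x⁻¹⁻¹ := by group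
    rw [e]
    exact hcm _ _
  · intro hF'
    have hidx : Squarefree (Cfsg.fittingSubgroup G).index :=
      (h c).squarefree_of_dvd (index_dvd_of_le hCF)
    refine ⟨?_, hidx⟩
    apply isCyclic_of_comm_of_squarefree
    · intro x y
      obtain ⟨x, rfl⟩ := QuotientGroup.mk_surjective x
      obtain ⟨y, rfl⟩ := QuotientGroup.mk_surjective y
      rw [← QuotientGroup.mk_mul, ← QuotientGroup.mk_mul, QuotientGroup.eq]
      have e : (x * y)⁻¹ * (y * x) = y⁻¹ * x⁻¹ * y⁻¹⁻¹ * x⁻¹⁻¹ := by group
      rw [e]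
      apply hCF
      rw [mem_centralizer_singleton_iff]
      exact hCD c rfl _ (hcm _ _)
    · exact hidx
  · apply ucs_two_eq_top
    intro a b x
    apply Subtype.ext
    exact hCD x (hFC x x.2) _ (hcm a b)
  · rw [_root_.commutator_def (commutator G), Subgroup.commutator_eq_bot_iff_le_centralizer]
    intro x _
    rw [mem_centralizer_iff]
    intro y _
    exact hDab y x

end Cfsg.Agent.Lib.Helper42
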