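import Mathlib
import Cfsg.Agent.Lib.Helper30.Coprime

set_option autoImplicit false

/-! TI subgroups that are Hall in their normalizer, in separable groups: structure part. -/

namespace Cfsg.Agent.Lib.Helper42.TIHall

open Subgroup Cfsg.Agent.Lib.Helper30

variable {G : Type*} [Group G]

theorem card_sup_dvd (A B : Subgroup G) [A.Normal] :
    Nat.card ↥(A ⊔ B) ∣ Nat.card A * Nat.card B := by
  rw [card_eq_card_mul_relIndex (le_sup_left : A ≤ A ⊔ B), relIndex_sup_left]
  exact Nat.mul_dvd_mul_left _ (relIndex_dvd_card A B)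

theorem core_spec [Finite G] (m : ℕ) (O : Subgroup G)
    (hO : O = sSup {K : Subgroup G | K.Normal ∧ (Nat.card K).Coprime m}) :
    O.Normal ∧ (Nat.card O).Coprime m ∧
      ∀ K : Subgroup G, K.Normal → (Nat.card K).Coprime m → K ≤ O := by
  set S := {K : Subgroup G | K.Normal ∧ (Nat.card K).Coprime m} with hS
  obtain ⟨K, hK⟩ := Set.Finite.exists_maximal (s := S) (Set.toFinite _)
    ⟨⊥, inferInstance, by simp⟩
  have hle : ∀ K' ∈ S, K' ≤ K := by
    intro K' hK'
    have hKn := hK.prop.1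
    have h1 : K ⊔ K' ∈ S := by
      have := hK'.1
      refine ⟨inferInstance, ?_⟩
      exact Nat.Coprime.coprime_dvd_left (card_sup_dvd K K')
        (Nat.Coprime.mul_left hK.prop.2 hK'.2)
    exact le_sup_right.trans (hK.le_of_ge h1 le_sup_left)
  have hOK : O = K := by
    rw [hO]; exact le_antisymm (sSup_le hle) (le_sSup hK.prop)
  rw [hOK]
  exact ⟨hK.prop.1, hK.prop.2, fun K' h1 h2 => hle K' ⟨h1, h2⟩⟩

/-- the hypotheses on `H` -/
structure Ctx (H : Subgroup G) : Prop where
  ti : ∀ g x : G, x ∈ H → x ≠ 1 → g * x * g⁻¹ ∈ H → g ∈ normalizer (H : Set G)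
  hall : (Nat.card H).Coprime (H.subgroupOf (normalizer (H : Set G))).index

theorem exists_ne_one_of_isSylowIn [Finite G] {p : ℕ} {P K : Subgroup G} (hP : IsSylowIn p P K)
    (hpK : p ∣ Nat.card K) : ∃ x ∈ P, x ≠ 1 := by
  by_contra hcon
  push Not at hcon
  have hbot : P = ⊥ := (eq_bot_iff_forall P).2 hcon
  apply hP.not_dvd
  rw [hbot, relIndex_bot_left]
  exact hpK

/-- a `p`-element of the normalizer lies in `H` when `p` divides the order of `H` -/
theorem mem_of_pelement [Finite G] {H : Subgroup G} (c : Ctx H) {p : ℕ} [hp : Fact p.Prime]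
    (hpH : p ∣ Nat.card H) {t : G} (htN : t ∈ normalizer (H : Set G)) {k : ℕ}
    (ht : t ^ p ^ k = 1) : t ∈ H := by
  set N := normalizer (H : Set G) with hN
  have hn : (H.subgroupOf N).Normal := Subgroup.normal_in_normalizer
  set t' : N := ⟨t, htN⟩ with ht'
  have h1 : t' ^ (H.subgroupOf N).index ∈ H.subgroupOf N := Subgroup.pow_index_mem _ t'
  have h2 : t' ^ p ^ k = 1 := by
    apply Subtype.ext
    simpa using ht
  have h3 : (H.subgroupOf N).index.Coprime (orderOf t') := by
    have h4 : orderOf t' ∣ p ^ k := orderOf_dvd_of_pow_eq_one h2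
    have h5 : (H.subgroupOf N).index.Coprime p :=
      (Nat.Coprime.coprime_dvd_left hpH c.hall).symm
    exact Nat.Coprime.coprime_dvd_right h4 (Nat.Coprime.pow_right k h5)
  obtain ⟨m, hm⟩ := exists_pow_eq_self_of_coprime h3
  have h6 : t' ∈ H.subgroupOf N := by
    rw [← hm]
    exact Subgroup.pow_mem _ h1 m
  exact mem_subgroupOf.mp h6

theorem not_dvd_index [Finite G] {H : Subgroup G} (c : Ctx H) {p : ℕ} [hp : Fact p.Prime]
    (hpH : p ∣ Nat.card H) : ¬ p ∣ H.index := by
  intro hidx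
  obtain ⟨P, hP⟩ := exists_isSylowIn p H
  obtain ⟨Q, hQ, hPQ⟩ := exists_isSylowIn_ge (K := ⊤) (le_top : P ≤ ⊤) hP.isPGroup
  by_cases hEq : P = Q
  · apply hQ.not_dvd
    rw [relIndex_top_right, ← hEq, ← relIndex_mul_index hP.le]
    exact Dvd.dvd.mul_left hidx _
  · have hlt : P < Q := lt_of_le_of_ne hPQ hEq
    obtain ⟨t, htQ, htN, htP⟩ := exists_mem_normalizer_not_mem hQ.isPGroup hlt
    obtain ⟨x, hxP, hx1⟩ := exists_ne_one_of_isSylowIn hP hpH
    have htNH : t ∈ normalizer (H : Set G) :=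
      c.ti t x (hP.le hxP) hx1 (hP.le ((mem_normalizer_iff.mp htN x).mp hxP))
    obtain ⟨k, hk⟩ := hQ.isPGroup ⟨t, htQ⟩
    have hk' : t ^ p ^ k = 1 := by
      have := congrArg Subtype.val hk
      simpa using this
    have htH : t ∈ H := mem_of_pelement c hpH htNH hk'
    have hV : P ⊔ zpowers t = P := by
      apply hP.eq_of_le (sup_le hP.le (by rwa [zpowers_le]))
      · exact hQ.isPGroup.to_le (sup_le hPQ (by rwa [zpowers_le]))
      · exact le_sup_left
    apply htP
    rw [← hV]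
    exact le_sup_right (a := P) (mem_zpowers t)

theorem exists_le_cj [Finite G] {H : Subgroup G} (c : Ctx H) {p : ℕ} [hp : Fact p.Prime]
    (hpH : p ∣ Nat.card H) {R : Subgroup G} (hR : IsPGroup p R) : ∃ g : G, R ≤ cj g H := by
  obtain ⟨P, hP⟩ := exists_isSylowIn p H
  have hPtop : IsSylowIn p P ⊤ := by
    refine ⟨le_top, hP.isPGroup, ?_⟩
    rw [relIndex_top_right, ← relIndex_mul_index hP.le]
    intro h
    rcases (Nat.Prime.dvd_mul hp.out).mp h with h | h
    · exact hP.not_dvd h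
    · exact not_dvd_index c hpH h
  obtain ⟨Q, hQ, hRQ⟩ := exists_isSylowIn_ge (K := ⊤) (le_top : R ≤ ⊤) hR
  obtain ⟨k, -, hk⟩ := hPtop.conj hQ
  exact ⟨k, hRQ.trans (hk ▸ cj_mono k hP.le)⟩

theorem sup_normalizer_eq_top [Finite G] {H : Subgroup G} (c : Ctx H) {p : ℕ} [hp : Fact p.Prime]
    (hpH : p ∣ Nat.card H) (K : Subgroup G) [K.Normal] (hpK : p ∣ Nat.card K) :
    K ⊔ normalizer (H : Set G) = ⊤ := by
  obtain ⟨P⟩ : Nonempty (Sylow p K) := inferInstance
  have hfr := Sylow.normalizer_sup_eq_top P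
  set P0 : Subgroup G := (P : Subgroup K).map K.subtype with hP0
  have hS : IsSylowIn p P0 K := isSylowIn_of_sylow P
  obtain ⟨g, hg⟩ := exists_le_cj c hpH hS.isPGroup
  obtain ⟨x, hxP, hx1⟩ := exists_ne_one_of_isSylowIn hS hpK
  have hle : normalizer (P0 : Set G) ≤ cj g (normalizer (H : Set G)) := by
    intro y hy
    rw [mem_cj]
    apply c.ti (g⁻¹ * y * g) (g⁻¹ * x * g) (mem_cj.mp (hg hxP))
    · intro h
      apply hx1
      have : x = g * (g⁻¹ * x * g) * g⁻¹ := by group
      rw [this, h]; group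
    · have h1 : y * x * y⁻¹ ∈ P0 := (mem_normalizer_iff.mp hy x).mp hxP
      have h2 := mem_cj.mp (hg h1)
      have h3 : g⁻¹ * y * g * (g⁻¹ * x * g) * (g⁻¹ * y * g)⁻¹ = g⁻¹ * (y * x * y⁻¹) * g := by group
      rw [h3]; exact h2
  have h1 : cj g (normalizer (H : Set G) ⊔ K) = ⊤ := by
    rw [cj_sup, cj_normal g K, eq_top_iff, ← hfr]
    exact sup_le_sup_right hle K
  have h2 := congrArg (cj g⁻¹) h1
  rw [cj_inv_cj, cj_normal g⁻¹ ⊤] at h2
  rw [sup_comm]; exact h2

theorem relIndex_dvd_index_of_normal_right [Finite G] (H K : Subgroup G) [K.Normal] :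
    H.relIndex K ∣ H.index := by
  have h1 : H.relIndex (K ⊔ H) = H.relIndex K := by
    have e1 : Nat.card ↥(K ⊔ H) = Nat.card K * K.relIndex H := by
      rw [card_eq_card_mul_relIndex (le_sup_left : K ≤ K ⊔ H), relIndex_sup_left]
    have e2 : Nat.card ↥(K ⊔ H) = Nat.card H * H.relIndex (K ⊔ H) :=
      card_eq_card_mul_relIndex le_sup_right
    have e3 : Nat.card H = Nat.card ↥(H ⊓ K) * K.relIndex H := by
      rw [card_eq_card_mul_relIndex (inf_le_left : H ⊓ K ≤ H), inf_relIndex_left]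
    have e4 : Nat.card K = Nat.card ↥(H ⊓ K) * H.relIndex K := by
      rw [card_eq_card_mul_relIndex (inf_le_right : H ⊓ K ≤ K), inf_relIndex_right]
    have hpos : 0 < Nat.card H := Nat.card_pos
    have e5 : Nat.card H * H.relIndex (K ⊔ H) = Nat.card H * H.relIndex K := by
      rw [← e2, e1, e4]
      conv_rhs => rw [e3]
      ring
    exact Nat.eq_of_mul_eq_mul_left hpos e5
  rw [← h1]
  exact relIndex_dvd_index_of_le le_sup_right

theorem part1 [Finite G] {H : Subgroup G} (c : Ctx H) (hH : H ≠ ⊥)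
    (hsep : ∃ (n : ℕ) (M : Fin (n + 1) → Subgroup G), M 0 = ⊥ ∧ M (Fin.last n) = ⊤ ∧ Monotone M ∧
      (∀ i, (M i).Normal) ∧
      ∀ i : Fin n, (∀ q : ℕ, q.Prime → q ∣ (M i.castSucc).relIndex (M i.succ) → q ∣ Nat.card H) ∨
        ((M i.castSucc).relIndex (M i.succ)).Coprime (Nat.card H))
    (O : Subgroup G) (hOn : O.Normal) (hOc : (Nat.card O).Coprime (Nat.card H))
    (hOmax : ∀ K : Subgroup G, K.Normal → (Nat.card K).Coprime (Nat.card H) → K ≤ O) :
    O ⊔ normalizer (H : Set G) = ⊤ := by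
  obtain ⟨n, M, h0, hlast, hmono, hnorm, hfac⟩ := hsep
  have hex : ∃ i : Fin n, M i.castSucc ≤ O ∧ ¬ M i.succ ≤ O := by
    by_contra hcon
    push Not at hcon
    have hall : ∀ j : Fin (n + 1), M j ≤ O := by
      intro j
      induction j using Fin.induction with
      | zero => rw [h0]; exact bot_le
      | succ i ih => exact hcon i ih
    have htop : O = ⊤ := by
      rw [eq_top_iff, ← hlast]; exact hall _
    apply hH
    have h1 : Nat.card H ∣ Nat.card O := by
      rw [htop, card_top]; exact card_subgroup_dvd_card H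
    have h2 : Nat.card H = 1 := Nat.eq_one_of_dvd_coprimes hOc.symm dvd_rfl h1
    exact (card_eq_one).mp h2
  obtain ⟨i, hiO, hiO'⟩ := hex
  set A := M i.castSucc with hA
  set K := M i.succ with hK
  have hKn : K.Normal := hnorm _
  have hAK : A ≤ K := hmono (Fin.castSucc_lt_succ).le
  rcases hfac i with hpi | hcop
  · have hne : A.relIndex K ≠ 1 := by
      intro h
      exact hiO' ((relIndex_eq_one.mp h).trans hiO)
    obtain ⟨p, hp, hpd⟩ := Nat.exists_prime_and_dvd hne
    have := Fact.mk hp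
    have hpH : p ∣ Nat.card H := hpi p hp hpd
    have hpK : p ∣ Nat.card K := hpd.trans (relIndex_dvd_card A K)
    have htop := sup_normalizer_eq_top c hpH K hpK
    have hKle : K ≤ A ⊔ (H ⊓ K) := by
      rw [← relIndex_eq_one]
      by_contra hne1
      obtain ⟨q, hq, hqd⟩ := Nat.exists_prime_and_dvd hne1
      have := Fact.mk hq
      have hqH : q ∣ Nat.card H :=
        hpi q hq (hqd.trans (relIndex_dvd_of_le_left K (le_sup_left : A ≤ A ⊔ (H ⊓ K))))
      have h2 : q ∣ H.relIndex K := by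
        rw [← inf_relIndex_right]
        exact hqd.trans (relIndex_dvd_of_le_left K (le_sup_right : H ⊓ K ≤ A ⊔ (H ⊓ K)))
      exact not_dvd_index c hqH (h2.trans (relIndex_dvd_index_of_normal_right H K))
    rw [eq_top_iff, ← htop]
    apply sup_le _ le_sup_right
    apply hKle.trans
    exact sup_le (hiO.trans le_sup_left) ((inf_le_left.trans le_normalizer).trans le_sup_right)
  · exfalso
    apply hiO'
    apply hOmax K hKn
    rw [card_eq_card_mul_relIndex hAK]
    exact Nat.Coprime.mul_left (Nat.Coprime.coprime_dvd_left (card_dvd_of_le hiO) hOc) hcop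

theorem part2 {H O : Subgroup G} (hOn : O.Normal) (htop : O ⊔ normalizer (H : Set G) = ⊤) :
    (O ⊔ H).Normal := by
  rw [← normalizer_eq_top_iff, eq_top_iff, ← htop]
  apply sup_le
  · exact le_sup_left.trans le_normalizer
  · apply le_normalizer_sup _ le_rfl
    rw [normalizer_eq_top_iff.mpr hOn]
    exact le_top

end Cfsg.Agent.Lib.Helper42.TIHall
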