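import Mathlib
import Cfsg.Agent.Lib.Helper42.TIHall1
import Cfsg.Agent.Lib.Helper27.Signalizer
import Cfsg.Agent.Lib.Helper75.FrobConstruct
import Cfsg.Agent.Lib.Helper71.QuatOdd

set_option autoImplicit false

/-! TI subgroups that are Hall in their normalizer: the fixed-point-free section and
automorphisms of coprime order. -/

namespace Cfsg.Agent.Lib.Helper42.TIHall

open Subgroup Cfsg.Agent.Lib.Helper30
open scoped commutatorElement

variable {G : Type*} [Group G]

theorem centralizes_of_commute {H O : Subgroup G} (c : Ctx H) (hOn : O.Normal)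
    (hdisj : O ⊓ H = ⊥) {u h : G} (hu : u ∈ O) (hh : h ∈ H) (h1 : h ≠ 1) (hc : u * h = h * u) :
    u ∈ centralizer (H : Set G) := by
  have huN : u ∈ normalizer (H : Set G) := by
    apply c.ti u h hh h1
    rw [hc, mul_inv_cancel_right]; exact hh
  exact mem_centralizer_of_mem_normalizer (A := H) (K := O)
    (by rw [normalizer_eq_top_iff.mpr hOn]; exact le_top) hdisj hu huN

theorem conj_pow_eq {h u c : G} (h1 : h * u * h⁻¹ = u * c) (h2 : h * c = c * h) (k : ℕ) :
    h ^ k * u * (h ^ k)⁻¹ = u * c ^ k := by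
  induction k with
  | zero => simp
  | succ k ih =>
    have e : h ^ (k + 1) * u * (h ^ (k + 1))⁻¹ = h * (h ^ k * u * (h ^ k)⁻¹) * h⁻¹ := by
      rw [pow_succ']; group
    rw [e, ih]
    have h3 : h * c ^ k = c ^ k * h := (Commute.pow_right (show Commute h c from h2) k).eq
    calc h * (u * c ^ k) * h⁻¹ = (h * u * h⁻¹) * (h * c ^ k) * h⁻¹ := by group
      _ = u * c * (c ^ k * h) * h⁻¹ := by rw [h1, h3]
      _ = u * c ^ (k + 1) := by rw [pow_succ']; group

theorem exists_frobenius [Finite G] {H O U : Subgroup G} (c : Ctx H) (hH : H ≠ ⊥)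
    (hOn : O.Normal) (hOc : (Nat.card O).Coprime (Nat.card H)) (hUn : U.Normal) (hUO : U ≤ O)
    (hU' : ⁅U, U⁆ ≤ centralizer (H : Set G)) (hUc : ¬ U ≤ centralizer (H : Set G)) :
    ∃ (L : Type) (_ : Group L) (_ : Finite L) (C : Subgroup L), Cfsg.IsFrobeniusComplement C ∧
      Nonempty (H ≃* C) := by
  have hdisj : O ⊓ H = ⊥ := (disjoint_of_coprime_natCard hOc).eq_bot
  set X := U ⊔ H with hX
  set C := U ⊓ centralizer (H : Set G) with hC
  have hCX : C ≤ X := inf_le_left.trans le_sup_left
  have hnC : X ≤ normalizer (C : Set G) := by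
    apply sup_le
    · intro u hu
      rw [mem_normalizer_iff]
      have key : ∀ v ∈ U, ∀ x ∈ C, v * x * v⁻¹ ∈ C := by
        intro v hv x hx
        have h1 : ⁅v, x⁆ ∈ ⁅U, U⁆ := commutator_mem_commutator hv hx.1
        have h2 : ⁅v, x⁆ ∈ C := ⟨commutator_le_right U U h1, hU' h1⟩
        have e : v * x * v⁻¹ = ⁅v, x⁆ * x := by rw [commutatorElement_def]; group
        rw [e]; exact C.mul_mem h2 hx
      intro x
      constructor
      · exact key u hu x
      · intro hx
        have := key u⁻¹ (U.inv_mem hu) _ hx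
        simpa [mul_assoc] using this
    · intro h hh
      rw [mem_normalizer_iff]
      intro x
      constructor
      · intro hx
        have e : h * x * h⁻¹ = x := by
          have := mem_centralizer_iff.mp hx.2 h hh
          rw [this, mul_inv_cancel_right]
        rw [e]; exact hx
      · intro hx
        have h3 := mem_centralizer_iff.mp hx.2 h hh
        have h4 : h * x * h⁻¹ = x := by
          have e : h * (h * x * h⁻¹) = h * x := by rw [h3]; group
          exact mul_left_cancel e
        rw [← h4]; exact hx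
  have hCn : (C.subgroupOf X).Normal := (normal_subgroupOf_iff_le_normalizer hCX).mpr hnC
  let π : X →* X ⧸ C.subgroupOf X := QuotientGroup.mk' _
  have hUXn : (U.subgroupOf X).Normal := inferInstance
  let Ub : Subgroup (X ⧸ C.subgroupOf X) := (U.subgroupOf X).map π
  have hUbn : Ub.Normal := Subgroup.Normal.map hUXn π (QuotientGroup.mk'_surjective _)
  let ι : H →* X := Subgroup.inclusion (le_sup_right : H ≤ X)
  let φ : H →* MulAut Ub := (MulAut.conjNormal (H := Ub)).comp (π.comp ι)
  have hfpf : ∀ h : H, h ≠ 1 → ∀ v : Ub, φ h v = v → v = 1 := by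
    intro h hh1 v hv
    obtain ⟨x, hx, hxv⟩ := v.2
    have e0 : ((φ h v : Ub) : X ⧸ C.subgroupOf X) = π (ι h) * v * (π (ι h))⁻¹ := rfl
    have e1 : π (ι h * x * (ι h)⁻¹) = π x := by
      rw [map_mul, map_mul, map_inv, hxv, ← e0, hv]
    have e2 : x⁻¹ * (ι h * x * (ι h)⁻¹) ∈ C.subgroupOf X := QuotientGroup.eq.mp e1.symm
    have hx : x ∈ U.subgroupOf X := hx
    rw [mem_subgroupOf] at e2 hx
    set u : G := (x : G) with hu
    set g : G := (h : G) with hg
    have e3 : u⁻¹ * (g * u * g⁻¹) ∈ C := e2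
    set d : G := u⁻¹ * (g * u * g⁻¹) with hd
    have hgH : g ∈ H := h.2
    have hg1 : g ≠ 1 := fun h0 => hh1 (Subtype.ext h0)
    have f1 : g * u * g⁻¹ = u * d := by rw [hd]; group
    have f2 : g * d = d * g := mem_centralizer_iff.mp e3.2 g hgH
    have f3 := conj_pow_eq f1 f2 (orderOf g)
    rw [pow_orderOf_eq_one] at f3
    have f4 : d ^ orderOf g = 1 := by
      have : u * 1 = u * d ^ orderOf g := by simpa using f3
      exact (mul_left_cancel this).symm
    have f5 : orderOf d ∣ Nat.card O := by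
      have := orderOf_dvd_natCard (⟨d, hUO e3.1⟩ : O)
      rwa [Subgroup.orderOf_mk] at this
    have f6 : orderOf g ∣ Nat.card H := by
      have := orderOf_dvd_natCard h
      rwa [← Subgroup.orderOf_coe] at this
    have f7 : orderOf d = 1 :=
      Nat.eq_one_of_dvd_coprimes hOc f5 ((orderOf_dvd_of_pow_eq_one f4).trans f6)
    have f8 : d = 1 := orderOf_eq_one_iff.mp f7
    have f9 : u * g = g * u := by
      rw [f8, mul_one] at f1
      calc u * g = (g * u * g⁻¹) * g := by rw [f1]
        _ = g * u := by group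
    have f10 : u ∈ C := ⟨hx, centralizes_of_commute c hOn hdisj (hUO hx) hgH hg1 f9⟩
    have f11 : π x = 1 := (QuotientGroup.eq_one_iff x).mpr (mem_subgroupOf.mpr f10)
    apply Subtype.ext
    rw [← hxv, f11]; rfl
  have hntH : Nontrivial H := (Subgroup.nontrivial_iff_ne_bot H).mpr hH
  have hntU : Nontrivial Ub := by
    obtain ⟨u, huU, huc⟩ := SetLike.not_le_iff_exists.mp hUc
    let x : X := ⟨u, (le_sup_left : U ≤ X) huU⟩
    refine ⟨⟨⟨π x, Subgroup.mem_map_of_mem π (mem_subgroupOf.mpr huU)⟩, 1, ?_⟩⟩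
    intro h0
    have h1 : π x = 1 := congrArg Subtype.val h0
    have h2 : x ∈ C.subgroupOf X := (QuotientGroup.eq_one_iff x).mp h1
    exact huc (mem_subgroupOf.mp h2).2
  obtain ⟨L, i1, i2, C', h1, h2, -⟩ := Cfsg.Agent.Lib.Helper75.exists_frobenius_of_fpf φ hfpf
  exact ⟨L, i1, i2, C', h1, h2⟩

/-- choice of the normal subgroup `U` -/
theorem exists_section [Finite G] {H O : Subgroup G} (hOn : O.Normal) (hOs : Group.IsSolvable O)
    (hOc : ¬ O ≤ centralizer (H : Set G)) :
    ∃ U : Subgroup G, U.Normal ∧ U ≤ O ∧ ⁅U, U⁆ ≤ centralizer (H : Set G) ∧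
      ¬ U ≤ centralizer (H : Set G) := by
  obtain ⟨U, hU⟩ := Set.Finite.exists_minimal
    (s := {U : Subgroup G | U.Normal ∧ U ≤ O ∧ ¬ U ≤ centralizer (H : Set G)})
    (Set.toFinite _) ⟨O, hOn, le_rfl, hOc⟩
  obtain ⟨hUn, hUO, hUc⟩ := hU.prop
  refine ⟨U, hUn, hUO, ?_, hUc⟩
  by_contra hcon
  have hUs : Group.IsSolvable U := isSolvable_of_le hUO hOs
  have hne : U ≠ ⊥ := by
    rintro rfl
    exact hUc bot_le
  have hlt : ⁅U, U⁆ < U := by
    rw [← nontrivial_iff_ne_bot] at hne
    rw [← U.range_subtype, MonoidHom.range_eq_map, ← map_commutator, map_subtype_lt_map_subtype]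
    exact Group.IsSolvable.commutator_lt_top_of_nontrivial U
  have hmem : ⁅U, U⁆ ∈ {U : Subgroup G | U.Normal ∧ U ≤ O ∧ ¬ U ≤ centralizer (H : Set G)} :=
    ⟨inferInstance, hlt.le.trans hUO, hcon⟩
  exact absurd (hU.le_of_le hmem hlt.le) (not_le_of_gt hlt)

/-- the conjugation homomorphism -/
noncomputable def actHom {P E : Subgroup G} (hE : E ≤ normalizer (P : Set G)) : E →* MulAut P :=
  P.normalizerMonoidHom.comp (inclusion hE)

theorem actHom_apply {P E : Subgroup G} (hE : E ≤ normalizer (P : Set G)) (e : E) (q : P) :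
    ((actHom hE e q : P) : G) = e * q * (e : G)⁻¹ := rfl

theorem actHom_eq_one_iff {P E : Subgroup G} (hE : E ≤ normalizer (P : Set G)) (e : E) :
    actHom hE e = 1 ↔ (e : G) ∈ centralizer (P : Set G) := by
  have h1 : actHom hE e = 1 ↔ inclusion hE e ∈ P.normalizerMonoidHom.ker := Iff.rfl
  rw [h1, normalizerMonoidHom_ker, mem_subgroupOf]
  rfl

theorem commutator_le_centralizer_of_comm {P E : Subgroup G} (hE : E ≤ normalizer (P : Set G))
    (hcomm : ∀ x y : E, actHom hE x * actHom hE y = actHom hE y * actHom hE x) :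
    ⁅E, E⁆ ≤ centralizer (P : Set G) := by
  rw [commutator_le]
  intro x hx y hy
  have h1 : actHom hE ⁅(⟨x, hx⟩ : E), ⟨y, hy⟩⁆ = 1 := by
    rw [map_commutatorElement, commutatorElement_eq_one_iff_mul_comm]
    exact hcomm _ _
  exact (actHom_eq_one_iff hE _).mp h1

theorem commutator_le_centralizer_of_cyclic {P E : Subgroup G} (hc : IsCyclic P)
    (hE : E ≤ normalizer (P : Set G)) : ⁅E, E⁆ ≤ centralizer (P : Set G) := by
  apply commutator_le_centralizer_of_comm hE
  intro x y
  apply (hc.mulAutMulEquiv P).injective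
  rw [map_mul, map_mul, mul_comm]

theorem comm_of_odd_card_le {R : Type*} [Group R] [Finite R] (hodd : Odd (Nat.card R))
    (hle : Nat.card R ≤ 8) (a b : R) : a * b = b * a := by
  have hpos : 0 < Nat.card R := Nat.card_pos
  have hcases : Nat.card R = 1 ∨ (Nat.card R).Prime := by
    generalize Nat.card R = n at *
    interval_cases n
    · left; rfl
    · exact absurd hodd (by decide)
    · right; norm_num
    · exact absurd hodd (by decide)
    · right; norm_num
    · exact absurd hodd (by decide)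
    · right; norm_num
    · exact absurd hodd (by decide)
  rcases hcases with h1 | hp
  · have : Subsingleton R := (Nat.card_eq_one_iff_unique.mp h1).1
    exact Subsingleton.elim _ _
  · have := Fact.mk hp
    have hc : IsCyclic R := isCyclic_of_prime_card rfl
    have hm : IsMulCommutative R := IsCyclic.isMulCommutative
    exact hm.is_comm.comm a b

end Cfsg.Agent.Lib.Helper42.TIHall
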