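import Mathlib
import Cfsg.Agent.Lib.Helper42.TIHall2
import Cfsg.Agent.Lib.Helper71.Q8Act

set_option autoImplicit false

/-! TI subgroups that are Hall in their normalizer: solvability. -/

namespace Cfsg.Agent.Lib.Helper42.TIHall

open Subgroup Cfsg.Agent.Lib.Helper30
open scoped commutatorElement

variable {G : Type*} [Group G]

theorem fix_imp_centralizes {Q : Subgroup G} (e : Q ≃* QuaternionGroup 2) {u0 : G}
    (hu0 : u0 ∈ Q) (ho : orderOf u0 = 4) {g : G} (hgQ : g ∈ normalizer (Q : Set G)) {m : ℕ}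
    (hm : Odd m) (hgm : g ^ m = 1) (hfix : g * u0 * g⁻¹ = u0) :
    g ∈ centralizer (Q : Set G) := by
  by_contra hnc
  have hnc' : ∃ u ∈ Q, g * u * g⁻¹ ≠ u := by
    by_contra h
    push Not at h
    apply hnc
    rw [mem_centralizer_iff]
    intro q hq
    have := h q hq
    calc q * g = (g * q * g⁻¹) * g := by rw [this]
      _ = g * q := by group
  obtain ⟨i, j, hi, hj, hoi, hjj, hji, hjz, hgi, hgj, hsix, hall⟩ :=
    Cfsg.Agent.Lib.Helper71.q8_action Q e g (fun u hu => (mem_normalizer_iff.mp hgQ u).mp hu) m hm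
      hgm hnc'
  have hi1 : i ≠ 1 := by
    rintro rfl
    rw [orderOf_one] at hoi; omega
  have hj1 : j ≠ 1 := by
    rintro rfl
    exact hjz (one_mem _)
  have hji' : j ≠ i := by
    rintro rfl
    exact hjz (mem_zpowers _)
  have hsq : u0 * u0 = i ^ 2 := by
    rcases hall u0 hu0 with h | h | h
    · rw [h, orderOf_one] at ho; omega
    · exfalso
      have h4 : i ^ 4 = 1 := by rw [← hoi]; exact pow_orderOf_eq_one i
      have h2 : u0 ^ 2 = 1 := by rw [h, ← pow_mul]; exact h4
      have := orderOf_dvd_of_pow_eq_one h2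
      rw [ho] at this
      omega
    · exact h
  have hgij : g * (i * j) * g⁻¹ = j * (i * j) := by
    calc g * (i * j) * g⁻¹ = (g * i * g⁻¹) * (g * j * g⁻¹) := by group
      _ = j * (i * j) := by rw [hgi, hgj]
  rcases hsix u0 hu0 hsq with rfl | rfl | rfl | rfl | rfl | rfl
  · exact hji' (hgi.symm.trans hfix)
  · apply hji'
    have : (g * i * g⁻¹)⁻¹ = i⁻¹ := by
      rw [← hfix]; group
    rw [hgi] at this
    exact inv_injective this
  · apply hi1
    have : i * u0 = u0 := hgj.symm.trans hfix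
    exact mul_eq_right.mp this
  · apply hi1
    have : (g * j * g⁻¹)⁻¹ = j⁻¹ := by
      rw [← hfix]; group
    rw [hgj] at this
    have h2 : i * j = j := inv_injective this
    exact mul_eq_right.mp h2
  · apply hj1
    have : j * (i * j) = i * j := hgij.symm.trans hfix
    exact mul_eq_right.mp this
  · apply hj1
    have : (g * (i * j) * g⁻¹)⁻¹ = (i * j)⁻¹ := by
      rw [← hfix]; group
    rw [hgij] at this
    have h2 : j * (i * j) = i * j := inv_injective this
    exact mul_eq_right.mp h2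

theorem commutator_le_self (E : Subgroup G) : ⁅E, E⁆ ≤ E := by
  rw [commutator_le]
  intro x hx y hy
  exact E.mul_mem (E.mul_mem (E.mul_mem hx hy) (E.inv_mem hx)) (E.inv_mem hy)

theorem commutator_le_centralizer_of_unique_involution [Finite G] {Q E : Subgroup G}
    (hQ : IsPGroup 2 Q)
    (huniq : ∀ x ∈ Q, ∀ y ∈ Q, orderOf x = 2 → orderOf y = 2 → x = y)
    (hE : E ≤ normalizer (Q : Set G)) (hodd : Odd (Nat.card E)) :
    ⁅E, E⁆ ≤ centralizer (Q : Set G) := by
  by_cases hall : E ≤ centralizer (Q : Set G)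
  · exact (commutator_le_self E).trans hall
  obtain ⟨g, hgE, hgc⟩ := SetLike.not_le_iff_exists.mp hall
  have hpow : ∀ x ∈ E, x ^ Nat.card E = 1 := by
    intro x hx
    have h0 : (⟨x, hx⟩ : E) ^ Nat.card E = 1 := pow_card_eq_one'
    have h1 := congrArg Subtype.val h0
    rwa [Subgroup.coe_pow] at h1
  have hgo : (orderOf g).Coprime 2 := by
    have h1 : Odd (orderOf g) := Odd.of_dvd_nat hodd (orderOf_dvd_of_pow_eq_one (hpow g hgE))
    exact Nat.coprime_two_right.mpr h1
  have hnc : ∃ q ∈ Q, g * q ≠ q * g := by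
    by_contra h
    push Not at h
    apply hgc
    rw [mem_centralizer_iff]
    intro q hq
    exact (h q hq).symm
  obtain ⟨e⟩ := Cfsg.Agent.Lib.Helper71.q8_of_odd_action Q hQ huniq g (hE hgE) hgo hnc
  have hnc' : ∃ u ∈ Q, g * u * g⁻¹ ≠ u := by
    obtain ⟨q, hq, hne⟩ := hnc
    refine ⟨q, hq, fun h => hne ?_⟩
    calc g * q = (g * q * g⁻¹) * g := by group
      _ = q * g := by rw [h]
  obtain ⟨i, j, hi, hj, hoi, -⟩ :=
    Cfsg.Agent.Lib.Helper71.q8_action Q e g (fun u hu => (mem_normalizer_iff.mp (hE hgE) u).mp hu)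
      (Nat.card E) hodd (hpow g hgE) hnc'
  apply commutator_le_centralizer_of_comm hE
  have hinj : Function.Injective
      (fun α : (actHom hE).range => (α : MulAut Q) ⟨i, hi⟩) := by
    rintro ⟨_, a, rfl⟩ ⟨_, b, rfl⟩ hab
    have hab' : actHom hE a ⟨i, hi⟩ = actHom hE b ⟨i, hi⟩ := hab
    apply Subtype.ext
    show actHom hE a = actHom hE b
    have h1 : actHom hE (b⁻¹ * a) ⟨i, hi⟩ = ⟨i, hi⟩ := by
      rw [map_mul, MulAut.mul_apply, hab', map_inv, MulAut.inv_apply_self]
    have h2 : ((b⁻¹ * a : E) : G) * i * ((b⁻¹ * a : E) : G)⁻¹ = i := by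
      have := congrArg Subtype.val h1
      rwa [actHom_apply] at this
    have h3 := fix_imp_centralizes e hi hoi (hE (b⁻¹ * a).2) hodd (hpow _ (b⁻¹ * a).2) h2
    have h4 : actHom hE (b⁻¹ * a) = 1 := (actHom_eq_one_iff hE _).mpr h3
    rw [map_mul, map_inv, inv_mul_eq_one] at h4
    exact h4.symm
  have hcard : Nat.card (actHom hE).range ≤ 8 := by
    calc Nat.card (actHom hE).range ≤ Nat.card Q := Nat.card_le_card_of_injective _ hinj
      _ = 8 := by
        rw [Nat.card_congr e.toEquiv, Nat.card_eq_fintype_card, QuaternionGroup.card]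
  have hodd' : Odd (Nat.card (actHom hE).range) :=
    Odd.of_dvd_nat hodd
      (card_dvd_of_surjective (actHom hE).rangeRestrict (actHom hE).rangeRestrict_surjective)
  intro x y
  have := comm_of_odd_card_le hodd' hcard ⟨actHom hE x, x, rfl⟩ ⟨actHom hE y, y, rfl⟩
  exact congrArg Subtype.val this

theorem isSolvable_of_commutator {E : Subgroup G} (h : Group.IsSolvable ↥⁅E, E⁆) :
    Group.IsSolvable E := by
  rw [Group.isSolvable_iff_subgroup_quotient (commutator E)]
  constructor
  · let f : commutator E →* ↥⁅E, E⁆ :=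
      (E.subtype.comp (commutator E).subtype).codRestrict ⁅E, E⁆ (fun x => by
        rw [← map_subtype_commutator]
        exact mem_map_of_mem _ x.2)
    have hf : Function.Injective f := by
      intro x y hxy
      have h1 : ((x : E) : G) = ((y : E) : G) := congrArg (fun z : ↥⁅E, E⁆ => (z : G)) hxy
      exact Subtype.ext (Subtype.ext h1)
    exact Group.isSolvable_of_isSolvable_injective hf
  · show Group.IsSolvable (Abelianization E)
    infer_instance

theorem solvable_main [Finite G] {H O : Subgroup G} (c : Ctx H) (hH : H ≠ ⊥) (hnn : ¬ H.Normal)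
    (hOn : O.Normal) (hOc : (Nat.card O).Coprime (Nat.card H))
    (hOmax : ∀ K : Subgroup G, K.Normal → (Nat.card K).Coprime (Nat.card H) → K ≤ O)
    (htop : O ⊔ normalizer (H : Set G) = ⊤) (hOs : Group.IsSolvable O)
    (hZ : (∃ (L : Type) (_ : Group L) (_ : Finite L) (C : Subgroup L),
        Cfsg.IsFrobeniusComplement C ∧ Nonempty (H ≃* C)) →
      Group.IsSolvable H ∧ (∀ s t : H, orderOf s = 2 → orderOf t = 2 → s = t) ∧
      ∀ (p : ℕ) [Fact p.Prime] (P : Sylow p H),
        IsCyclic P ∨ ∃ n : ℕ, Nonempty (P ≃* QuaternionGroup (2 ^ n))) :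
    Group.IsSolvable G := by
  have hOnc : ¬ O ≤ centralizer (H : Set G) := by
    intro h
    apply hnn
    rw [← normalizer_eq_top_iff, eq_top_iff, ← htop]
    exact sup_le (h.trans (centralizer_le_normalizer _)) le_rfl
  obtain ⟨U, hUn, hUO, hU', hUc⟩ := exists_section hOn hOs hOnc
  obtain ⟨hs, huniq, hsyl⟩ := hZ (exists_frobenius c hH hOn hOc hUn hUO hU' hUc)
  set N := normalizer (H : Set G) with hN
  have hHn : (H.subgroupOf N).Normal := normal_in_normalizer
  have hcardH' : Nat.card (H.subgroupOf N) = Nat.card H := card_subgroupOf le_normalizer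
  obtain ⟨E', hE'⟩ := exists_right_complement'_of_coprime (N := H.subgroupOf N)
    (by rw [hcardH']; exact c.hall)
  set E := E'.map N.subtype with hE
  have hEN : E ≤ N := map_subtype_le _
  have hcardE : Nat.card E = (H.subgroupOf N).index := by
    rw [hE, card_map_of_injective N.subtype_injective]
    exact hE'.symm.index_eq_card.symm
  have hcop : (Nat.card E).Coprime (Nat.card H) := by
    rw [hcardE]; exact c.hall.symm
  have hsup : H ⊔ E = N := by
    have h1 := hE'.sup_eq_top
    have h2 := congrArg (Subgroup.map N.subtype) h1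
    rw [Subgroup.map_sup, map_subgroupOf_eq_of_le le_normalizer, ← MonoidHom.range_eq_map,
      range_subtype] at h2
    exact h2
  have key : ∀ p : ℕ, p.Prime → ∃ P, IsSylowIn p P H ∧ ⁅E, E⁆ ≤ centralizer (P : Set G) := by
    intro p hp
    have := Fact.mk hp
    obtain ⟨P, hP, hEP⟩ := exists_invariant_isSylowIn (A := E) (K := H) hEN hcop (Or.inr hs) p
    refine ⟨P, hP, ?_⟩
    obtain ⟨P', hP'⟩ := hP.exists_sylow
    let f : (P' : Subgroup H) ≃* P :=
      ((P' : Subgroup H).equivMapOfInjective H.subtype H.subtype_injective).trans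
        (MulEquiv.subgroupCongr hP')
    rcases hsyl p P' with hc | ⟨n, ⟨q⟩⟩
    · have hcP : IsCyclic P := isCyclic_of_surjective f f.surjective
      exact commutator_le_centralizer_of_cyclic hcP hEP
    · have hnz : NeZero (2 ^ n) := ⟨by positivity⟩
      have hcardP : Nat.card P = 4 * 2 ^ n := by
        rw [← Nat.card_congr f.toEquiv, Nat.card_congr q.toEquiv, Nat.card_eq_fintype_card,
          QuaternionGroup.card]
      have h2P : 2 ∣ Nat.card P := by
        rw [hcardP]; exact Dvd.intro (2 * 2 ^ n) (by ring)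
      have hp2 : p = 2 := by
        obtain ⟨k, hk⟩ := IsPGroup.iff_card.mp hP.isPGroup
        rw [hk] at h2P
        exact ((Nat.prime_dvd_prime_iff_eq Nat.prime_two hp).mp
          (Nat.Prime.dvd_of_dvd_pow Nat.prime_two h2P)).symm
      subst hp2
      have hoddE : Odd (Nat.card E) := by
        have h2H : 2 ∣ Nat.card H := h2P.trans (card_dvd_of_le hP.le)
        rw [← Nat.not_even_iff_odd, even_iff_two_dvd]
        intro h
        exact absurd (Nat.eq_one_of_dvd_coprimes hcop h h2H) (by norm_num)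
      apply commutator_le_centralizer_of_unique_involution hP.isPGroup _ hEP hoddE
      intro x hx y hy hox hoy
      have := huniq ⟨x, hP.le hx⟩ ⟨y, hP.le hy⟩ (by rw [Subgroup.orderOf_mk]; exact hox)
        (by rw [Subgroup.orderOf_mk]; exact hoy)
      exact congrArg Subtype.val this
  have hHc : H ≤ centralizer ((⁅E, E⁆ : Subgroup G) : Set G) := by
    rw [← relIndex_eq_one]
    by_contra hne
    obtain ⟨p, hp, hpd⟩ := Nat.exists_prime_and_dvd hne
    obtain ⟨P, hP, hPc⟩ := key p hp
    exact hP.not_dvd (hpd.trans (relIndex_dvd_of_le_left H (le_centralizer_iff.mp hPc)))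
  have hO' : ∀ A : Subgroup G, A ≤ normalizer (O : Set G) := fun A => by
    rw [normalizer_eq_top_iff.mpr hOn]; exact le_top
  have hWn : (O ⊔ ⁅E, E⁆).Normal := by
    rw [← normalizer_eq_top_iff, eq_top_iff, ← htop, ← hsup]
    refine sup_le (le_sup_left.trans le_normalizer) (sup_le ?_ ?_)
    · exact le_normalizer_sup (hO' H) (hHc.trans (centralizer_le_normalizer _))
    · exact le_normalizer_sup (hO' E) (le_normalizer_commutator le_normalizer le_normalizer)
  have hWc : (Nat.card ↥(O ⊔ ⁅E, E⁆)).Coprime (Nat.card H) :=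
    Nat.Coprime.coprime_dvd_left (card_sup_dvd O ⁅E, E⁆)
      (Nat.Coprime.mul_left hOc
        (Nat.Coprime.coprime_dvd_left (card_dvd_of_le (commutator_le_self E)) hcop))
  have hDO : ⁅E, E⁆ ≤ O := le_sup_right.trans (hOmax _ hWn hWc)
  have hDs : Group.IsSolvable ↥⁅E, E⁆ := isSolvable_of_le hDO hOs
  have hEs : Group.IsSolvable E := isSolvable_of_commutator hDs
  have hNs : Group.IsSolvable ↥(H ⊔ E) := Cfsg.Agent.Lib.Helper27.isSolvable_sup hs hEs hEN
  have hGs : Group.IsSolvable ↥(O ⊔ (H ⊔ E)) :=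
    Cfsg.Agent.Lib.Helper27.isSolvable_sup hOs hNs (hO' _)
  rw [hsup, htop] at hGs
  exact Group.isSolvable_of_surjective (MonoidHom.range_eq_top.mp (range_subtype ⊤))

end Cfsg.Agent.Lib.Helper42.TIHall
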